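import Mathlib
import Cfsg.Prelude.Def_FusionSystem
import Cfsg.Prelude.Def_FusionComponents
import Cfsg.Agent.H85.Basic
import Cfsg.Agent.H85.Aut
import Cfsg.Agent.Lib.Helper88.FCStmt

/-! Statements of the pieces for S5127 (join part): for `E` normal in the saturated `F` over `T`,
the subgroups of `C_S(T)` centralizing `E` are closed under joins, so there is a largest one.

Notation in the sketches: `C₀ = C_S(T) = centralizerIn S T`; `XX` is the set of `X ≤ C₀` with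
`ECentral F E X` (every map of `E` extends to a map of `F` fixing `X` elementwise). For `X ≤ C₀`
and `P ≤ T`, `K_X(P)` is the set of `κ ∈ Aut_F(P X)` that are the identity on `P` and move every
`x ∈ X` by an element `z_κ(x) = x⁻¹ κ(x)` of `T` (`IsK`). When `P` is `E`-centric, `Z(T) ≤ P`,
`(P X) ∩ T = P` and `z_κ(x) ∈ Z(P)`. -/

set_option autoImplicit false

namespace Cfsg.Agent.Lib.Helper88.CEStmt

open Cfsg Cfsg.FusionSystem Cfsg.Agent.Lib.Helper88.FCStmt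

universe u

variable {Ω : Type*} [Group Ω] {S : Subgroup Ω}

/-- `κ ∈ K_X(P)`: an element of `Aut_F(P X)` that is the identity on `P` and moves every element
of `X` by an element of `T`. -/
def IsK (F : FusionSystem S) (T P X : Subgroup Ω) (κ : MulAut ↥(P ⊔ X)) : Prop :=
  κ ∈ F.autGroup (P ⊔ X) ∧ (∀ u : ↥(P ⊔ X), (u : Ω) ∈ P → κ u = u) ∧
    ∀ x : ↥(P ⊔ X), (x : Ω) ∈ X → (x : Ω)⁻¹ * ((κ x : ↥(P ⊔ X)) : Ω) ∈ T

/-- `J(P)`: for every `X` centralizing `E` and every `κ ∈ K_X(P)`, the displacements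
`x⁻¹ κ(x)` (`x ∈ X`) are fixed by `Aut_E(P)`. -/
def JAt (F : FusionSystem S) {T : Subgroup Ω} (E : FusionSystem T) (P : Subgroup Ω) : Prop :=
  ∀ X : Subgroup Ω, X ≤ centralizerIn S T → ECentral F E X →
    ∀ κ : MulAut ↥(P ⊔ X), IsK F T P X κ → ∀ α ∈ E.autGroup P,
      ∀ x : ↥(P ⊔ X), (x : Ω) ∈ X → ∀ z : P,
        (z : Ω) = (x : Ω)⁻¹ * ((κ x : ↥(P ⊔ X)) : Ω) → α z = z

/-- KMEM: for `P` with `C_T(P) ≤ P`, `X ≤ C_S(T)` and `κ ∈ K_X(P)`, every displacement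
`x⁻¹ κ(x)` lies in `P` and commutes with every element of `P`. (Elements of `P X` are products
`u x'`; if `u x' ∈ T` then `x' ∈ T ∩ C_S(T) ≤ C_T(P) ≤ P`. And `κ(x)`, `x` both centralize `P`.) -/
def KMem : Prop :=
  ∀ {Ω : Type u} [Group Ω] {S : Subgroup Ω} (F : FusionSystem S) (T : Subgroup Ω) (_ : T ≤ S)
    (P : Subgroup Ω) (_ : P ≤ T) (_ : centralizerIn T P ≤ P) (X : Subgroup Ω)
    (_ : X ≤ centralizerIn S T) (κ : MulAut ↥(P ⊔ X)) (_ : IsK F T P X κ) (x : ↥(P ⊔ X)),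
    (x : Ω) ∈ X →
      (x : Ω)⁻¹ * ((κ x : ↥(P ⊔ X)) : Ω) ∈ P ∧
      ∀ u ∈ P, u * ((x : Ω)⁻¹ * ((κ x : ↥(P ⊔ X)) : Ω)) =
        (x : Ω)⁻¹ * ((κ x : ↥(P ⊔ X)) : Ω) * u

/-- JEXTW: let `T` be strongly closed in the saturated `F`, `R ≤ S`, and `κ ∈ Aut_F(R)` the
identity on `R ∩ T`, moving every `y ∈ R` by an element of `T` centralizing `R ∩ T`. Then there
are a map `χ` of `F` with source `N_S(R)` and `h ∈ S` with `χ(κ(y)) = h χ(y) h⁻¹` on `R`.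
(Take `χ : N_S(R) → S` in `F` with `χ(R)` fully automized; apply WSYL to `χ κ χ⁻¹`.) -/
def KConjS : Prop :=
  ∀ {Ω : Type u} [Group Ω] {S : Subgroup Ω} [Finite S] (p : ℕ) [Fact p.Prime] (_ : IsPGroup p S)
    (F : FusionSystem S) (_ : F.IsSaturated p) (T : Subgroup Ω) (_ : F.StronglyClosed T)
    (R : Subgroup Ω) (_ : R ≤ S) (κ : MulAut R) (_ : κ ∈ F.autGroup R)
    (_ : ∀ x : R, (x : Ω) ∈ T → κ x = x)
    (_ : ∀ y : R, (y : Ω)⁻¹ * ((κ y : R) : Ω) ∈ T ∧ ∀ x : R, (x : Ω) ∈ T →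
      (y : Ω)⁻¹ * ((κ y : R) : Ω) * (x : Ω) = (x : Ω) * ((y : Ω)⁻¹ * ((κ y : R) : Ω))),
    ∃ χ ∈ F.Hom (normalizerIn S R), ∃ h ∈ S, ∀ (y : R) (hy : (y : Ω) ∈ normalizerIn S R)
      (hy' : ((κ y : R) : Ω) ∈ normalizerIn S R), χ ⟨_, hy'⟩ = h * χ ⟨_, hy⟩ * h⁻¹

/-- JBASE: `J(T)`. (For `κ ∈ K_X(T)`: by KCONJS `χ κ χ⁻¹ = c_h` on `χ(T X) = T χ(X)`; `h`
centralizes `T`, so `h ∈ C₀`, `χ(X) ≤ C₀`, and `χ(z_κ(x)) = [χ(x)⁻¹, h] ∈ [C₀, C₀] ∩ T`, which is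
fixed by `Aut_E(T)` by COMM. As `χ|T ∈ Aut_F(T)` normalizes `Aut_E(T)`, `z_κ(x)` is fixed by
`Aut_E(T)`.) -/
def JBase : Prop :=
  ∀ {Ω : Type u} [Group Ω] {S : Subgroup Ω} [Finite S] (p : ℕ) [Fact p.Prime] (_ : IsPGroup p S)
    (F : FusionSystem S) (_ : F.IsSaturated p) {T : Subgroup Ω} (E : FusionSystem T)
    (_ : E.IsNormalIn F p), JAt F E T

/-- JTRANS: transport of `K_X(P)` along an isomorphism `φ : P → P'` of `E`, for `X` centralizing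
`E`: if `φ^` is the extension of `φ` to `P X` fixing `X`, then `κ' = φ^ κ φ^⁻¹ ∈ K_X(P')` and
`z_κ'(x) = φ(z_κ(x))`. -/
def JTrans : Prop :=
  ∀ {Ω : Type u} [Group Ω] {S : Subgroup Ω} [Finite S] (p : ℕ) [Fact p.Prime] (_ : IsPGroup p S)
    (F : FusionSystem S) (_ : F.IsSaturated p) {T : Subgroup Ω} (E : FusionSystem T)
    (_ : E.IsNormalIn F p) (P : Subgroup Ω) (_ : E.IsCentric P) (X : Subgroup Ω)
    (_ : X ≤ centralizerIn S T) (_ : ECentral F E X) (φ : P →* Ω) (_ : φ ∈ E.Hom P)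
    (P' : Subgroup Ω) (_ : φ.range = P') (κ : MulAut ↥(P ⊔ X)) (_ : IsK F T P X κ),
    ∃ κ' : MulAut ↥(P' ⊔ X), IsK F T P' X κ' ∧
      ∀ (x : Ω) (hx : x ∈ X) (z : P),
        (z : Ω) = x⁻¹ * ((κ ⟨x, Subgroup.mem_sup_right hx⟩ : ↥(P ⊔ X)) : Ω) →
        x⁻¹ * ((κ' ⟨x, Subgroup.mem_sup_right hx⟩ : ↥(P' ⊔ X)) : Ω) = φ z

/-- JRED: `J(P')` implies `J(P)` for an `E`-conjugate `P' = φ(P)` of the `E`-centric `P`.
(JTRANS; `φ α φ⁻¹ ∈ Aut_E(P')` fixes `φ(z)`.) -/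
def JRed : Prop :=
  ∀ {Ω : Type u} [Group Ω] {S : Subgroup Ω} [Finite S] (p : ℕ) [Fact p.Prime] (_ : IsPGroup p S)
    (F : FusionSystem S) (_ : F.IsSaturated p) {T : Subgroup Ω} (E : FusionSystem T)
    (_ : E.IsNormalIn F p) (P : Subgroup Ω) (_ : E.IsCentric P) (φ : P →* Ω) (_ : φ ∈ E.Hom P)
    (P' : Subgroup Ω) (_ : φ.range = P'), JAt F E P' → JAt F E P

/-- JCARD: if `P` is fully normalized in `E` then `|N_T(ψ(P))| ≤ |N_T(P)|` for every map `ψ` of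
`F` with source `P`. (Frattini: `ψ = β ∘ φ₀` with `φ₀` in `E`, `β ∈ Aut_F(T)`.) -/
def JCard : Prop :=
  ∀ {Ω : Type u} [Group Ω] {S : Subgroup Ω} [Finite S] (F : FusionSystem S) {T : Subgroup Ω}
    (E : FusionSystem T) (_ : E.IsInvariantIn F) (P : Subgroup Ω) (_ : E.IsFullyNormalized P)
    (ψ : P →* Ω) (_ : ψ ∈ F.Hom P),
    Nat.card (normalizerIn T ψ.range) ≤ Nat.card (normalizerIn T P)

/-- JEXT: for `P` `E`-centric and fully normalized in `E`, every `κ ∈ K_X(P)` extends to an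
element of `Aut_F(N_T(P) X)`. (KCONJS gives `χ`, `h` with `χ κ = c_h χ` on `P X`; `h`
centralizes `χ(P)`, so it normalizes `N_T(χ(P)) = χ(N_T(P))` (JCARD) and `χ(P X)`, hence
`χ(N_T(P) X)`; take `χ⁻¹ c_h χ`.) -/
def JExt : Prop :=
  ∀ {Ω : Type u} [Group Ω] {S : Subgroup Ω} [Finite S] (p : ℕ) [Fact p.Prime] (_ : IsPGroup p S)
    (F : FusionSystem S) (_ : F.IsSaturated p) {T : Subgroup Ω} (E : FusionSystem T)
    (_ : E.IsNormalIn F p) (P : Subgroup Ω) (_ : E.IsCentric P) (_ : E.IsFullyNormalized P)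
    (X : Subgroup Ω) (_ : X ≤ centralizerIn S T) (κ : MulAut ↥(P ⊔ X)) (_ : IsK F T P X κ),
    ∃ κ₁ ∈ F.autGroup (normalizerIn T P ⊔ X),
      ∀ (u : ↥(P ⊔ X)) (hu : (u : Ω) ∈ normalizerIn T P ⊔ X),
        ((κ₁ ⟨u, hu⟩ : ↥(normalizerIn T P ⊔ X)) : Ω) = ((κ u : ↥(P ⊔ X)) : Ω)

/-- JCEN: let `T` be strongly closed in `F`, `C_T(P) ≤ P ≤ P₁ ≤ T`, `X ≤ C_S(T)` and
`κ₁ ∈ Aut_F(P₁ X)`. Then `x⁻¹ κ₁(x)` commutes with every element of `P₁`, for `x ∈ X`.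
(`(P₁ X) ∩ T = P₁`, so `κ₁(P₁) = P₁`; apply `κ₁` to `t₀ x t₀⁻¹ = x`.) -/
def JCen : Prop :=
  ∀ {Ω : Type u} [Group Ω] {S : Subgroup Ω} [Finite S] (F : FusionSystem S) (T : Subgroup Ω)
    (_ : F.StronglyClosed T) (P P₁ : Subgroup Ω) (_ : P ≤ P₁) (_ : P₁ ≤ T)
    (_ : centralizerIn T P ≤ P) (X : Subgroup Ω) (_ : X ≤ centralizerIn S T)
    (κ₁ : MulAut ↥(P₁ ⊔ X)) (_ : κ₁ ∈ F.autGroup (P₁ ⊔ X)) (x : ↥(P₁ ⊔ X)), (x : Ω) ∈ X →
    ∀ t ∈ P₁, t * ((x : Ω)⁻¹ * ((κ₁ x : ↥(P₁ ⊔ X)) : Ω)) =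
      (x : Ω)⁻¹ * ((κ₁ x : ↥(P₁ ⊔ X)) : Ω) * t

/-- JCOM: the commutator step. Let `P ≤ P₁` be `E`-centric, `X` centralize `E`,
`κ₁ ∈ Aut_F(P₁ X)` the identity on `P` with `x⁻¹ κ₁(x) ∈ P` for `x ∈ X`, and `α₁ ∈ Aut_E(P₁)`
with `α₁(P) ≤ P`. If `J(P₁)` holds then `α₁` fixes `z α₁(z)⁻¹` for every displacement
`z = x⁻¹ κ₁(x)`. (With `α₁^` the lift of `α₁` fixing `X`, `c = κ₁ α₁^ κ₁⁻¹ α₁^⁻¹` restricts to
`δ ∈ Aut_E(P₁)` on `P₁` (`Aut_E(P₁)` is normal in `Aut_F(P₁)`), `δ` fixes `P` elementwise, and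
`c(x') = x' z(x') α₁(z(x'))⁻¹`; so `δ^⁻¹ c ∈ K_X(P₁)` with these displacements.) -/
def JCom : Prop :=
  ∀ {Ω : Type u} [Group Ω] {S : Subgroup Ω} [Finite S] (p : ℕ) [Fact p.Prime] (_ : IsPGroup p S)
    (F : FusionSystem S) (_ : F.IsSaturated p) {T : Subgroup Ω} (E : FusionSystem T)
    (_ : E.IsNormalIn F p) (P P₁ : Subgroup Ω) (_ : E.IsCentric P) (_ : E.IsCentric P₁)
    (_ : P ≤ P₁) (X : Subgroup Ω) (_ : X ≤ centralizerIn S T) (_ : ECentral F E X)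
    (κ₁ : MulAut ↥(P₁ ⊔ X)) (_ : κ₁ ∈ F.autGroup (P₁ ⊔ X))
    (_ : ∀ u : ↥(P₁ ⊔ X), (u : Ω) ∈ P → κ₁ u = u)
    (_ : ∀ x : ↥(P₁ ⊔ X), (x : Ω) ∈ X → (x : Ω)⁻¹ * ((κ₁ x : ↥(P₁ ⊔ X)) : Ω) ∈ P)
    (α₁ : MulAut P₁) (_ : α₁ ∈ E.autGroup P₁) (_ : ∀ u : P₁, (u : Ω) ∈ P → ((α₁ u : P₁) : Ω) ∈ P)
    (_ : JAt F E P₁) (x : ↥(P₁ ⊔ X)) (_ : (x : Ω) ∈ X) (z : P₁)
    (_ : (z : Ω) = (x : Ω)⁻¹ * ((κ₁ x : ↥(P₁ ⊔ X)) : Ω)),
    α₁ (z * (α₁ z)⁻¹) = z * (α₁ z)⁻¹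

/-- JPP: an automorphism `α` with `α ^ m = 1`, `m` prime to `p`, fixes the `p`-element `z` as
soon as `z` commutes with `α z` and `α` fixes `z (α z)⁻¹`.
(`w = z (α z)⁻¹`: `α^j z = w^{-j} z`, so `w ^ m = 1`, and `w ^ (p ^ n) = 1`.) -/
def JPP : Prop :=
  ∀ {G : Type u} [Group G] (p n m : ℕ) [Fact p.Prime] (_ : m.Coprime p) (α : MulAut G)
    (_ : α ^ m = 1) (z : G) (_ : z ^ (p ^ n) = 1) (_ : z * α z = α z * z)
    (_ : α (z * (α z)⁻¹) = z * (α z)⁻¹), α z = z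

/-- JNORM: for `P` fully normalized in the saturated `E`, every `α ∈ Aut_E(P)` normalizing
`Aut_T(P)` extends to an element of `Aut_E(N_T(P))`. (Receptivity.) -/
def JNorm : Prop :=
  ∀ {Ω : Type u} [Group Ω] {T : Subgroup Ω} [Finite T] (p : ℕ) [Fact p.Prime] (_ : IsPGroup p T)
    (E : FusionSystem T) (_ : E.IsSaturated p) (P : Subgroup Ω) (_ : E.IsFullyNormalized P)
    (α : MulAut P) (_ : α ∈ E.autGroup P)
    (_ : ∀ t ∈ normalizerIn T P, ∃ t' ∈ normalizerIn T P, ∀ (u : P) (h : t * (u : Ω) * t⁻¹ ∈ P),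
      ((α ⟨_, h⟩ : P) : Ω) = t' * ((α u : P) : Ω) * t'⁻¹),
    ∃ α₁ ∈ E.autGroup (normalizerIn T P), ∀ (u : P) (hu : (u : Ω) ∈ normalizerIn T P),
      ((α₁ ⟨u, hu⟩ : ↥(normalizerIn T P)) : Ω) = ((α u : P) : Ω)

/-- JFIX: a normal subgroup of a finite group containing a Sylow `p`-subgroup `Q` and all
elements of order prime to `p` of `N_G(Q)` is the whole group. (SylowGen in `N_G(Q)` and the
Frattini argument.) -/
def JFix : Prop :=
  ∀ {G : Type u} [Group G] [Finite G] (p : ℕ) [Fact p.Prime] (Q : Sylow p G) (N : Subgroup G)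
    (_ : N.Normal) (_ : (Q : Subgroup G) ≤ N)
    (_ : ∀ g ∈ Subgroup.normalizer ((Q : Subgroup G) : Set G), (orderOf g).Coprime p → g ∈ N),
    N = ⊤

/-- JSTEP: for `P` `E`-centric and fully normalized in `E`, `J(N_T(P))` implies `J(P)`.
(Fix `X`. `N = {α ∈ Aut_E(P) : α fixes all z_κ(x), κ ∈ K_X(P), x ∈ X}` is normal in `Aut_E(P)`
by JTRANS with `P' = P`; contains `Aut_T(P)` by JEXT + JCEN; contains the `p'`-elements of
`N(Aut_T(P))` by JNORM + JEXT + JCOM + JPP (displacements lie in `Z(P)` by KMEM); JFIX.) -/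
def JStep : Prop :=
  ∀ {Ω : Type u} [Group Ω] {S : Subgroup Ω} [Finite S] (p : ℕ) [Fact p.Prime] (_ : IsPGroup p S)
    (F : FusionSystem S) (_ : F.IsSaturated p) {T : Subgroup Ω} (E : FusionSystem T)
    (_ : E.IsNormalIn F p) (P : Subgroup Ω) (_ : E.IsCentric P) (_ : E.IsFullyNormalized P),
    JAt F E (normalizerIn T P) → JAt F E P

/-- JALL: `J(P)` for every `E`-centric `P`. (Induction on `|T : P|`: JBASE for `P = T`;
otherwise pass to a fully `E`-normalized conjugate `P'` (JRED), `N_T(P') > P'` is `E`-centric,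
JSTEP.) -/
def JAll : Prop :=
  ∀ {Ω : Type u} [Group Ω] {S : Subgroup Ω} [Finite S] (p : ℕ) [Fact p.Prime] (_ : IsPGroup p S)
    (F : FusionSystem S) (_ : F.IsSaturated p) {T : Subgroup Ω} (E : FusionSystem T)
    (_ : E.IsNormalIn F p) (P : Subgroup Ω), E.IsCentric P → JAt F E P

/-- UFIX: let `P` be `E`-centric with `J(P)`, `X` centralize `E`, and `ψ ∈ Aut_F(P C₀)` of order
prime to `p`, restricting to an element `α` of `Aut_E(P)` and moving `C₀` by elements of `T`.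
Then `ψ` fixes `X` elementwise. (`g = ψ|PX` and the lift `a` of `α` fixing `X` satisfy
`g a⁻¹ ∈ K_X(P)`, an abelian `p`-group normalized by `a`; CoprimeConj gives `g = ν⁻¹ a ν`, so `g`
fixes `ν⁻¹(x) = x z_ν(x)⁻¹`, and `α` fixes `z_ν(x)` by `J(P)`.) -/
def UFix : Prop :=
  ∀ {Ω : Type u} [Group Ω] {S : Subgroup Ω} [Finite S] (p : ℕ) [Fact p.Prime] (_ : IsPGroup p S)
    (F : FusionSystem S) (_ : F.IsSaturated p) {T : Subgroup Ω} (E : FusionSystem T)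
    (_ : E.IsNormalIn F p) (P : Subgroup Ω) (_ : E.IsCentric P) (_ : JAt F E P)
    (X : Subgroup Ω) (_ : X ≤ centralizerIn S T) (_ : ECentral F E X)
    (ψ : MulAut ↥(P ⊔ centralizerIn S T)) (_ : ψ ∈ F.autGroup (P ⊔ centralizerIn S T))
    (m : ℕ) (_ : m.Coprime p) (_ : ψ ^ m = 1) (α : MulAut P) (_ : α ∈ E.autGroup P)
    (_ : ∀ u : P, ((ψ (Subgroup.inclusion le_sup_left u) : ↥(P ⊔ centralizerIn S T)) : Ω) =
      ((α u : P) : Ω))
    (_ : ∀ c : ↥(P ⊔ centralizerIn S T), (c : Ω) ∈ centralizerIn S T →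
      (c : Ω)⁻¹ * ((ψ c : ↥(P ⊔ centralizerIn S T)) : Ω) ∈ T),
    ∀ c : ↥(P ⊔ centralizerIn S T), (c : Ω) ∈ X → ψ c = c

/-- PPART: an element `α` of `Aut_E(P)` of order prime to `p`, `P` an `E`-centric subgroup,
extends to an element `ψ` of `Aut_F(P C₀)` of order prime to `p` moving `C₀` by elements of `T`.
(A good extension `ψ₀` (GoodAll) maps `P C₀` onto itself; take a suitable power.) -/
def PPart : Prop :=
  ∀ {Ω : Type u} [Group Ω] {S : Subgroup Ω} [Finite S] (p : ℕ) [Fact p.Prime] (_ : IsPGroup p S)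
    (F : FusionSystem S) (_ : F.IsSaturated p) {T : Subgroup Ω} (E : FusionSystem T)
    (_ : E.IsNormalIn F p) (P : Subgroup Ω) (_ : E.IsCentric P) (α : MulAut P)
    (_ : α ∈ E.autGroup P) (m : ℕ) (_ : m.Coprime p) (_ : α ^ m = 1),
    ∃ ψ ∈ F.autGroup (P ⊔ centralizerIn S T), ∃ m' : ℕ, m'.Coprime p ∧ ψ ^ m' = 1 ∧
      (∀ u : P, ((ψ (Subgroup.inclusion le_sup_left u) : ↥(P ⊔ centralizerIn S T)) : Ω) =
        ((α u : P) : Ω)) ∧
      ∀ c : ↥(P ⊔ centralizerIn S T), (c : Ω) ∈ centralizerIn S T →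
        (c : Ω)⁻¹ * ((ψ c : ↥(P ⊔ centralizerIn S T)) : Ω) ∈ T

/-- AUTJ: if `X₁`, `X₂` centralize `E` and `R` is `E`-centric and fully automized in `E`, every
element of `Aut_E(R)` extends to a map of `F` on `R (X₁ X₂)` fixing `X₁ X₂` elementwise.
(The elements with such an extension form a subgroup containing `Aut_T(R)` and, by PPART and
UFIX, the elements of order prime to `p`; SylowGen.) -/
def AutJoin : Prop :=
  ∀ {Ω : Type u} [Group Ω] {S : Subgroup Ω} [Finite S] (p : ℕ) [Fact p.Prime] (_ : IsPGroup p S)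
    (F : FusionSystem S) (_ : F.IsSaturated p) {T : Subgroup Ω} (E : FusionSystem T)
    (_ : E.IsNormalIn F p) (_ : ∀ P : Subgroup Ω, E.IsCentric P → JAt F E P)
    (X₁ X₂ : Subgroup Ω) (_ : X₁ ≤ centralizerIn S T) (_ : ECentral F E X₁)
    (_ : X₂ ≤ centralizerIn S T) (_ : ECentral F E X₂) (R : Subgroup Ω) (_ : E.IsCentric R)
    (_ : E.IsFullyAutomized p R) (α : MulAut R) (_ : α ∈ E.autGroup R),
    ∃ ψ ∈ F.Hom (R ⊔ (X₁ ⊔ X₂)),
      (∀ u : R, ψ (Subgroup.inclusion le_sup_left u) = ((α u : R) : Ω)) ∧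
      ∀ x : ↥(X₁ ⊔ X₂), ψ (Subgroup.inclusion le_sup_right x) = x

/-- ALPC: `X ≤ C₀` centralizes `E` as soon as every automorphism in `E` of every `E`-centric
subgroup fully automized in `E` extends to a map of `F` fixing `X` elementwise. (Alperin
induction in `E` against the system of the maps of `E` lying in `C_F(X)`; automorphisms of
non-centric receptive subgroups extend to larger subgroups.) -/
def AlpCrit : Prop :=
  ∀ {Ω : Type u} [Group Ω] {S : Subgroup Ω} [Finite S] (p : ℕ) [Fact p.Prime] (_ : IsPGroup p S)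
    (F : FusionSystem S) (_ : F.IsSaturated p) {T : Subgroup Ω} (E : FusionSystem T)
    (_ : E.IsNormalIn F p) (X : Subgroup Ω) (_ : X ≤ centralizerIn S T),
    (∀ R : Subgroup Ω, E.IsCentric R → E.IsFullyAutomized p R → ∀ α ∈ E.autGroup R,
      ∃ ψ ∈ F.Hom (R ⊔ X), (∀ u : R, ψ (Subgroup.inclusion le_sup_left u) = ((α u : R) : Ω)) ∧
        ∀ x : X, ψ (Subgroup.inclusion le_sup_right x) = x) → ECentral F E X

/-- JOIN: the join of two subgroups of `C₀` centralizing `E` centralizes `E`. -/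
def JoinCentral : Prop :=
  ∀ {Ω : Type u} [Group Ω] {S : Subgroup Ω} [Finite S] (p : ℕ) [Fact p.Prime] (_ : IsPGroup p S)
    (F : FusionSystem S) (_ : F.IsSaturated p) {T : Subgroup Ω} (E : FusionSystem T)
    (_ : E.IsNormalIn F p) (X₁ X₂ : Subgroup Ω) (_ : X₁ ≤ centralizerIn S T)
    (_ : ECentral F E X₁) (_ : X₂ ≤ centralizerIn S T) (_ : ECentral F E X₂),
    ECentral F E (X₁ ⊔ X₂)

/-- SUP: the join of all subgroups of `C₀` centralizing `E` centralizes `E`. (The trivial subgroup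
does; finitely many subgroups of `C₀`; JOIN.) -/
def SupCentral : Prop :=
  ∀ {Ω : Type u} [Group Ω] {S : Subgroup Ω} [Finite S] (p : ℕ) [Fact p.Prime] (_ : IsPGroup p S)
    (F : FusionSystem S) (_ : F.IsSaturated p) {T : Subgroup Ω} (E : FusionSystem T)
    (_ : E.IsNormalIn F p),
    ECentral F E (sSup {X : Subgroup Ω | X ≤ centralizerIn S T ∧ ECentral F E X})

/-- SC: the largest subgroup of `C₀` centralizing `E` is strongly closed in `F`. -/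
def LargestClosed : Prop :=
  ∀ {Ω : Type u} [Group Ω] {S : Subgroup Ω} [Finite S] (p : ℕ) [Fact p.Prime] (_ : IsPGroup p S)
    (F : FusionSystem S) (_ : F.IsSaturated p) {T : Subgroup Ω} (E : FusionSystem T)
    (_ : E.IsNormalIn F p) (C : Subgroup Ω) (_ : C ≤ centralizerIn S T) (_ : ECentral F E C)
    (_ : ∀ Y : Subgroup Ω, Y ≤ centralizerIn S T → ECentral F E Y → Y ≤ C), F.StronglyClosed C

end Cfsg.Agent.Lib.Helper88.CEStmt
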