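import Mathlib
import Cfsg.Prelude.Def_FusionSystem
import Cfsg.Prelude.Def_FusionComponents
import Cfsg.Agent.H85.Basic
import Cfsg.Agent.H85.Aut
import Cfsg.Agent.Lib.Helper88.FCStmt

/-! Statements of the pieces for S5127 (strong closure part): for `E` normal in the saturated `F`
over `T`, every `F`-conjugate of a subgroup of `C_S(T)` centralizing `E` is again a subgroup of
`C_S(T)` centralizing `E` (helper34's argument).

Notation in the sketches: `C₀ = C_S(T) = centralizerIn S T`; `XX` is the set of `X ≤ C₀` with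
`ECentral F E X`. -/

set_option autoImplicit false

namespace Cfsg.Agent.Lib.Helper88.CESStmt

open Cfsg Cfsg.FusionSystem Cfsg.Agent.Lib.Helper88.FCStmt

universe u

/-- SUBC: a subgroup of a subgroup centralizing `E` centralizes `E`. (Restrict the extensions.) -/
def SubCentral : Prop :=
  ∀ {Ω : Type u} [Group Ω] {S : Subgroup Ω} (F : FusionSystem S) {T : Subgroup Ω}
    (E : FusionSystem T) (X Q : Subgroup Ω), Q ≤ X → ECentral F E X → ECentral F E Q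

/-- TRANS: if `X ∈ XX` and `β` is a map of `F` with source `T X`, then `β(X) ∈ XX`.
(`γ = β|T ∈ Aut_F(T)`. `β(X)` centralizes `β(T) = T`. For `φ` in `E` with source `P`,
`γ⁻¹ φ γ` is a map of `E` on `γ⁻¹(P)` (invariance), it extends to `ψ₀` on `γ⁻¹(P) X` fixing `X`,
and `β ψ₀ β⁻¹` on `P β(X)` extends `φ` and fixes `β(X)`.) -/
def TransCentral : Prop :=
  ∀ {Ω : Type u} [Group Ω] {S : Subgroup Ω} [Finite S] (p : ℕ) [Fact p.Prime] (_ : IsPGroup p S)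
    (F : FusionSystem S) (_ : F.IsSaturated p) {T : Subgroup Ω} (E : FusionSystem T)
    (_ : E.IsNormalIn F p) (X : Subgroup Ω) (_ : X ≤ centralizerIn S T) (_ : ECentral F E X)
    (β : ↥(T ⊔ X) →* Ω) (_ : β ∈ F.Hom (T ⊔ X)) (X' : Subgroup Ω)
    (_ : ∀ y : Ω, y ∈ X' ↔ ∃ x : ↥(T ⊔ X), (x : Ω) ∈ X ∧ β x = y),
    X' ≤ centralizerIn S T ∧ ECentral F E X'

/-- RECV: if `X ∈ XX` and `ρ` is a map of `F` from `X` onto a receptive subgroup, then
`ρ(X) ∈ XX`. (`ρ` extends to `X C_S(X) ≥ T X`: `H85.receptive_extend_sup`; TRANS.) -/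
def RecvCentral : Prop :=
  ∀ {Ω : Type u} [Group Ω] {S : Subgroup Ω} [Finite S] (p : ℕ) [Fact p.Prime] (_ : IsPGroup p S)
    (F : FusionSystem S) (_ : F.IsSaturated p) {T : Subgroup Ω} (E : FusionSystem T)
    (_ : E.IsNormalIn F p) (X : Subgroup Ω) (_ : X ≤ centralizerIn S T) (_ : ECentral F E X)
    (ρ : X →* Ω) (_ : ρ ∈ F.Hom X) (_ : F.IsReceptive ρ.range),
    ρ.range ≤ centralizerIn S T ∧ ECentral F E ρ.range

/-- CONJC: if `X ∈ XX`, `φ` is a map of `F` with source `X` and `φ(X) ≤ C₀`, then `φ(X) ∈ XX`.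
(Take `σ` in `F` from `φ(X)` onto a receptive `X''` (`Helper87.FSSat.exists_far`); `X'' ∈ XX` by
RECV for `σ φ`; `σ` extends to `φ(X) C_S(φ(X)) ≥ T φ(X)`, mapping `T φ(X)` onto `T X''`; apply
TRANS to the inverse of that isomorphism.) -/
def ConjCentral : Prop :=
  ∀ {Ω : Type u} [Group Ω] {S : Subgroup Ω} [Finite S] (p : ℕ) [Fact p.Prime] (_ : IsPGroup p S)
    (F : FusionSystem S) (_ : F.IsSaturated p) {T : Subgroup Ω} (E : FusionSystem T)
    (_ : E.IsNormalIn F p) (X : Subgroup Ω) (_ : X ≤ centralizerIn S T) (_ : ECentral F E X)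
    (φ : X →* Ω) (_ : φ ∈ F.Hom X) (_ : φ.range ≤ centralizerIn S T),
    ECentral F E φ.range

/-- MU: let `X ∈ XX`, `R' = φ(X)` an `F`-conjugate of `X` and `C₁ ≤ C_T(R')`. Then there is a map
`μ` of `F` on `R' C₁` that is the identity on `C₁` and maps `R'` into `C₀`.
(`σ` in `F` from `R'` onto a receptive `R''`; `R'' ∈ XX` by RECV; `σ` extends to `σ^` on
`R' C_S(R') ≥ R' C₁`; `σ^|C₁ = γ ∘ e` with `e` in `E`, `γ ∈ Aut_F(T)` (Frattini clause); `γ`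
extends to `γ^ ∈ Aut_F(T C₀)` (`WNStmt.AutExt`, `Helper89.WNAUTX.main`); `X₂ = γ^⁻¹(R'') ∈ XX`
by TRANS; the inverse of `e` extends to `e^` on `e(C₁) X₂` fixing `X₂`;
`μ = e^ ∘ γ^⁻¹ ∘ σ^`.) -/
def MuExists : Prop :=
  ∀ {Ω : Type u} [Group Ω] {S : Subgroup Ω} [Finite S] (p : ℕ) [Fact p.Prime] (_ : IsPGroup p S)
    (F : FusionSystem S) (_ : F.IsSaturated p) {T : Subgroup Ω} (E : FusionSystem T)
    (_ : E.IsNormalIn F p) (X : Subgroup Ω) (_ : X ≤ centralizerIn S T) (_ : ECentral F E X)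
    (φ : X →* Ω) (_ : φ ∈ F.Hom X) (C₁ : Subgroup Ω) (_ : C₁ ≤ centralizerIn T φ.range),
    ∃ μ ∈ F.Hom (φ.range ⊔ C₁), (∀ c : C₁, μ (Subgroup.inclusion le_sup_right c) = c) ∧
      ∀ r : φ.range, μ (Subgroup.inclusion le_sup_left r) ∈ centralizerIn S T

/-- NGROW: in a finite `p`-group `S` with a subgroup `T` normalized by `S` and `Y ≤ S`: if
`N_T(Y) ≤ Y` then `T ≤ Y`. (Otherwise `Y < T Y`, some `g = t y ∈ N_{TY}(Y) \ Y`
(`Helper87.FSSat.exists_normalizer_not_mem`), and `t ∈ N_T(Y) \ Y`.) -/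
def NormGrow : Prop :=
  ∀ {Ω : Type u} [Group Ω] {S : Subgroup Ω} [Finite S] (p : ℕ) [Fact p.Prime] (_ : IsPGroup p S)
    (T Y : Subgroup Ω) (_ : T ≤ S) (_ : Y ≤ S) (_ : ∀ s ∈ S, ∀ t ∈ T, s * t * s⁻¹ ∈ T),
    normalizerIn T Y ≤ Y → T ≤ Y

/-- YCAP: for `X ≤ C_S(T)`, `T` strongly closed and `R' = φ(X)`: `(R' C_T(R')) ∩ T = C_T(R')`.
(If `r c ∈ T` with `r = φ(x)`, then `r ∈ T`, so `x ∈ T` (strong closure for the inverse of `φ`),
so `x` is central in `X`, `r` is central in `R'`, `r ∈ C_T(R')`.) -/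
def YCap : Prop :=
  ∀ {Ω : Type u} [Group Ω] {S : Subgroup Ω} [Finite S] (F : FusionSystem S) (T : Subgroup Ω)
    (_ : F.StronglyClosed T) (X : Subgroup Ω) (_ : X ≤ centralizerIn S T) (φ : X →* Ω)
    (_ : φ ∈ F.Hom X),
    ∀ y ∈ φ.range ⊔ centralizerIn T φ.range, y ∈ T → y ∈ centralizerIn T φ.range

/-- LGNU: let `T` be strongly closed in the saturated `F`, `R' ≤ S`, `C₁ = C_T(R')`,
`Y = R' C₁` fully automized with `Y ∩ T ≤ C₁`, `t ∈ N_T(Y)`, and `μ` a map of `F` on `Y` that is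
the identity on `C₁` and maps `R'` into `C_S(T)`. Then `μ⁻¹ c_t μ` is induced by an element `g`
of `S`: `μ(g y g⁻¹) = t μ(y) t⁻¹` on `Y`.
(`ν = μ⁻¹ c_t μ ∈ Aut_F(Y)` is the identity on `R'` and `c_t` on `C₁`; `ξ = c_t|Y ∘ ν⁻¹` is the
identity on `C₁ = Y ∩ T` and moves `y` by an element of `T` centralizing `C₁`; WSYL
(`Helper30.WNWSYL.main`) gives `ξ = c_h`, so `ν = c_{h⁻¹ t}`.) -/
def LemGNu : Prop :=
  ∀ {Ω : Type u} [Group Ω] {S : Subgroup Ω} [Finite S] (p : ℕ) [Fact p.Prime] (_ : IsPGroup p S)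
    (F : FusionSystem S) (_ : F.IsSaturated p) (T : Subgroup Ω) (_ : F.StronglyClosed T)
    (R' : Subgroup Ω) (_ : R' ≤ S)
    (_ : ∀ y ∈ R' ⊔ centralizerIn T R', y ∈ T → y ∈ centralizerIn T R')
    (_ : F.IsFullyAutomized p (R' ⊔ centralizerIn T R'))
    (t : Ω) (_ : t ∈ normalizerIn T (R' ⊔ centralizerIn T R'))
    (μ : ↥(R' ⊔ centralizerIn T R') →* Ω) (_ : μ ∈ F.Hom (R' ⊔ centralizerIn T R'))
    (_ : ∀ c : ↥(centralizerIn T R'), μ (Subgroup.inclusion le_sup_right c) = c)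
    (_ : ∀ r : R', μ (Subgroup.inclusion le_sup_left r) ∈ centralizerIn S T),
    ∃ g ∈ S, ∀ y : ↥(R' ⊔ centralizerIn T R'), ∃ y' : ↥(R' ⊔ centralizerIn T R'),
      (y' : Ω) = g * (y : Ω) * g⁻¹ ∧ μ y' = t * μ y * t⁻¹

/-- LGFAR: if `X ∈ XX`, `R' = φ(X)` and `Y = R' C_T(R')` is fully automized and receptive, then
`R' ≤ C₀`.
(By NGROW and YCAP it suffices that `N_T(Y) ≤ Y`. Let `t ∈ N_T(Y)`; `μ` from MU with
`C₁ = C_T(R')`; `g` from LGNU. Then `t` lies in the extender of `θ = μ⁻¹ : μ(Y) → Y`, and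
receptivity gives `μ~` extending `θ` to it; `g₀ = μ~(t) ∈ T`, `g₀ y g₀⁻¹ = g y g⁻¹` on `Y`, and
`g r g⁻¹ = r` on `R'` (as `t` centralizes `μ(R') ≤ C₀`); so `g₀ ∈ C_T(R')`, `μ~(g₀) = g₀`,
`t = g₀ ∈ Y`.) -/
def LemGFar : Prop :=
  ∀ {Ω : Type u} [Group Ω] {S : Subgroup Ω} [Finite S] (p : ℕ) [Fact p.Prime] (_ : IsPGroup p S)
    (F : FusionSystem S) (_ : F.IsSaturated p) {T : Subgroup Ω} (E : FusionSystem T)
    (_ : E.IsNormalIn F p) (X : Subgroup Ω) (_ : X ≤ centralizerIn S T) (_ : ECentral F E X)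
    (φ : X →* Ω) (_ : φ ∈ F.Hom X)
    (_ : F.IsFullyAutomized p (φ.range ⊔ centralizerIn T φ.range))
    (_ : F.IsReceptive (φ.range ⊔ centralizerIn T φ.range)),
    φ.range ≤ centralizerIn S T

/-- LGSTEP: if `X ∈ XX`, `φ` is a map of `F` with source `X`, and every `F`-conjugate `φ'(X)`
with `|C_T(φ'(X))| > |C_T(φ(X))|` lies in `C₀`, then `φ(X) ≤ C₀`.
(`R' = φ(X)`, `C₁ = C_T(R')`, `Y = R' C₁`; `ω` a map of `F` on `N_S(Y)` with `ω(Y)` fully
automized and receptive (`Helper87.FSSat.exists_far`, `exists_extension_normalizer`);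
`R* = ω(R')`. Either `|C_T(R*)| > |C₁|` and `R* ≤ C₀` by hypothesis, or `C_T(R*) = ω(C₁)`,
`ω(Y) = R* C_T(R*)` and `R* ≤ C₀` by LGFAR. Then every `t ∈ N_T(Y)` centralizes `R'` (apply
`ω`), so `N_T(Y) ≤ C₁ ≤ Y`, `T ≤ Y` by NGROW, `T ≤ C₁` by YCAP.) -/
def LemGStep : Prop :=
  ∀ {Ω : Type u} [Group Ω] {S : Subgroup Ω} [Finite S] (p : ℕ) [Fact p.Prime] (_ : IsPGroup p S)
    (F : FusionSystem S) (_ : F.IsSaturated p) {T : Subgroup Ω} (E : FusionSystem T)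
    (_ : E.IsNormalIn F p) (X : Subgroup Ω) (_ : X ≤ centralizerIn S T) (_ : ECentral F E X)
    (φ : X →* Ω) (_ : φ ∈ F.Hom X)
    (_ : ∀ φ' ∈ F.Hom X, Nat.card ↥(centralizerIn T φ.range) <
      Nat.card ↥(centralizerIn T φ'.range) → φ'.range ≤ centralizerIn S T),
    φ.range ≤ centralizerIn S T

end Cfsg.Agent.Lib.Helper88.CESStmt
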