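import Mathlib

/-!
# S4245 (call by helper88): statement pieces

S4245: `G` finite, `A ≤ G` of prime power index `p ^ s`, `B ⊴ A` cyclic, `A ⧸ B` cyclic of order
`2 ^ r`.  Then `G` is solvable.  ELEMENTARY route (no classification):

* `p = 2` or `r = 0`: `B` (as a subgroup of `G`) is cyclic of prime power index, so `G = B P`
  for a Sylow `p`-subgroup `P`, solvable by Kegel-Wielandt (landed `Cfsg.Agent.S0564.result`):
  NILIDX.
* `p ≠ 2`, `1 ≤ r`, `#B` odd: `G` has a cyclic Sylow `2`-subgroup of order `2 ^ r` (SYLCYC), so a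
  normal `2`-complement `K` of index `2 ^ r` (COMPL, Mathlib `IsCyclic.isComplement'`); `B ≤ K`
  has index `p ^ s` in `K`: NILIDX for `K` (FINISH).
* `p ≠ 2`, `#B` even: the involution `z` of `B` is central in `A`, its class has size dividing
  `p ^ s`, so its normal closure is a nontrivial solvable normal subgroup (Kazarin, landed
  `Cfsg.Agent.S4037.result`): EVENB; the hypothesis passes to `G ⧸ N` (QUOT); induction on `#G`
  (assembly, helper88).
-/

set_option autoImplicit false

universe u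

namespace Cfsg.Agent.Lib.Helper88.MCStmt

/-- the hypothesis of S4245 on a group `G` -/
def Hyp (G : Type u) [Group G] : Prop :=
  ∃ (A : Subgroup G) (p s : ℕ), p.Prime ∧ A.index = p ^ s ∧
    ∃ (B : Subgroup A) (_ : B.Normal), IsCyclic B ∧ IsCyclic (A ⧸ B) ∧
      ∃ r : ℕ, Nat.card (A ⧸ B) = 2 ^ r

/-- NILIDX: a finite group with a cyclic subgroup `B` of prime power index is solvable.
`P` any Sylow `p`-subgroup of `G`: `G = B P` (as sets).  Counting: `#G = #B * p ^ k`, so
`#P = #B_p * p ^ k`; `P` acts on `G ⧸ B`, the stabilizer of the coset `B` is `P ⊓ B`, a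
`p`-subgroup of `B`, so of order `≤ #B_p`, and the orbit has size `≥ p ^ k = #(G ⧸ B)`: `P` is
transitive on `G ⧸ B`, i.e. `G = P B`, and then `G = B P` (inverses).  (Or: `B.index` and
`P.index` are coprime.)  Then `Cfsg.Agent.S0564.result G B P` (import `Cfsg.Agent.S0564`): `B`
cyclic, so commutative, so nilpotent; `P` a `p`-group (`IsPGroup.isNilpotent`). -/
def NilIdx : Prop :=
  ∀ (G : Type u) [Group G] [Finite G] (B : Subgroup G) (p k : ℕ), p.Prime → IsCyclic ↥B →
    B.index = p ^ k → Group.IsSolvable G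

/-- EVENB: `B ⊴ A` cyclic of even order, `A.index = p ^ s`: a nontrivial solvable normal subgroup.
`z ∈ B` of order `2` (`exists_prime_orderOf_dvd_card`); a cyclic group has exactly one element
of order `2` (`IsCyclic.card_orderOf_eq_totient`, `Nat.totient_two`), and `a z a⁻¹ ∈ B` has order
`2`, so `z` is central in `A`.  So `A ≤ centralizer {(z : G)}`, the index of the centralizer
divides `p ^ s` (`Subgroup.index_dvd_of_le`), so it is `p ^ j` (`Nat.dvd_prime_pow`); the class of
`z` has `p ^ j` elements (`ConjClasses.card_carrier` / `Subgroup.nat_card_centralizer_nat_card_stabilizer`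
/ orbit-stabilizer for `ConjAct`); `N = Subgroup.normalClosure {z}` is solvable by
`Cfsg.Agent.S4037.result` (import `Cfsg.Agent.S4037`), normal, and contains `z ≠ 1`. -/
def EvenB : Prop :=
  ∀ (G : Type u) [Group G] [Finite G] (A : Subgroup G) (p s : ℕ), p.Prime → A.index = p ^ s →
    ∀ (B : Subgroup ↥A) [B.Normal], IsCyclic ↥B → Even (Nat.card ↥B) →
    ∃ N : Subgroup G, N.Normal ∧ N ≠ ⊥ ∧ Group.IsSolvable ↥N

/-- QUOT: the hypothesis passes to quotients.  `A' = A.map (QuotientGroup.mk' N)`, index divides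
`p ^ s` (`Subgroup.index_map_dvd`, `Nat.dvd_prime_pow`); `φ = (QuotientGroup.mk' N).subgroupMap A`
(surjective), `B' = B.map φ` (normal: `Subgroup.Normal.map`; cyclic: `isCyclic_of_surjective`);
`QuotientGroup.map B B' φ _ : A ⧸ B →* A' ⧸ B'` is surjective, so `A' ⧸ B'` is cyclic and its
order divides `2 ^ r` (`Subgroup.card_dvd_of_surjective` / `Nat.card_dvd_of_surjective`). -/
def Quot : Prop :=
  ∀ (G : Type u) [Group G] [Finite G] (N : Subgroup G) [N.Normal], Hyp G → Hyp (G ⧸ N)

/-- SYLCYC: `p` odd, `#B` odd, `A ⧸ B` cyclic of order `2 ^ r`: a cyclic Sylow `2`-subgroup of `G`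
of order `2 ^ r`.  `#G = #B * 2 ^ r * p ^ s` (`Subgroup.card_mul_index`, `Subgroup.card_eq_card_quotient_mul_card_subgroup`),
so `(Nat.card G).factorization 2 = r`.  `g ∈ A` with `g B` a generator of `A ⧸ B`
(`IsCyclic.exists_generator`, `orderOf_eq_card_of_forall_mem_zpowers`): `2 ^ r ∣ orderOf g`
(`orderOf_dvd_of_pow_eq_one` on the image); `t = g ^ (orderOf g / 2 ^ r)` has order `2 ^ r`
(`orderOf_pow_of_dvd`); `Sylow.ofCard (Subgroup.zpowers (t : G))` (`Nat.card_zpowers`). -/
def SylCyc : Prop :=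
  ∀ (G : Type u) [Group G] [Finite G] (A : Subgroup G) (p s : ℕ), p.Prime → p ≠ 2 →
    A.index = p ^ s → ∀ (B : Subgroup ↥A) [B.Normal], IsCyclic (↥A ⧸ B) →
    ∀ r : ℕ, Nat.card (↥A ⧸ B) = 2 ^ r → Odd (Nat.card ↥B) →
    ∃ T : Sylow 2 G, IsCyclic ↥(T : Subgroup G) ∧ Nat.card ↥(T : Subgroup G) = 2 ^ r

/-- COMPL: a cyclic Sylow `2`-subgroup has a normal complement.  `#G` odd: `T = ⊥`, `K = ⊤`.
`#G` even: `(Nat.card G).minFac = 2`, Mathlib `IsCyclic.isComplement'` (in
`Mathlib.GroupTheory.Transfer`): `K = (MonoidHom.transferSylow T _).ker`, normal, and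
`IsComplement'.index_eq_card`. -/
def Compl : Prop :=
  ∀ (G : Type u) [Group G] [Finite G] (T : Sylow 2 G), IsCyclic ↥(T : Subgroup G) →
    ∃ K : Subgroup G, K.Normal ∧ K.index = Nat.card ↥(T : Subgroup G)

/-- FINISH (main : NilIdx → Finish): `K ⊴ G` of index `2 ^ r`, `B₀ ≤ G` cyclic of odd order and
index `2 ^ r * p ^ s`.  `B₀ ≤ K`: the image of `b ∈ B₀` in `G ⧸ K` has order dividing `#B₀` (odd)
and `2 ^ r`, so it is `1`.  `(B₀.subgroupOf K).index = B₀.relIndex K = p ^ s`
(`Subgroup.relIndex_mul_index`), `B₀.subgroupOf K ≃* B₀` is cyclic: `K` is solvable (NilIdx).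
`G ⧸ K` has order `2 ^ r`, a `2`-group, nilpotent, solvable; `solvable_of_ker_le_range`
(`K.subtype`, `QuotientGroup.mk' K`). -/
def Finish : Prop :=
  ∀ (G : Type u) [Group G] [Finite G] (K B₀ : Subgroup G) (p s r : ℕ), p.Prime → K.Normal →
    K.index = 2 ^ r → IsCyclic ↥B₀ → Odd (Nat.card ↥B₀) → B₀.index = 2 ^ r * p ^ s →
    Group.IsSolvable G

end Cfsg.Agent.Lib.Helper88.MCStmt
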