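import Cfsg.Agent.Lib.Helper88.VFDefs

/-!
Piece statements for S5286 (every fusion system is realized by a virtually free group).
See `VFDefs` for the construction.
-/

set_option autoImplicit false

namespace Cfsg.Agent.Lib.Helper88.VFStmt

open Cfsg Cfsg.Agent.Lib.Helper88.VFDefs

universe u

/-! ### Free group pieces (no `VFDefs` needed) -/

/-- FREE: a subgroup of `N₀ ⋊ K`, `N₀` free and `K` finite, has a free normal subgroup of index
dividing `#K` (the kernel of the projection to `K`; Nielsen-Schreier). -/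
def FreeP : Prop := ∀ {N₀ K : Type u} [Group N₀] [Group K] [IsFreeGroup N₀] [Finite K]
  (φ : K →* MulAut N₀) (Gp : Subgroup (N₀ ⋊[φ] K)),
  ∃ N : Subgroup Gp, N.Normal ∧ IsFreeGroup N ∧ N.index ∣ Nat.card K

/-- ISO: relabelling the generators relabels the reduced word. -/
def IsoP : Prop := ∀ {Y Y' : Type u} [DecidableEq Y] [DecidableEq Y'] (e : Y ≃ Y')
  (w : FreeGroup Y),
  FreeGroup.toWord (FreeGroup.freeGroupCongr e w) = (FreeGroup.toWord w).map (Prod.map e id)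

/-- LCP: the reduced word of `a⁻¹ x` is obtained by deleting the longest common prefix. -/
def LcpP : Prop := ∀ {Y : Type u} [DecidableEq Y] (a x : FreeGroup Y),
  ∃ p s t : List (Y × Bool), FreeGroup.toWord a = p ++ s ∧ FreeGroup.toWord x = p ++ t ∧
    FreeGroup.toWord (a⁻¹ * x) = FreeGroup.invRev s ++ t

/-- TREE: if `|a| = 2k`, `|x| ≤ 2k` and `d(a,x) ≤ 2k` then the midpoint of `[1,a]` is at distance
at most `k` from `x`. -/
def TreeP : Prop := ∀ {Y : Type u} [DecidableEq Y] (a x : FreeGroup Y) (k : ℕ),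
  (FreeGroup.toWord a).length = 2 * k → (FreeGroup.toWord x).length ≤ 2 * k →
  (FreeGroup.toWord (a⁻¹ * x)).length ≤ 2 * k →
  (FreeGroup.toWord ((FreeGroup.mk ((FreeGroup.toWord a).take k))⁻¹ * x)).length ≤ k

/-- MID: the midpoint of `[1,a]` is the only point at distance at most `k` from both ends. -/
def MidP : Prop := ∀ {Y : Type u} [DecidableEq Y] (a c : FreeGroup Y) (k : ℕ),
  (FreeGroup.toWord a).length = 2 * k → (FreeGroup.toWord c).length ≤ k →
  (FreeGroup.toWord (c⁻¹ * a)).length ≤ k → c = FreeGroup.mk ((FreeGroup.toWord a).take k)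

/-- EVEN: in a finite subgroup of `FreeGroup Y ⋊ K` (`K` permuting the generators) all left
components have even length (the exponent sum is a homomorphism to `ℤ`, trivial on finite
subgroups). -/
def EvenP : Prop := ∀ {Y K : Type u} [Group K] [DecidableEq Y] (e : K → Equiv.Perm Y)
  (φ : K →* MulAut (FreeGroup Y)) (_ : ∀ k, φ k = FreeGroup.freeGroupCongr (e k))
  (H : Subgroup (FreeGroup Y ⋊[φ] K)) [Finite H],
  ∀ h ∈ H, Even (FreeGroup.toWord h.left).length

/-- FIX: a finite subgroup of `FreeGroup Y ⋊ K` (`K` permuting the generators) fixes a point of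
the affine action `h ∗ u = h.left * φ h.right u`; the fixed point is a prefix of the reduced word
of the left component of some element of the subgroup. -/
def FixP : Prop := ∀ {Y K : Type u} [Group K] [DecidableEq Y] (e : K → Equiv.Perm Y)
  (φ : K →* MulAut (FreeGroup Y)) (_ : ∀ k, φ k = FreeGroup.freeGroupCongr (e k))
  (H : Subgroup (FreeGroup Y ⋊[φ] K)) [Finite H], ∃ h₀ ∈ H, ∃ n : ℕ, ∀ h ∈ H,
    h.left * φ h.right (FreeGroup.mk ((FreeGroup.toWord h₀.left).take n)) =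
      FreeGroup.mk ((FreeGroup.toWord h₀.left).take n)

/-! ### Graph pieces -/

/-- SUBG: `PiSet` is a subgroup. -/
def SubgP : Prop := ∀ {K : Type u} [Group K] (S₀ : Subgroup K) {I : Type u}
  (Q : I → Subgroup K) (sg : I → K),
  ∃ Gp : Subgroup (Ghat Q), ∀ g, g ∈ Gp ↔ g ∈ PiSet S₀ Q sg

/-- RED: for `g ∈ PiSet` the reduced word of `g.left` is a path from `S₀` to `g.right S₀`. -/
def RedP : Prop := ∀ {K : Type u} [Group K] (S₀ : Subgroup K) {I : Type u}
  (Q : I → Subgroup K) (sg : I → K) [DecidableEq (Y Q)],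
  H1 S₀ Q → H2 S₀ Q sg → ∀ g ∈ PiSet S₀ Q sg,
    IsPath S₀ Q sg ((1 : K) : K ⧸ S₀) (FreeGroup.toWord g.left) ((g.right : K) : K ⧸ S₀)

/-- GENS: `S₀` and the stable letters lie in `PiSet`, and the `i`-th stable letter conjugates
`p` to `q` whenever `q ∈ Q i` and `sg i * p = q * sg i`. -/
def GensP : Prop := ∀ {K : Type u} [Group K] (S₀ : Subgroup K) {I : Type u}
  (Q : I → Subgroup K) (sg : I → K),
  (∀ s ∈ S₀, (⟨1, s⟩ : Ghat Q) ∈ PiSet S₀ Q sg) ∧
  (∀ i, (⟨FreeGroup.of ⟨i, ((1 : K) : K ⧸ Q i)⟩, sg i⟩ : Ghat Q) ∈ PiSet S₀ Q sg) ∧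
  (∀ i (p q : K), q ∈ Q i → sg i * p = q * sg i →
    (⟨FreeGroup.of ⟨i, ((1 : K) : K ⧸ Q i)⟩, sg i⟩ : Ghat Q) * ⟨1, p⟩ =
      ⟨1, q⟩ * ⟨FreeGroup.of ⟨i, ((1 : K) : K ⧸ Q i)⟩, sg i⟩)

/-- CHAIN: a predicate `C R b` that holds at `b = 1`, is stable under right multiplication by
`S₀` and under crossing an edge fixed by `R`, holds at `g.right` for every `g ∈ PiSet` whose left
component is fixed by `R`. -/
def ChainP : Prop := ∀ {K : Type u} [Group K] (S₀ : Subgroup K) {I : Type u}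
  (Q : I → Subgroup K) (sg : I → K),
  H1 S₀ Q → H2 S₀ Q sg → ∀ (C : Subgroup K → K → Prop),
  (∀ R, C R 1) →
  (∀ R b s, s ∈ S₀ → C R b → C R (b * s)) →
  (∀ R i a, (∀ r ∈ R, a⁻¹ * r * a ∈ Q i) → (C R a ↔ C R (a * sg i))) →
  ∀ g ∈ PiSet S₀ Q sg, ∀ R : Subgroup K, (∀ r ∈ R, act Q r g.left = g.left) → C R g.right

/-- FINCONJ: a finite subgroup of `Ghat` inside `PiSet` is conjugate, by an element of `PiSet`,
into `{(1, s) : s ∈ S₀}`. -/
def FinConjP : Prop := ∀ {K : Type u} [Group K] (S₀ : Subgroup K) {I : Type u}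
  (Q : I → Subgroup K) (sg : I → K),
  H1 S₀ Q → H2 S₀ Q sg → ∀ (H : Subgroup (Ghat Q)) [Finite H], (∀ h ∈ H, h ∈ PiSet S₀ Q sg) →
  ∃ g₀ ∈ PiSet S₀ Q sg, ∀ h ∈ H, (g₀⁻¹ * h * g₀).left = 1 ∧ (g₀⁻¹ * h * g₀).right ∈ S₀

/-! ### Fusion pieces -/

/-- EQV: an injective homomorphism `φ : P → S` is realized in `Perm S` through the left
regular representation (two free `P`-sets of the same size are isomorphic). -/
def EqvP : Prop := ∀ {Ω : Type u} [Group Ω] {S : Subgroup Ω} [Finite S] (P : Subgroup Ω)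
  (hP : P ≤ S) (φ : P →* Ω) (hφ : ∀ x : P, φ x ∈ S), Function.Injective φ →
  ∃ σ : Equiv.Perm S, ∀ u : P, σ * lam S ⟨u, hP u.2⟩ = lam S ⟨φ u, hφ u⟩ * σ

/-- CBASE: `CF F R 1`, and `CF F R b → CF F R (b * s)` for `s` in the image of `lam`. -/
def CBaseP : Prop := ∀ {Ω : Type u} [Group Ω] {S : Subgroup Ω} (F : FusionSystem S),
  (∀ R, CF F R 1) ∧ (∀ R b s, s ∈ (lam S).range → CF F R b → CF F R (b * s))

/-- CFWD: crossing an edge forwards. -/
def CFwdP : Prop := ∀ {Ω : Type u} [Group Ω] {S : Subgroup Ω} (F : FusionSystem S)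
  (sg : Idx F → Equiv.Perm S), SgOK F sg →
  ∀ R i a, (∀ r ∈ R, a⁻¹ * r * a ∈ QF F i) → CF F R a → CF F R (a * sg i)

/-- CBWD: crossing an edge backwards. -/
def CBwdP : Prop := ∀ {Ω : Type u} [Group Ω] {S : Subgroup Ω} (F : FusionSystem S)
  (sg : Idx F → Equiv.Perm S), SgOK F sg →
  ∀ R i a, (∀ r ∈ R, a⁻¹ * r * a ∈ QF F i) → CF F R (a * sg i) → CF F R a

end Cfsg.Agent.Lib.Helper88.VFStmt
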