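import Mathlib
import Cfsg.Prelude.Def_FusionSystem
import Cfsg.Prelude.Def_FusionComponents
import Cfsg.Agent.H85.Basic
import Cfsg.Agent.H85.Aut
import Cfsg.Agent.H85.InvSys

/-! Statements of the pieces for S5155: for `E` normal in the saturated `F` over `T` and `Y` the
largest subgroup of `C_S(T)` centralizing `E`, there is a normal subsystem of `F` over `Y` inside
`C_F(T)`.

Plan: `Y` is strongly closed in `F` (S5127) and contains the focal subgroup of `G = C_F(T)`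
(S5293); `D₀` = the saturated subsystem of `G` over `Y` of `p`-power index (S5113), normal in `G`
(S5120); `D₀` is weakly normal in `F` (pieces below); its `p'`-residual is normal in `F` (S5141).

Notation in the sketches: `C₀ = C_S(T) = centralizerIn S T`, `G = C_F(T)` (a fusion system over
`C₀` with `G.Hom P = F.centralizerHom T P`). -/

set_option autoImplicit false

namespace Cfsg.Agent.Lib.Helper88.CNStmt

open Cfsg Cfsg.FusionSystem

universe u

/-- EXTY: let `T` and `Y ≤ C_S(T)` be strongly closed in the saturated `F`. Every map `ψ` of `F`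
with source `P ≤ Y` extends to a map of `F` with source `T P`.
(`ψ(P) ≤ Y ≤ C₀`. Take `σ` in `F` from `ψ(P)` onto a receptive subgroup
(`Helper87.FSSat.exists_far`); `σ ψ` extends to `ρ^` on `P C_S(P) ≥ T P` and `σ` extends to `σ^`
on `ψ(P) C_S(ψ(P)) ≥ T ψ(P)` (`H85.receptive_extend_sup`); both map `T` onto `T`, so
`ρ^(T P) = σ^(T ψ(P))`; take `(σ^|T ψ(P))⁻¹ ∘ ρ^|T P`.) -/
def ExtOverT : Prop :=
  ∀ {Ω : Type u} [Group Ω] {S : Subgroup Ω} [Finite S] (p : ℕ) [Fact p.Prime] (_ : IsPGroup p S)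
    (F : FusionSystem S) (_ : F.IsSaturated p) (T : Subgroup Ω) (_ : F.StronglyClosed T)
    (Y : Subgroup Ω) (_ : Y ≤ centralizerIn S T) (_ : F.StronglyClosed Y)
    (P : Subgroup Ω) (_ : P ≤ Y) (ψ : P →* Ω) (_ : ψ ∈ F.Hom P),
    ∃ ψ' ∈ F.Hom (T ⊔ P), ∀ x : P, ψ' (Subgroup.inclusion le_sup_right x) = ψ x

/-- GCONJ: conjugation by `α ∈ Aut_F(Y)` carries `Aut_G(P)` into `Aut_G(α(P))`, for `P ≤ Y`.
(`γ ∈ Aut_G(P)` extends to `γ^` on `P T` fixing `T`; `α` extends to `α^` on `T Y` (EXTY), with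
`α^(T) = T`; `α^ γ^ α^⁻¹` on `α(P) T` is the identity on `T` and restricts to `α γ α⁻¹` on
`α(P)`.) -/
def CentConj : Prop :=
  ∀ {Ω : Type u} [Group Ω] {S : Subgroup Ω} [Finite S] (p : ℕ) [Fact p.Prime] (_ : IsPGroup p S)
    (F : FusionSystem S) (_ : F.IsSaturated p) (T : Subgroup Ω) (_ : F.StronglyClosed T)
    (Y : Subgroup Ω) (_ : Y ≤ centralizerIn S T) (_ : F.StronglyClosed Y)
    (G : FusionSystem (centralizerIn S T)) (_ : F.IsCentralizerSystem T G)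
    (P : Subgroup Ω) (hPY : P ≤ Y) (α : MulAut Y) (_ : α ∈ F.autGroup Y) (γ : MulAut P)
    (_ : γ ∈ G.autGroup P),
    MulAut.congr (Cfsg.Agent.H85.autRes α hPY) γ ∈ G.autGroup (Cfsg.Agent.H85.autImage α P)

/-- FRATY: the Frattini clause for `D₀` in `F`: if `D₀` (over `Y`) is invariant in `G = C_F(T)`,
every map `ψ` of `F` with source `P ≤ Y` is an element of `Aut_F(Y)` composed with a map of `D₀`.
(`ψ` extends to `ψ^` on `T P` (EXTY); `γ = ψ^|T ∈ Aut_F(T)` extends to `γ^ ∈ Aut_F(T C₀)`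
(`WNStmt.AutExt`, `Helper89.WNAUTX.main`), which maps `Y` onto `Y`; `γ^⁻¹ ψ^` is the identity on
`T`, so `φ₁ = γ^⁻¹ ψ` is a map of `G`; by the Frattini clause of `D₀` in `G`, `φ₁ = α' φ₀` with
`α' ∈ Aut_G(Y) ≤ Aut_F(Y)` and `φ₀` in `D₀`; so `ψ = (γ^|Y α') φ₀`.) -/
def FrattiniY : Prop :=
  ∀ {Ω : Type u} [Group Ω] {S : Subgroup Ω} [Finite S] (p : ℕ) [Fact p.Prime] (_ : IsPGroup p S)
    (F : FusionSystem S) (_ : F.IsSaturated p) (T : Subgroup Ω) (_ : F.StronglyClosed T)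
    (Y : Subgroup Ω) (_ : Y ≤ centralizerIn S T) (_ : F.StronglyClosed Y)
    (G : FusionSystem (centralizerIn S T)) (_ : F.IsCentralizerSystem T G)
    (D₀ : FusionSystem Y) (_ : D₀.IsInvariantIn G),
    ∀ (P : Subgroup Ω), P ≤ Y → ∀ (ψ : P →* Ω), ψ ∈ F.Hom P →
      ∃ α ∈ F.autGroup Y, ∃ φ₀ ∈ D₀.Hom P, ∀ (x : P) (hx : φ₀ x ∈ Y),
        ψ x = ((α ⟨φ₀ x, hx⟩ : Y) : Ω)

end Cfsg.Agent.Lib.Helper88.CNStmt
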