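import Mathlib
import Cfsg.Prelude.Def_FusionSystem
import Cfsg.Prelude.Def_FusionComponents
import Cfsg.Prelude.Def_FusionReduction
import Cfsg.Agent.H85.Invariant

/-! Statements of the pieces for S5202 / S5201 (Oliver, reductions to normal subsystems).

Setting: `F` saturated over `S`, `E` normal in `F` over `T`, `Aut_F(T)/Aut_E(T)` `p`-solvable.
One walks down a `p`-solvable series of `Aut_F(T)/Aut_E(T)` through subsystems `F'` over `S'`
that are *intermediate* (`Inter`): `F'` normal in `F`, `E` normal in `F'`, `T C_S(T) ≤ S'`, and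
`F'` has the same residual limit as `F`. A `p`-factor of the series is handled by the subsystem of
`p`-power index over `{x ∈ S' | c_x on T lies in Γ}` (`PStep`), a `p'`-factor by S5243 (`QStep`).
At the bottom `Aut_{F'}(T) = Aut_E(T)` and `S' = T C_S(T)` (`BaseCase`). -/

set_option autoImplicit false

namespace Cfsg.Agent.Lib.Helper88.ORStmt

open Cfsg Cfsg.FusionSystem

universe u

variable {Ω : Type*} [Group Ω] {S : Subgroup Ω}

/-- Any residual limit of `X` and any residual limit of `Y` have the same maps. -/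
def RLSame (p : ℕ) {A B : Subgroup Ω} (X : FusionSystem A) (Y : FusionSystem B) : Prop :=
  ∀ {U V : Subgroup Ω} (Xinf : FusionSystem U) (Yinf : FusionSystem V),
    Xinf.IsResidualLimitOf X p → Yinf.IsResidualLimitOf Y p →
      ∀ P : Subgroup Ω, Xinf.Hom P = Yinf.Hom P

/-- The automorphism `g` of `T` is conjugation by `x`. -/
def ConjOn (T : Subgroup Ω) (g : MulAut T) (x : Ω) : Prop :=
  ∀ t : T, ((g t : T) : Ω) = x * (t : Ω) * x⁻¹

/-- The automorphism `g` of `T` is the restriction of the automorphism `a` of `S'`. -/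
def ResOf {T S' : Subgroup Ω} (hTS' : T ≤ S') (g : MulAut T) (a : MulAut S') : Prop :=
  ∀ t : T, ((g t : T) : Ω) = ((a ⟨(t : Ω), hTS' t.2⟩ : S') : Ω)

/-- The subgroup `Γ` of `Aut(T)` is normalized by `Aut_F(T)`. -/
def NormBy (F : FusionSystem S) (T : Subgroup Ω) (Γ : Subgroup (MulAut T)) : Prop :=
  ∀ γ ∈ F.autGroup T, ∀ g ∈ Γ, γ * g * γ⁻¹ ∈ Γ

/-- The extension clause of `E.IsNormalIn F p` (its second component). -/
def ExtCl {T : Subgroup Ω} (E : FusionSystem T) (F : FusionSystem S) : Prop :=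
  ∀ α ∈ E.autGroup T, ∃ β ∈ F.autGroup (T ⊔ centralizerIn S T),
    (∀ x : T, ((β (Subgroup.inclusion le_sup_left x) : ↥(T ⊔ centralizerIn S T)) : Ω) =
      ((α x : T) : Ω)) ∧
    ∀ c : ↥(T ⊔ centralizerIn S T), (c : Ω) ∈ centralizerIn S T →
      (c : Ω)⁻¹ * ((β c : ↥(T ⊔ centralizerIn S T)) : Ω) ∈ T ⊓ Subgroup.centralizer (T : Set Ω)

/-- `F'` (over `S'`) is intermediate between `E` and `F`. -/
def Inter (p : ℕ) (F : FusionSystem S) {T : Subgroup Ω} (E : FusionSystem T) {S' : Subgroup Ω}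
    (F' : FusionSystem S') : Prop :=
  F'.IsNormalIn F p ∧ E.IsNormalIn F' p ∧ T ⊔ centralizerIn S T ≤ S' ∧ RLSame p F' F

/-! ### External input -/

/-- PPEX (= existence half of S5113): the saturated subsystem of `p`-power index over `T ≥ hyp(F)`. -/
def PPEx : Prop :=
  ∀ {Ω : Type u} [Group Ω] {S : Subgroup Ω} [Finite S] (p : ℕ) [Fact p.Prime] (_ : IsPGroup p S)
    (F : FusionSystem S) (_ : F.IsSaturated p) (T : Subgroup Ω) (_ : T ≤ S)
    (_ : F.hyperfocalSubgroup p ≤ T),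
    ∃ E : FusionSystem T, E.IsSaturated p ∧ E.HasPPowerIndexIn F p

/-! ### Normality transfer -/

/-- NT: `D` normal in `F'`, weakly normal in `F ≥ F'`, and `C_S(S'') ≤ S'` (where `D` is over
`S''`, `F'` over `S'`): then `D` is normal in `F`. -/
def NormalTrans : Prop :=
  ∀ {Ω : Type u} [Group Ω] {S : Subgroup Ω} [Finite S] (p : ℕ) [Fact p.Prime]
    (F : FusionSystem S) {S' S'' : Subgroup Ω} (F' : FusionSystem S') (D : FusionSystem S''),
    F'.IsSubsystemOf F → D.IsWeaklyNormalIn F p → D.IsNormalIn F' p →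
    centralizerIn S S'' ≤ S' → D.IsNormalIn F p

/-- WNT: `D` normal in `F'`, `F'` normal in `F`, the group `S''` of `D` strongly closed in `F`
and `D` invariant under `Aut_F(S'')`: then `D` is weakly normal in `F`. -/
def WNTrans : Prop :=
  ∀ {Ω : Type u} [Group Ω] {S : Subgroup Ω} [Finite S] (p : ℕ) [Fact p.Prime] (_ : IsPGroup p S)
    (F : FusionSystem S) (_ : F.IsSaturated p) {S' S'' : Subgroup Ω} (F' : FusionSystem S')
    (D : FusionSystem S''),
    F'.IsNormalIn F p → D.IsNormalIn F' p → F.StronglyClosed S'' →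
    Cfsg.Agent.H85.InvCond D F → D.IsWeaklyNormalIn F p

/-- EXS: for systems over the same group the extension clause is automatic. -/
def ExtSame : Prop :=
  ∀ {Ω : Type u} [Group Ω] {T : Subgroup Ω} (E X : FusionSystem T), E.IsSubsystemOf X → ExtCl E X

/-- SELFN: a saturated system is normal in itself. -/
def SelfNormal : Prop :=
  ∀ {Ω : Type u} [Group Ω] {S : Subgroup Ω} [Finite S] (p : ℕ) [Fact p.Prime] (_ : IsPGroup p S)
    (F : FusionSystem S) (_ : F.IsSaturated p), F.IsNormalIn F p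

/-- INVP: a saturated subsystem `W` of `p`-power index in `F'`, over a subgroup `S''` strongly
closed in `F`, where `F'` is normal in `F`, is invariant under `Aut_F(S'')`. -/
def InvPPower : Prop :=
  ∀ {Ω : Type u} [Group Ω] {S : Subgroup Ω} [Finite S] (p : ℕ) [Fact p.Prime] (_ : IsPGroup p S)
    (F : FusionSystem S) (_ : F.IsSaturated p) {S' S'' : Subgroup Ω} (F' : FusionSystem S')
    (W : FusionSystem S''),
    F'.IsNormalIn F p → F.StronglyClosed S'' → W.IsSaturated p → W.HasPPowerIndexIn F' p →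
    Cfsg.Agent.H85.InvCond W F

/-- INVQ: `R ≤ F'' ≤ F'` over the same `S'`, `F''` saturated, `R` of index prime to `p` in `F'`
and invariant under `Aut_F(S')`, and `Aut_{F''}(S')` normalized by `Aut_F(S')`: then `F''` is
invariant under `Aut_F(S')`. -/
def InvPPrime : Prop :=
  ∀ {Ω : Type u} [Group Ω] {S : Subgroup Ω} [Finite S] (p : ℕ) [Fact p.Prime] (_ : IsPGroup p S)
    (F : FusionSystem S) (_ : F.IsSaturated p) {S' : Subgroup Ω} (F' F'' R : FusionSystem S'),
    F'.IsSubsystemOf F → F''.IsSaturated p → F''.IsSubsystemOf F' → R.IsSubsystemOf F'' →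
    R.HasPrimeToPIndexIn F' p → Cfsg.Agent.H85.InvCond R F →
    (∀ α ∈ F.autGroup S', ∀ a ∈ F''.autGroup S', α * a * α⁻¹ ∈ F''.autGroup S') →
    Cfsg.Agent.H85.InvCond F'' F

/-- AUTNORM: if `F'` (over `S'`) is normal in `F` then `Aut_{F'}(S')` is normalized by
`Aut_F(S')`. -/
def AutNormal : Prop :=
  ∀ {Ω : Type u} [Group Ω] {S : Subgroup Ω} [Finite S] (p : ℕ) [Fact p.Prime] (_ : IsPGroup p S)
    (F : FusionSystem S) (_ : F.IsSaturated p) {S' : Subgroup Ω} (F' : FusionSystem S'),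
    F'.IsNormalIn F p → ∀ α ∈ F.autGroup S', ∀ a ∈ F'.autGroup S', α * a * α⁻¹ ∈ F'.autGroup S'

/-- RESAUT: an `F`-automorphism of `S'` restricts to an `F`-automorphism of the strongly closed
subgroup `T ≤ S'`. -/
def ResAutT : Prop :=
  ∀ {Ω : Type u} [Group Ω] {S : Subgroup Ω} [Finite S] (F : FusionSystem S) (T S' : Subgroup Ω)
    (hTS' : T ≤ S'), F.StronglyClosed T → S' ≤ S → ∀ a ∈ F.autGroup S',
    ∃ g ∈ F.autGroup T, ResOf hTS' g a

/-- INVE: a normal subsystem `E` of `F` is invariant in every saturated `F''` with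
`E ≤ F'' ≤ F`. -/
def InvSub : Prop :=
  ∀ {Ω : Type u} [Group Ω] {S : Subgroup Ω} [Finite S] (p : ℕ) [Fact p.Prime] (_ : IsPGroup p S)
    (F : FusionSystem S) (_ : F.IsSaturated p) {T : Subgroup Ω} (E : FusionSystem T)
    {S'' : Subgroup Ω} (F'' : FusionSystem S''),
    E.IsNormalIn F p → F''.IsSaturated p → F''.IsSubsystemOf F → E.IsSubsystemOf F'' →
    E.IsInvariantIn F''

/-! ### Strongly closed subgroups -/

/-- EXTT: for `T` strongly closed in the saturated `F`, every map `φ` of `F` on `P` is covered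
modulo `T` by a map of `F` on `P T`. -/
def ExtModT : Prop :=
  ∀ {Ω : Type u} [Group Ω] {S : Subgroup Ω} [Finite S] (p : ℕ) [Fact p.Prime] (_ : IsPGroup p S)
    (F : FusionSystem S) (_ : F.IsSaturated p) (T : Subgroup Ω), F.StronglyClosed T →
    ∀ (P : Subgroup Ω) (φ : P →* Ω), φ ∈ F.Hom P →
      ∃ ψ ∈ F.Hom (P ⊔ T), ∀ x : P, (φ x)⁻¹ * ψ (Subgroup.inclusion le_sup_left x) ∈ T

/-- SC: for `T ≤ S'` strongly closed in `F` and `Γ ≤ Aut(T)` normalized by `Aut_F(T)` and
containing `Inn(T)`, the subgroup `S'' = {x ∈ S' | c_x on T lies in Γ}` is strongly closed. -/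
def StrClosedPre : Prop :=
  ∀ {Ω : Type u} [Group Ω] {S : Subgroup Ω} [Finite S] (p : ℕ) [Fact p.Prime] (_ : IsPGroup p S)
    (F : FusionSystem S) (_ : F.IsSaturated p) (T S' S'' : Subgroup Ω) (Γ : Subgroup (MulAut T)),
    F.StronglyClosed T → F.StronglyClosed S' → T ≤ S' → NormBy F T Γ →
    (∀ t ∈ T, ∃ g ∈ Γ, ConjOn T g t) →
    (∀ x : Ω, x ∈ S'' ↔ x ∈ S' ∧ ∃ g ∈ Γ, ConjOn T g x) → F.StronglyClosed S''

/-- HYPS: if `Γ ≤ Aut(T)` contains the elements of `Aut_F(T)` of order prime to `p` and `Inn(T)`,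
then every element of `hyp(F)` acts on the strongly closed `T` as an element of `Γ`. -/
def HypAct : Prop :=
  ∀ {Ω : Type u} [Group Ω] {S : Subgroup Ω} [Finite S] (p : ℕ) [Fact p.Prime] (_ : IsPGroup p S)
    (F : FusionSystem S) (_ : F.IsSaturated p) (T : Subgroup Ω) (Γ : Subgroup (MulAut T)),
    F.StronglyClosed T → (∀ ν ∈ F.autGroup T, (orderOf ν).Coprime p → ν ∈ Γ) →
    (∀ t ∈ T, ∃ g ∈ Γ, ConjOn T g t) →
    ∀ x ∈ F.hyperfocalSubgroup p, ∃ g ∈ Γ, ConjOn T g x

/-! ### The automizer of `T` in the next system -/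

/-- AUTP: `F''` saturated of `p`-power index in `F` over `S'' ≥ T`; if `Γ` contains the
`p'`-elements of `Aut_F(T)` and the conjugations by the elements of `S''`, then
`Aut_{F''}(T) ≤ Γ`. -/
def AutPStep : Prop :=
  ∀ {Ω : Type u} [Group Ω] {S : Subgroup Ω} [Finite S] (p : ℕ) [Fact p.Prime] (_ : IsPGroup p S)
    (F : FusionSystem S) (_ : F.IsSaturated p) (T : Subgroup Ω) {S'' : Subgroup Ω}
    (F'' : FusionSystem S'') (Γ : Subgroup (MulAut T)),
    F.StronglyClosed T → T ≤ S'' → F''.IsSaturated p → F''.HasPPowerIndexIn F p →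
    (∀ ν ∈ F.autGroup T, (orderOf ν).Coprime p → ν ∈ Γ) →
    (∀ x ∈ S'', ∃ g ∈ Γ, ConjOn T g x) → F''.autGroup T ≤ Γ

/-- AUTQ: `F''` saturated, `F'' ≤ F` over the same `S`; if `Γ` contains the `p`-elements of
`Aut_F(T)` and the restrictions to `T` of the elements of `Aut_{F''}(S)`, then
`Aut_{F''}(T) ≤ Γ`. -/
def AutQStep : Prop :=
  ∀ {Ω : Type u} [Group Ω] {S : Subgroup Ω} [Finite S] (p : ℕ) [Fact p.Prime] (_ : IsPGroup p S)
    (F : FusionSystem S) (_ : F.IsSaturated p) (T : Subgroup Ω) (hTS : T ≤ S)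
    (F'' : FusionSystem S) (Γ : Subgroup (MulAut T)),
    F.StronglyClosed T → F''.IsSaturated p → F''.IsSubsystemOf F →
    (∀ ν ∈ F.autGroup T, (∃ k : ℕ, orderOf ν = p ^ k) → ν ∈ Γ) →
    (∀ a ∈ F''.autGroup S, ∃ g ∈ Γ, ResOf hTS g a) → F''.autGroup T ≤ Γ

/-! ### The extension clause for `E` in the next system -/

/-- EXTP: `E` normal in `F`, `F''` saturated of `p`-power index in `F` over `S'' ≥ T C_S(T)`:
the extension clause holds for `E` in `F''`. -/
def ExtPStep : Prop :=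
  ∀ {Ω : Type u} [Group Ω] {S : Subgroup Ω} [Finite S] (p : ℕ) [Fact p.Prime] (_ : IsPGroup p S)
    (F : FusionSystem S) (_ : F.IsSaturated p) {T : Subgroup Ω} (E : FusionSystem T)
    {S'' : Subgroup Ω} (F'' : FusionSystem S''),
    E.IsNormalIn F p → F''.IsSaturated p → F''.HasPPowerIndexIn F p →
    T ⊔ centralizerIn S T ≤ S'' → ExtCl E F''

/-- EXTQ: `E` normal in `F`, `F'' ≤ F` saturated over the same `S` of index prime to `p`,
`Aut_E(T) ≤ Γ`, `Aut_{F''}(T) ≤ Γ`, and every `a ∈ Aut_F(S)` whose restriction to `T` lies in `Γ`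
belongs to `Aut_{F''}(S)`: the extension clause holds for `E` in `F''`. -/
def ExtQStep : Prop :=
  ∀ {Ω : Type u} [Group Ω] {S : Subgroup Ω} [Finite S] (p : ℕ) [Fact p.Prime] (_ : IsPGroup p S)
    (F : FusionSystem S) (_ : F.IsSaturated p) {T : Subgroup Ω} (E : FusionSystem T)
    (hTS : T ≤ S) (F'' : FusionSystem S) (Γ : Subgroup (MulAut T)),
    E.IsNormalIn F p → F''.IsSaturated p → F''.IsSubsystemOf F → F''.HasPrimeToPIndexIn F p →
    E.autGroup T ≤ Γ → F''.autGroup T ≤ Γ →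
    (∀ a ∈ F.autGroup S, ∀ g ∈ Γ, ResOf hTS g a → a ∈ F''.autGroup S) → ExtCl E F''

/-! ### Residual limits -/

/-- RLSUB: a residual limit of `F` is a subsystem of `F`. -/
def RLSub : Prop :=
  ∀ {Ω : Type u} [Group Ω] (p : ℕ) {U S : Subgroup Ω} (L : FusionSystem U) (F : FusionSystem S),
    L.IsResidualLimitOf F p → L.IsSubsystemOf F

/-- RLEX: a saturated system has a residual limit. -/
def RLEx : Prop :=
  ∀ {Ω : Type u} [Group Ω] {S : Subgroup Ω} [Finite S] (p : ℕ) [Fact p.Prime] (_ : IsPGroup p S)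
    (F : FusionSystem S) (_ : F.IsSaturated p),
    ∃ (U : Subgroup Ω) (L : FusionSystem U), L.IsResidualLimitOf F p

/-- RLDEF: if `hyp(F) = S` then `F` and its `p'`-residual `Y` have the same residual limit. -/
def RLDef : Prop :=
  ∀ {Ω : Type u} [Group Ω] {S : Subgroup Ω} [Finite S] (p : ℕ) [Fact p.Prime] (_ : IsPGroup p S)
    (F : FusionSystem S) (_ : F.IsSaturated p) (Y : FusionSystem S),
    F.hyperfocalSubgroup p = S → F.IsPPrimeResidual p Y → RLSame p F Y

/-- CASEA: for `F₁` normal in `F` over the same `S`, the subsystems `X` of `F` and `W` of `F₁` of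
`p`-power index over `hyp(F)` satisfy `W` normal in `X`. -/
def RLCaseA : Prop :=
  ∀ {Ω : Type u} [Group Ω] {S : Subgroup Ω} [Finite S] (p : ℕ) [Fact p.Prime] (_ : IsPGroup p S)
    (F : FusionSystem S) (_ : F.IsSaturated p) (F₁ : FusionSystem S), F₁.IsNormalIn F p →
    ∃ X W : FusionSystem (F.hyperfocalSubgroup p),
      (X.IsSaturated p ∧ X.HasPPowerIndexIn F p) ∧ (W.IsSaturated p ∧ W.HasPPowerIndexIn F₁ p) ∧
        W.IsNormalIn X p

/-- CASEB: for `F₁` normal in `F` over the same `S`, the `p'`-residual of `F` is the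
`p'`-residual of `F₁`. -/
def RLCaseB : Prop :=
  ∀ {Ω : Type u} [Group Ω] {S : Subgroup Ω} [Finite S] (p : ℕ) [Fact p.Prime] (_ : IsPGroup p S)
    (F : FusionSystem S) (_ : F.IsSaturated p) (F₁ Y : FusionSystem S), F₁.IsNormalIn F p →
    F.IsPPrimeResidual p Y → F₁.IsPPrimeResidual p Y

/-- RLN: a normal subsystem over the same `S` has the same residual limit. -/
def RLNormal : Prop :=
  ∀ {Ω : Type u} [Group Ω] {S : Subgroup Ω} [Finite S] (p : ℕ) [Fact p.Prime] (_ : IsPGroup p S)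
    (F : FusionSystem S) (_ : F.IsSaturated p) (F₁ : FusionSystem S), F₁.IsNormalIn F p →
    RLSame p F₁ F

/-! ### Group theory -/

/-- SERIES: in a finite group, `H ≤ K` with `H` normal: if `|K : H|` is a power of `p` then the
`p'`-elements of `K` lie in `H`; if `|K : H|` is prime to `p` then the `p`-elements of `K` lie in
`H`. -/
def SeriesElt : Prop :=
  ∀ {G : Type u} [Group G] [Finite G] (p : ℕ) [Fact p.Prime] (H K : Subgroup G) [H.Normal]
    (_ : H ≤ K),
    ((∃ m : ℕ, H.relIndex K = p ^ m) → ∀ x ∈ K, (orderOf x).Coprime p → x ∈ H) ∧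
    ((H.relIndex K).Coprime p → ∀ x ∈ K, (∃ k : ℕ, orderOf x = p ^ k) → x ∈ H)

/-- COPIDX: a normal subgroup of a finite group containing all elements of `p`-power order has
index prime to `p`. -/
def CoprimeIdx : Prop :=
  ∀ {G : Type u} [Group G] [Finite G] (p : ℕ) [Fact p.Prime] (K : Subgroup G) [K.Normal],
    (∀ x : G, (∃ k : ℕ, orderOf x = p ^ k) → x ∈ K) → (Nat.card (G ⧸ K)).Coprime p

/-! ### The two steps and the base -/

/-- PSTEP: the `p`-step. -/
def PStep : Prop :=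
  ∀ {Ω : Type u} [Group Ω] {S : Subgroup Ω} [Finite S] (p : ℕ) [Fact p.Prime] (_ : IsPGroup p S)
    (F : FusionSystem S) (_ : F.IsSaturated p) {T : Subgroup Ω} (E : FusionSystem T)
    (_ : E.IsNormalIn F p) {S' : Subgroup Ω} (F' : FusionSystem S') (_ : Inter p F E F')
    (Γ : Subgroup (MulAut T)) (_ : NormBy F T Γ) (_ : E.autGroup T ≤ Γ)
    (_ : ∀ ν ∈ F'.autGroup T, (orderOf ν).Coprime p → ν ∈ Γ),
    ∃ (S'' : Subgroup Ω) (F'' : FusionSystem S''), Inter p F E F'' ∧ F''.autGroup T ≤ Γ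

/-- QSTEP: the `p'`-step. -/
def QStep : Prop :=
  ∀ {Ω : Type u} [Group Ω] {S : Subgroup Ω} [Finite S] (p : ℕ) [Fact p.Prime] (_ : IsPGroup p S)
    (F : FusionSystem S) (_ : F.IsSaturated p) {T : Subgroup Ω} (E : FusionSystem T)
    (_ : E.IsNormalIn F p) {S' : Subgroup Ω} (F' : FusionSystem S') (_ : Inter p F E F')
    (Γ : Subgroup (MulAut T)) (_ : NormBy F T Γ) (_ : E.autGroup T ≤ Γ)
    (_ : ∀ ν ∈ F'.autGroup T, (∃ k : ℕ, orderOf ν = p ^ k) → ν ∈ Γ),
    ∃ (S'' : Subgroup Ω) (F'' : FusionSystem S''), Inter p F E F'' ∧ F''.autGroup T ≤ Γ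

/-- BASE: if `Aut_{F'}(T) ≤ Aut_E(T)` then `S' = T C_S(T)`. -/
def BaseCase : Prop :=
  ∀ {Ω : Type u} [Group Ω] {S : Subgroup Ω} [Finite S] (p : ℕ) [Fact p.Prime] (_ : IsPGroup p S)
    (F : FusionSystem S) (_ : F.IsSaturated p) {T : Subgroup Ω} (E : FusionSystem T)
    {S' : Subgroup Ω} (F' : FusionSystem S'),
    E.IsNormalIn F p → F'.IsSubsystemOf F → T ⊔ centralizerIn S T ≤ S' →
    F'.autGroup T ≤ E.autGroup T → S' = T ⊔ centralizerIn S T

/-- CHAIN: the reduction theorem in internal form. -/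
def Chain : Prop :=
  ∀ {Ω : Type u} [Group Ω] {S : Subgroup Ω} [Finite S] (p : ℕ) [Fact p.Prime] (_ : IsPGroup p S)
    (F : FusionSystem S) (_ : F.IsSaturated p) {T : Subgroup Ω} (E : FusionSystem T)
    (_ : E.IsNormalIn F p) [((E.autGroup T).subgroupOf (F.autGroup T)).Normal]
    (_ : Cfsg.IsPSolvable p (↥(F.autGroup T) ⧸ (E.autGroup T).subgroupOf (F.autGroup T))),
    ∃ F₀ : FusionSystem (T ⊔ centralizerIn S T),
      Inter p F E F₀ ∧ F₀.autGroup T = E.autGroup T

/-! ### For S5201 -/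

/-- TRIV: if `Aut_{F₀}(T) ≤ Aut_E(T)` and the focal subgroup of `C_F(T)` lies in `T`, then every
map of `F₀` (over `T C_S(T)`) is trivial modulo `T`. -/
def TrivModT : Prop :=
  ∀ {Ω : Type u} [Group Ω] {S : Subgroup Ω} [Finite S] (p : ℕ) [Fact p.Prime] (_ : IsPGroup p S)
    (F : FusionSystem S) (_ : F.IsSaturated p) {T : Subgroup Ω} (E : FusionSystem T)
    (F₀ : FusionSystem (T ⊔ centralizerIn S T)),
    E.IsNormalIn F p → F₀.IsSaturated p → F₀.IsSubsystemOf F → F₀.autGroup T ≤ E.autGroup T →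
    (∀ D : FusionSystem (centralizerIn S T), F.IsCentralizerSystem T D → D.focalSubgroup ≤ T) →
    ∀ (P : Subgroup Ω) (φ : P →* Ω), φ ∈ F₀.Hom P → ∀ x : P, (x : Ω)⁻¹ * φ x ∈ T

/-- PPIDX: if `E` is normal in `F₀`, `Aut_{F₀}(T) ≤ Aut_E(T)` and every map of `F₀` is trivial
modulo `T`, then `E` has `p`-power index in `F₀`. -/
def PPIdxOfTriv : Prop :=
  ∀ {Ω : Type u} [Group Ω] {S₀ : Subgroup Ω} [Finite S₀] (p : ℕ) [Fact p.Prime]
    (_ : IsPGroup p S₀) {T : Subgroup Ω} (E : FusionSystem T) (F₀ : FusionSystem S₀),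
    E.IsNormalIn F₀ p → F₀.autGroup T ≤ E.autGroup T →
    (∀ (P : Subgroup Ω) (φ : P →* Ω), φ ∈ F₀.Hom P → ∀ x : P, (x : Ω)⁻¹ * φ x ∈ T) →
    E.HasPPowerIndexIn F₀ p

end Cfsg.Agent.Lib.Helper88.ORStmt
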