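import Mathlib
import Cfsg.Agent.Lib.Helper25.ACStmt
import Cfsg.Agent.Lib.Helper25.ACOddStmt

/-!
# S3911 piece EXPIN (helper25's call): a Sylow `p`-subgroup of exponent `p` lies in every normal
subgroup of order divisible by `p` (in a group with property (B))
-/

set_option autoImplicit false

namespace Cfsg.Agent.Lib.Helper88.AOEXPIN

open Cfsg.Agent.Lib.Helper25.ACStmt Cfsg.Agent.Lib.Helper25.ACOddStmt

universe u

theorem main : ExpIn.{u} := by
  intro G _ _ hB M hMn p hp hdvd P hexp
  obtain ⟨y₀, hy₀⟩ := exists_prime_orderOf_dvd_card' p hdvd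
  have hy : orderOf (y₀ : G) = p := by rw [Subgroup.orderOf_coe]; exact hy₀
  have hyN : Subgroup.zpowers (y₀ : G) ≤ M := (Subgroup.zpowers_le).mpr y₀.2
  intro x hx
  by_cases hx1 : x = 1
  · rw [hx1]; exact M.one_mem
  · have hxo : orderOf x = p := orderOf_eq_prime (hexp x hx) hx1
    have hcard : Nat.card ↥(Subgroup.zpowers (y₀ : G)) = Nat.card ↥(Subgroup.zpowers x) := by
      rw [Nat.card_zpowers, Nat.card_zpowers, hy, hxo]
    obtain ⟨g, hg⟩ := hB (Subgroup.zpowers (y₀ : G)) (Subgroup.zpowers x) inferInstance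
      inferInstance hcard
    have hxm : x ∈ (Subgroup.zpowers (y₀ : G)).map (MulAut.conj g).toMonoidHom := by
      rw [← hg]; exact Subgroup.mem_zpowers x
    obtain ⟨a, ha, rfl⟩ := hxm
    exact hMn.conj_mem a (hyN ha) g

end Cfsg.Agent.Lib.Helper88.AOEXPIN
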