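import Mathlib
import Cfsg.Agent.Lib.Helper25.ACStmt
import Cfsg.Agent.Lib.Helper25.ACOddStmt

/-!
# S3911 piece MINHALL (helper25's call): a minimal normal subgroup of odd order that is not a
`p`-group is a Hall subgroup (in a group with property (B)), from `SylIn`
-/

set_option autoImplicit false

namespace Cfsg.Agent.Lib.Helper88.AOMINHALL

open Cfsg.Agent.Lib.Helper25.ACStmt Cfsg.Agent.Lib.Helper25.ACOddStmt

universe u

theorem main (hIn : SylIn.{u}) : MinHall.{u} := by
  intro G _ _ hB M hMn hM1 hodd hmin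
  by_cases h : ∃ p : ℕ, p.Prime ∧ IsPGroup p ↥M
  · exact Or.inl h
  · refine Or.inr ?_
    refine Nat.coprime_of_dvd ?_
    intro q hq hqM hqi
    have : Fact q.Prime := ⟨hq⟩
    obtain ⟨Q⟩ := (inferInstance : Nonempty (Sylow q G))
    rcases hIn G hB M hMn hodd hmin q hqM Q with hQ | hQ
    · have hidx : M.index ∣ (Q : Subgroup G).index := Subgroup.index_dvd_of_le hQ
      exact Q.not_dvd_index (hqi.trans hidx)
    · exact h ⟨q, hq, hQ⟩

end Cfsg.Agent.Lib.Helper88.AOMINHALL
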