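import Mathlib

/-!
# Finite abelian `p`-groups with and without a repeated invariant

* `model`: the group `(C × C) × H` has a group of automorphisms of order prime to `p` which is
  either not commutative or not of exponent dividing `p - 1`.
* `exists_char_chain`: a finite abelian `p`-group that is not of the form
  `(C_{p^n} × C_{p^n}) × H` has a chain of characteristic subgroups with cyclic steps.
-/

set_option autoImplicit false

namespace Cfsg.Agent.Lib.Helper88.AbInv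

section Model

variable (C H0 : Type*) [CommGroup C] [CommGroup H0]

/-- The automorphism `(a, b) ↦ (b, a⁻¹ b⁻¹)` of order three. -/
def rho : MulAut ((C × C) × H0) where
  toFun x := ((x.1.2, x.1.1⁻¹ * x.1.2⁻¹), x.2)
  invFun x := ((x.1.1⁻¹ * x.1.2⁻¹, x.1.1), x.2)
  left_inv := by
    rintro ⟨⟨a, b⟩, h⟩
    simp
  right_inv := by
    rintro ⟨⟨a, b⟩, h⟩
    simp
  map_mul' := by
    rintro ⟨⟨a, b⟩, h⟩ ⟨⟨a', b'⟩, h'⟩
    simp [mul_comm, mul_left_comm, mul_assoc]

theorem rho_apply (x : (C × C) × H0) : rho C H0 x = ((x.1.2, x.1.1⁻¹ * x.1.2⁻¹), x.2) := rfl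

theorem rho_pow_three : rho C H0 ^ 3 = 1 := by
  ext x
  · simp [pow_succ, rho_apply]
  · simp [pow_succ, rho_apply]
  · simp [pow_succ, rho_apply]

theorem rho_ne_one {a0 : C} (ha0 : a0 ≠ 1) : rho C H0 ≠ 1 := by
  intro h
  have h1 : rho C H0 ((a0, 1), 1) = ((a0, 1), 1) := by rw [h]; rfl
  rw [rho_apply] at h1
  have h2 := congrArg (fun x : (C × C) × H0 => x.1.1) h1
  exact ha0 h2.symm

/-- The group of the signed permutations of the two coordinates. -/
def signedPerm : Subgroup (MulAut ((C × C) × H0)) where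
  carrier := {τ | ∃ u1 u2 : ℤˣ,
    (∀ x : (C × C) × H0, τ x = ((x.1.1 ^ (u1 : ℤ), x.1.2 ^ (u2 : ℤ)), x.2)) ∨
    (∀ x : (C × C) × H0, τ x = ((x.1.2 ^ (u1 : ℤ), x.1.1 ^ (u2 : ℤ)), x.2))}
  one_mem' := ⟨1, 1, Or.inl (fun x => by simp)⟩
  mul_mem' := by
    rintro a b ⟨u1, u2, ha | ha⟩ ⟨v1, v2, hb | hb⟩
    · exact ⟨v1 * u1, v2 * u2, Or.inl (fun x => by
        rw [MulAut.mul_apply, hb x, ha _]; simp [zpow_mul])⟩
    · exact ⟨v1 * u1, v2 * u2, Or.inr (fun x => by
        rw [MulAut.mul_apply, hb x, ha _]; simp [zpow_mul])⟩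
    · exact ⟨v2 * u1, v1 * u2, Or.inr (fun x => by
        rw [MulAut.mul_apply, hb x, ha _]; simp [zpow_mul])⟩
    · exact ⟨v2 * u1, v1 * u2, Or.inl (fun x => by
        rw [MulAut.mul_apply, hb x, ha _]; simp [zpow_mul])⟩
  inv_mem' := by
    rintro a ⟨u1, u2, ha | ha⟩
    · refine ⟨u1, u2, Or.inl (fun x => a.injective ?_)⟩
      rw [MulAut.apply_inv_self, ha]
      simp [← zpow_mul, Int.units_coe_mul_self]
    · refine ⟨u2, u1, Or.inr (fun x => a.injective ?_)⟩
      rw [MulAut.apply_inv_self, ha]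
      simp [← zpow_mul, Int.units_coe_mul_self]

theorem signedPerm_pow_four {τ : MulAut ((C × C) × H0)} (hτ : τ ∈ signedPerm C H0) :
    τ ^ 4 = 1 := by
  have hleft : ∀ σ : MulAut ((C × C) × H0), (∃ u1 u2 : ℤˣ,
      ∀ x : (C × C) × H0, σ x = ((x.1.1 ^ (u1 : ℤ), x.1.2 ^ (u2 : ℤ)), x.2)) → σ * σ = 1 := by
    rintro σ ⟨u1, u2, h⟩
    ext x
    · rw [MulAut.mul_apply, h x, h _]; simp [← zpow_mul, Int.units_coe_mul_self]
    · rw [MulAut.mul_apply, h x, h _]; simp [← zpow_mul, Int.units_coe_mul_self]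
    · rw [MulAut.mul_apply, h x, h _]; simp
  have e4 : τ ^ 4 = (τ * τ) * (τ * τ) := by
    rw [← pow_two, ← pow_two, ← pow_mul]
  obtain ⟨u1, u2, h | h⟩ := hτ
  · rw [e4, hleft τ ⟨u1, u2, h⟩, one_mul]
  · rw [e4]
    apply hleft
    exact ⟨u2 * u1, u1 * u2, fun x => by
      rw [MulAut.mul_apply, h x, h _]; simp [zpow_mul]⟩

theorem signedPerm_isPGroup : IsPGroup 2 (signedPerm C H0) := by
  rintro ⟨τ, hτ⟩
  refine ⟨2, Subtype.ext ?_⟩
  show τ ^ (2 ^ 2) = 1
  exact signedPerm_pow_four C H0 hτ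

/-- The swap of the two coordinates. -/
def swapAut : MulAut ((C × C) × H0) := MulEquiv.prodCongr MulEquiv.prodComm (MulEquiv.refl H0)

theorem swapAut_apply (x : (C × C) × H0) : swapAut C H0 x = ((x.1.2, x.1.1), x.2) := rfl

/-- Inversion of the first coordinate. -/
def negAut : MulAut ((C × C) × H0) :=
  MulEquiv.prodCongr (MulEquiv.prodCongr (MulEquiv.inv C) (MulEquiv.refl C)) (MulEquiv.refl H0)

theorem negAut_apply (x : (C × C) × H0) : negAut C H0 x = ((x.1.1⁻¹, x.1.2), x.2) := rfl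

theorem signedPerm_not_comm {a0 : C} (ha0 : a0 * a0 ≠ 1) :
    ∃ a ∈ signedPerm C H0, ∃ b ∈ signedPerm C H0, a * b ≠ b * a := by
  refine ⟨swapAut C H0, ⟨1, 1, Or.inr (fun x => by rw [swapAut_apply]; simp)⟩,
    negAut C H0, ⟨-1, 1, Or.inl (fun x => by rw [negAut_apply]; simp)⟩, fun h => ha0 ?_⟩
  have h1 : swapAut C H0 (negAut C H0 ((a0, 1), 1)) = negAut C H0 (swapAut C H0 ((a0, 1), 1)) := by
    rw [← MulAut.mul_apply, h, MulAut.mul_apply]
  rw [negAut_apply, swapAut_apply, swapAut_apply, negAut_apply] at h1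
  have h2 : a0⁻¹ = a0 := congrArg (fun x : (C × C) × H0 => x.1.2) h1
  calc a0 * a0 = a0⁻¹ * a0 := by rw [h2]
    _ = 1 := inv_mul_cancel a0

/-- The model: a group of automorphisms of `(C × C) × H0` of order prime to `p` that is not
commutative or not of exponent dividing `p - 1`. -/
theorem model [Finite C] [Finite H0] (p : ℕ) [Fact p.Prime] {a0 : C} (ha0 : a0 ≠ 1)
    (ha0' : p ≠ 2 → a0 * a0 ≠ 1) :
    ∃ K : Subgroup (MulAut ((C × C) × H0)), (Nat.card K).Coprime p ∧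
      ((∃ a ∈ K, ∃ b ∈ K, a * b ≠ b * a) ∨ ∃ h ∈ K, h ^ (p - 1) ≠ 1) := by
  have hp : p.Prime := Fact.out
  by_cases h2 : p = 2
  · subst h2
    refine ⟨Subgroup.zpowers (rho C H0), ?_, Or.inr ⟨rho C H0, Subgroup.mem_zpowers _, ?_⟩⟩
    · rw [Nat.card_zpowers]
      have hd : orderOf (rho C H0) ∣ 3 := orderOf_dvd_of_pow_eq_one (rho_pow_three C H0)
      rcases (Nat.dvd_prime Nat.prime_three).mp hd with h | h
      · rw [h]; decide
      · rw [h]; decide
    · show rho C H0 ^ (2 - 1) ≠ 1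
      rw [show 2 - 1 = 1 from rfl, pow_one]
      exact rho_ne_one C H0 ha0
  · refine ⟨signedPerm C H0, ?_, Or.inl (signedPerm_not_comm C H0 (ha0' h2))⟩
    obtain ⟨j, hj⟩ := IsPGroup.iff_card.mp (signedPerm_isPGroup C H0)
    rw [hj]
    apply Nat.Coprime.pow_left
    exact (Nat.coprime_primes Nat.prime_two hp).mpr (Ne.symm h2)

end Model

section Transport

variable {P M : Type*} [Group P] [Group M]

/-- Transport of the model along an isomorphism. -/
theorem transport (e : P ≃* M) (p : ℕ) (K : Subgroup (MulAut M)) (hK : (Nat.card K).Coprime p)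
    (h : (∃ a ∈ K, ∃ b ∈ K, a * b ≠ b * a) ∨ ∃ h ∈ K, h ^ (p - 1) ≠ 1) :
    ∃ K' : Subgroup (MulAut P), (Nat.card K').Coprime p ∧
      ((∃ a ∈ K', ∃ b ∈ K', a * b ≠ b * a) ∨ ∃ h ∈ K', h ^ (p - 1) ≠ 1) := by
  let f : MulAut M ≃* MulAut P := MulAut.congr e.symm
  refine ⟨K.map f.toMonoidHom, ?_, ?_⟩
  · have : Nat.card (K.map f.toMonoidHom) = Nat.card K :=
      (Nat.card_congr (f.subgroupMap K).toEquiv).symm
    rw [this]
    exact hK
  · rcases h with ⟨a, ha, b, hb, hab⟩ | ⟨h, hh, hne⟩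
    · refine Or.inl ⟨f a, ⟨a, ha, rfl⟩, f b, ⟨b, hb, rfl⟩, fun h => hab ?_⟩
      apply f.injective
      rw [map_mul, map_mul]
      exact h
    · refine Or.inr ⟨f h, ⟨h, hh, rfl⟩, fun h1 => hne ?_⟩
      apply f.injective
      rw [map_pow, map_one]
      exact h1

end Transport


section Core

theorem zpow_pow_swap {G : Type*} [Group G] (a : G) (t : ℤ) (N : ℕ) : (a ^ t) ^ N = (a ^ N) ^ t := by
  rw [← zpow_natCast, ← zpow_mul, ← zpow_natCast, ← zpow_mul, mul_comm]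

/-- In a cyclic group of order `p ^ e` with `e ≠ n + 1`, the `p ^ n`-th power of an element of
order dividing `p ^ (n + 1)` is a `p ^ (n + 1)`-th power. -/
theorem cyclic_pow_root {C : Type*} [CommGroup C] [IsCyclic C] (p : ℕ) [Fact p.Prime] {e n : ℕ}
    (hcard : Nat.card C = p ^ e) (hne : e ≠ n + 1) (z : C) (hz : z ^ (p ^ (n + 1)) = 1) :
    ∃ w : C, w ^ (p ^ (n + 1)) = z ^ (p ^ n) := by
  have hp : p.Prime := Fact.out
  have : Finite C := Nat.finite_of_card_ne_zero (by rw [hcard]; exact pow_ne_zero _ hp.ne_zero)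
  rcases Nat.lt_or_ge e (n + 1) with hlt | hge
  · refine ⟨1, ?_⟩
    rw [one_pow]
    symm
    rw [← orderOf_dvd_iff_pow_eq_one]
    refine (orderOf_dvd_natCard z).trans ?_
    rw [hcard]
    exact pow_dvd_pow p (by omega)
  · obtain ⟨d, hd⟩ : ∃ d, e = (n + 1) + (d + 1) := ⟨e - (n + 1) - 1, by omega⟩
    obtain ⟨g, hg⟩ := IsCyclic.exists_generator (α := C)
    have hog : orderOf g = p ^ e := by
      rw [orderOf_eq_card_of_forall_mem_zpowers hg, hcard]
    obtain ⟨a, rfl⟩ := Subgroup.mem_zpowers_iff.mp (hg z)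
    have h1 : g ^ (a * (p ^ (n + 1) : ℕ)) = 1 := by
      rw [zpow_mul, zpow_natCast]
      exact hz
    rw [← orderOf_dvd_iff_zpow_eq_one, hog, hd, pow_add] at h1
    have h2 : ((p ^ (d + 1) : ℕ) : ℤ) ∣ a := by
      have h3 : ((p ^ (d + 1) : ℕ) : ℤ) * ((p ^ (n + 1) : ℕ) : ℤ) ∣ a * ((p ^ (n + 1) : ℕ) : ℤ) := by
        rw [← Nat.cast_mul, mul_comm (p ^ (d + 1))]
        exact h1
      have hne0 : ((p ^ (n + 1) : ℕ) : ℤ) ≠ 0 := by
        exact_mod_cast pow_ne_zero (n + 1) hp.ne_zero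
      exact (mul_dvd_mul_iff_right hne0).mp h3
    have h4 : (p : ℤ) ∣ a := by
      refine Dvd.dvd.trans ?_ h2
      rw [pow_succ]
      push_cast
      exact dvd_mul_left _ _
    obtain ⟨c, rfl⟩ := h4
    refine ⟨g ^ c, ?_⟩
    rw [← zpow_natCast, ← zpow_mul, ← zpow_natCast (g ^ ((p : ℤ) * c)), ← zpow_mul]
    congr 1
    push_cast
    ring

/-- In a cyclic group of order `p ^ (n + 1)`, an element whose `p ^ n`-th power is not trivial
generates the group. -/
theorem cyclic_gen {C : Type*} [CommGroup C] [IsCyclic C] (p : ℕ) [Fact p.Prime] {n : ℕ}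
    (hcard : Nat.card C = p ^ (n + 1)) (z z' : C) (hz : z ^ (p ^ n) ≠ 1) : ∃ t : ℤ, z' = z ^ t := by
  have hp : p.Prime := Fact.out
  have : Finite C := Nat.finite_of_card_ne_zero (by rw [hcard]; exact pow_ne_zero _ hp.ne_zero)
  have h1 : orderOf z ∣ p ^ (n + 1) := by
    rw [← hcard]
    exact orderOf_dvd_natCard z
  obtain ⟨j, hj, hoj⟩ := (Nat.dvd_prime_pow hp).mp h1
  have hj' : j = n + 1 := by
    by_contra hne
    apply hz
    rw [← orderOf_dvd_iff_pow_eq_one, hoj]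
    exact pow_dvd_pow p (by omega)
  have htop : Subgroup.zpowers z = ⊤ := by
    apply Subgroup.eq_top_of_card_eq
    rw [Nat.card_zpowers, hoj, hj', hcard]
  have hmem : z' ∈ Subgroup.zpowers z := by
    rw [htop]
    exact Subgroup.mem_top _
  obtain ⟨t, ht⟩ := Subgroup.mem_zpowers_iff.mp hmem
  exact ⟨t, ht.symm⟩

/-- The core property for a product of cyclic `p`-groups of pairwise distinct orders. -/
theorem core_pi {ι : Type*} [DecidableEq ι] (β : ι → Type*) [∀ i, CommGroup (β i)]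
    [∀ i, IsCyclic (β i)] (p : ℕ) [Fact p.Prime] (k : ι → ℕ)
    (hcard : ∀ i, Nat.card (β i) = p ^ (k i)) (hinj : Function.Injective k) (n : ℕ)
    (z z' : ∀ i, β i) (hz : z ^ (p ^ (n + 1)) = 1) (hz' : z' ^ (p ^ (n + 1)) = 1)
    (hnot : ¬ ∃ w : (∀ i, β i), w ^ (p ^ (n + 1)) = z ^ (p ^ n)) :
    ∃ (t : ℤ) (w : ∀ i, β i), w ^ (p ^ (n + 1)) = z' ^ (p ^ n) * ((z ^ (p ^ n)) ^ t)⁻¹ := by
  have h1 : ∀ i, ∃ w : β i, k i ≠ n + 1 → w ^ (p ^ (n + 1)) = (z i) ^ (p ^ n) := by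
    intro i
    by_cases h : k i = n + 1
    · exact ⟨1, fun h' => absurd h h'⟩
    · obtain ⟨w, hw⟩ := cyclic_pow_root p (hcard i) h (z i) (congrFun hz i)
      exact ⟨w, fun _ => hw⟩
  have h1' : ∀ i, ∃ w : β i, k i ≠ n + 1 → w ^ (p ^ (n + 1)) = (z' i) ^ (p ^ n) := by
    intro i
    by_cases h : k i = n + 1
    · exact ⟨1, fun h' => absurd h h'⟩
    · obtain ⟨w, hw⟩ := cyclic_pow_root p (hcard i) h (z' i) (congrFun hz' i)
      exact ⟨w, fun _ => hw⟩
  choose w hw using h1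
  choose w' hw' using h1'
  by_cases hex : ∃ i0, k i0 = n + 1
  · obtain ⟨i0, hi0⟩ := hex
    have huniq : ∀ j, j ≠ i0 → k j ≠ n + 1 := fun j hj h => hj (hinj (h.trans hi0.symm))
    by_cases hz0 : (z i0) ^ (p ^ n) = 1
    · exfalso
      apply hnot
      refine ⟨fun j => if j = i0 then 1 else w j, funext fun j => ?_⟩
      show (if j = i0 then 1 else w j) ^ (p ^ (n + 1)) = (z j) ^ (p ^ n)
      by_cases hj : j = i0
      · subst hj
        rw [if_pos rfl, one_pow, hz0]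
      · rw [if_neg hj]
        exact hw j (huniq j hj)
    · have hc0 : Nat.card (β i0) = p ^ (n + 1) := by rw [hcard i0, hi0]
      obtain ⟨t, ht⟩ := cyclic_gen p hc0 (z i0) (z' i0) hz0
      refine ⟨t, fun j => if j = i0 then 1 else w' j * ((w j) ^ t)⁻¹, funext fun j => ?_⟩
      show (if j = i0 then 1 else w' j * ((w j) ^ t)⁻¹) ^ (p ^ (n + 1)) =
        (z' j) ^ (p ^ n) * (((z j) ^ (p ^ n)) ^ t)⁻¹
      by_cases hj : j = i0
      · subst hj
        rw [if_pos rfl, one_pow, ht, zpow_pow_swap, mul_inv_cancel]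
      · rw [if_neg hj, mul_pow, inv_pow, hw' j (huniq j hj), zpow_pow_swap, hw j (huniq j hj)]
  · have hall : ∀ j, k j ≠ n + 1 := fun j h => hex ⟨j, h⟩
    exfalso
    exact hnot ⟨w, funext fun j => hw j (hall j)⟩

/-- Splitting off two coordinates of a product. -/
theorem exists_split {ι : Type} [DecidableEq ι] (β : ι → Type) [∀ i, CommGroup (β i)] (i i' : ι)
    (hne : i ≠ i') (C : Type) [CommGroup C] (e1 : β i ≃* C) (e2 : β i' ≃* C) :
    Nonempty ((∀ j, β j) ≃* (C × C) × (∀ j : {j // j ≠ i ∧ j ≠ i'}, β j.1)) := by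
  refine ⟨{ toFun := fun f => ((e1 (f i), e2 (f i')), fun j => f j.1)
            invFun := fun x j => if h1 : j = i then h1 ▸ e1.symm x.1.1 else
              if h2 : j = i' then h2 ▸ e2.symm x.1.2 else x.2 ⟨j, h1, h2⟩
            left_inv := ?_
            right_inv := ?_
            map_mul' := ?_ }⟩
  · intro f
    funext j
    by_cases h1 : j = i
    · subst h1
      simp
    · by_cases h2 : j = i'
      · subst h2
        simp [h1]
      · simp [h1, h2]
  · rintro ⟨⟨a, b⟩, h⟩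
    refine Prod.ext (Prod.ext ?_ ?_) (funext fun j => ?_)
    · simp
    · simp [hne.symm]
    · simp [j.2.1, j.2.2]
  · intro f g
    refine Prod.ext (Prod.ext ?_ ?_) (funext fun j => ?_)
    · simp
    · simp
    · simp

/-- The core property: in a finite abelian `p`-group without a repeated invariant, the quotients
`(Ω₁ ∩ ℧ⁿ) / (Ω₁ ∩ ℧ⁿ⁺¹)` are cyclic. -/
theorem core {P : Type*} [CommGroup P] [Finite P] (p : ℕ) [Fact p.Prime] (hP : IsPGroup p P)
    (hno : ¬ ∃ (n : ℕ) (H : Type) (_ : CommGroup H), 0 < n ∧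
      Nonempty (P ≃* (Multiplicative (ZMod (p ^ n)) × Multiplicative (ZMod (p ^ n))) × H))
    (n : ℕ) (z z' : P) (hz : z ^ (p ^ (n + 1)) = 1) (hz' : z' ^ (p ^ (n + 1)) = 1)
    (hnot : ¬ ∃ w : P, w ^ (p ^ (n + 1)) = z ^ (p ^ n)) :
    ∃ (t : ℤ) (w : P), w ^ (p ^ (n + 1)) = z' ^ (p ^ n) * ((z ^ (p ^ n)) ^ t)⁻¹ := by
  have hp : p.Prime := Fact.out
  classical
  obtain ⟨ι, hι, m, hm, ⟨e⟩⟩ := CommGroup.equiv_prod_multiplicative_zmod_of_finite P
  obtain ⟨N, hN⟩ := IsPGroup.iff_card.mp hP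
  have hpow : ∀ i, ∃ k, m i = p ^ k := by
    intro i
    have h1 : Nat.card P = ∏ j, m j := by
      rw [Nat.card_congr e.toEquiv, Nat.card_pi]
      exact Finset.prod_congr rfl (fun j _ => Nat.card_zmod (m j))
    have h2 : m i ∣ p ^ N := by
      rw [← hN, h1]
      exact Finset.dvd_prod_of_mem m (Finset.mem_univ i)
    obtain ⟨k, -, hk⟩ := (Nat.dvd_prime_pow hp).mp h2
    exact ⟨k, hk⟩
  choose k hk using hpow
  obtain rfl : m = fun i => p ^ k i := funext hk
  have hinj : Function.Injective k := by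
    intro i i' hkk
    by_contra hne
    apply hno
    refine ⟨k i, (∀ j : {j // j ≠ i ∧ j ≠ i'}, Multiplicative (ZMod (p ^ k j.1))), inferInstance,
      ?_, ?_⟩
    · have h1 := hm i
      rcases Nat.eq_zero_or_pos (k i) with h0 | h0
      · simp only [h0, pow_zero, lt_self_iff_false] at h1
      · exact h0
    · have e2 : Multiplicative (ZMod (p ^ k i')) ≃* Multiplicative (ZMod (p ^ k i)) := by
        rw [hkk]
      obtain ⟨e3⟩ := exists_split (fun j => Multiplicative (ZMod (p ^ k j))) i i' hne _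
        (MulEquiv.refl _) e2
      exact ⟨e.trans e3⟩
  obtain ⟨t, w, hw⟩ := core_pi (fun j => Multiplicative (ZMod (p ^ k j))) p k
    (fun j => Nat.card_zmod _) hinj n (e z) (e z')
    (by rw [← map_pow, hz, map_one]) (by rw [← map_pow, hz', map_one])
    (by
      rintro ⟨w, hw⟩
      refine hnot ⟨e.symm w, ?_⟩
      apply e.injective
      rw [map_pow, e.apply_symm_apply, hw, map_pow])
  refine ⟨t, e.symm w, ?_⟩
  apply e.injective
  rw [map_pow, e.apply_symm_apply, hw, map_mul, map_inv, map_zpow, map_pow, map_pow]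

end Core

section Chain

variable {P : Type*} [CommGroup P]

/-- The elements `x` of order dividing `p ^ (j + 1)` with `x ^ (p ^ j)` a `p ^ n`-th power. -/
def Dsub (p j n : ℕ) : Subgroup P :=
  (powMonoidHom (p ^ (j + 1)) : P →* P).ker ⊓
    ((powMonoidHom (p ^ n) : P →* P).range).comap (powMonoidHom (p ^ j))

theorem mem_Dsub {p j n : ℕ} {x : P} :
    x ∈ Dsub p j n ↔ x ^ (p ^ (j + 1)) = 1 ∧ ∃ y : P, y ^ (p ^ n) = x ^ (p ^ j) := Iff.rfl

theorem Dsub_char (p j n : ℕ) (τ : MulAut P) {x : P} (hx : x ∈ Dsub p j n) :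
    τ x ∈ Dsub (P := P) p j n := by
  rw [mem_Dsub] at hx ⊢
  obtain ⟨h1, y, hy⟩ := hx
  refine ⟨?_, τ y, ?_⟩
  · rw [← map_pow, h1, map_one]
  · rw [← map_pow, hy, map_pow]

theorem Dsub_succ_le (p j n : ℕ) : Dsub (P := P) p j (n + 1) ≤ Dsub p j n := by
  intro x hx
  rw [mem_Dsub] at hx ⊢
  obtain ⟨h1, y, hy⟩ := hx
  exact ⟨h1, y ^ p, by rw [← pow_mul, ← pow_succ']; exact hy⟩

theorem Dsub_zero (p j : ℕ) : Dsub (P := P) p j 0 = (powMonoidHom (p ^ (j + 1)) : P →* P).ker := by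
  ext x
  rw [mem_Dsub]
  constructor
  · exact fun h => h.1
  · exact fun h => ⟨h, x ^ (p ^ j), by rw [pow_zero, pow_one]⟩

theorem Dsub_top (p j N : ℕ) (hN : ∀ x : P, x ^ (p ^ N) = 1) :
    Dsub (P := P) p j N = (powMonoidHom (p ^ j) : P →* P).ker := by
  ext x
  rw [mem_Dsub]
  constructor
  · rintro ⟨-, y, hy⟩
    show x ^ (p ^ j) = 1
    rw [← hy, hN]
  · intro h
    have h' : x ^ (p ^ j) = 1 := h
    exact ⟨by rw [pow_succ, pow_mul, h', one_pow], 1, by rw [one_pow, h']⟩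

/-- Chains of characteristic subgroups with cyclic steps. -/
inductive Reach : Subgroup P → Subgroup P → Prop
  | refl (A : Subgroup P) : (∀ τ : MulAut P, ∀ x ∈ A, τ x ∈ A) → Reach A A
  | head (A B C : Subgroup P) : (∀ τ : MulAut P, ∀ x ∈ A, τ x ∈ A) → A ≤ B →
      (∃ x : P, B = A ⊔ Subgroup.zpowers x) → Reach B C → Reach A C

theorem Reach.trans {A B C : Subgroup P} (h1 : Reach A B) (h2 : Reach B C) : Reach A C := by
  induction h1 with
  | refl A hA => exact h2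
  | head A B' C' hA hle hx _ ih => exact Reach.head A B' C hA hle hx (ih h2)

theorem Reach.toFin {A B : Subgroup P} (h : Reach A B) :
    ∃ (m : ℕ) (c : Fin (m + 1) → Subgroup P), c 0 = A ∧ c (Fin.last m) = B ∧
      (∀ i, ∀ τ : MulAut P, ∀ x ∈ c i, τ x ∈ c i) ∧
      ∀ i : Fin m, c i.castSucc ≤ c i.succ ∧
        ∃ x : P, c i.succ = c i.castSucc ⊔ Subgroup.zpowers x := by
  induction h with
  | refl A hA => exact ⟨0, fun _ => A, rfl, rfl, fun _ => hA, fun i => i.elim0⟩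
  | head A B' C' hA hle hx _ ih =>
    obtain ⟨m, c, h0, hl, hi, hs⟩ := ih
    refine ⟨m + 1, (Fin.cons A c : Fin (m + 1 + 1) → Subgroup P), ?_, ?_, ?_, ?_⟩
    · rfl
    · rw [← Fin.succ_last, Fin.cons_succ]
      exact hl
    · intro i
      refine Fin.cases ?_ (fun j => ?_) i
      · exact hA
      · rw [Fin.cons_succ]
        exact hi j
    · intro i
      refine Fin.cases ?_ (fun j => ?_) i
      · have e1 : (Fin.cons A c : Fin (m + 1 + 1) → Subgroup P) (0 : Fin (m + 1)).castSucc = A :=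
          rfl
        have e2 : (Fin.cons A c : Fin (m + 1 + 1) → Subgroup P) (0 : Fin (m + 1)).succ = c 0 :=
          Fin.cons_succ _ _ _
        rw [e1, e2, h0]
        exact ⟨hle, hx⟩
      · have e1 : (Fin.cons A c : Fin (m + 1 + 1) → Subgroup P) j.succ.castSucc =
            c j.castSucc := by
          rw [Fin.castSucc_succ, Fin.cons_succ]
        have e2 : (Fin.cons A c : Fin (m + 1 + 1) → Subgroup P) j.succ.succ = c j.succ :=
          Fin.cons_succ _ _ _
        rw [e1, e2]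
        exact hs j

/-- One step of the chain. -/
theorem Dsub_step (p : ℕ)
    (hcore : ∀ (n : ℕ) (z z' : P), z ^ (p ^ (n + 1)) = 1 → z' ^ (p ^ (n + 1)) = 1 →
      (¬ ∃ w : P, w ^ (p ^ (n + 1)) = z ^ (p ^ n)) →
      ∃ (t : ℤ) (w : P), w ^ (p ^ (n + 1)) = z' ^ (p ^ n) * ((z ^ (p ^ n)) ^ t)⁻¹) (j n : ℕ) :
    ∃ x : P, Dsub p j n = Dsub p j (n + 1) ⊔ Subgroup.zpowers x := by
  by_cases hle : Dsub (P := P) p j n ≤ Dsub p j (n + 1)
  · refine ⟨1, ?_⟩
    rw [Subgroup.zpowers_one_eq_bot, sup_bot_eq]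
    exact le_antisymm hle (Dsub_succ_le p j n)
  · obtain ⟨u, hu, hu'⟩ := SetLike.not_le_iff_exists.mp hle
    refine ⟨u, le_antisymm ?_ (sup_le (Dsub_succ_le p j n) ?_)⟩
    · intro v hv
      obtain ⟨hu1, z, hz⟩ := mem_Dsub.mp hu
      obtain ⟨hv1, z', hz'⟩ := mem_Dsub.mp hv
      have hz1 : z ^ (p ^ (n + 1)) = 1 := by
        rw [pow_succ, pow_mul, hz, ← pow_mul, ← pow_succ]
        exact hu1
      have hz1' : z' ^ (p ^ (n + 1)) = 1 := by
        rw [pow_succ, pow_mul, hz', ← pow_mul, ← pow_succ]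
        exact hv1
      have hnot : ¬ ∃ w : P, w ^ (p ^ (n + 1)) = z ^ (p ^ n) := by
        rintro ⟨w, hw⟩
        exact hu' (mem_Dsub.mpr ⟨hu1, w, by rw [hw, hz]⟩)
      obtain ⟨t, w, hw⟩ := hcore n z z' hz1 hz1' hnot
      have hmem : v * (u ^ t)⁻¹ ∈ Dsub p j (n + 1) := by
        rw [mem_Dsub]
        refine ⟨?_, w, ?_⟩
        · rw [mul_pow, inv_pow, zpow_pow_swap, hv1, hu1, one_zpow, inv_one, mul_one]
        · rw [hw, hz, hz', mul_pow, inv_pow, zpow_pow_swap]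
      have hv2 : v = (v * (u ^ t)⁻¹) * u ^ t := by
        rw [inv_mul_cancel_right]
      rw [hv2]
      exact Subgroup.mul_mem_sup hmem (Subgroup.zpow_mem _ (Subgroup.mem_zpowers u) t)
    · rw [Subgroup.zpowers_le]
      exact hu

/-- A finite abelian `p`-group without a repeated invariant has a chain of characteristic
subgroups with cyclic steps. -/
theorem exists_char_chain [Finite P] (p : ℕ) [Fact p.Prime] (hP : IsPGroup p P)
    (hno : ¬ ∃ (n : ℕ) (H : Type) (_ : CommGroup H), 0 < n ∧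
      Nonempty (P ≃* (Multiplicative (ZMod (p ^ n)) × Multiplicative (ZMod (p ^ n))) × H)) :
    ∃ (m : ℕ) (c : Fin (m + 1) → Subgroup P), c 0 = ⊥ ∧ c (Fin.last m) = ⊤ ∧
      (∀ i, ∀ τ : MulAut P, ∀ x ∈ c i, τ x ∈ c i) ∧
      ∀ i : Fin m, c i.castSucc ≤ c i.succ ∧
        ∃ x : P, c i.succ = c i.castSucc ⊔ Subgroup.zpowers x := by
  obtain ⟨N, hN⟩ := IsPGroup.iff_card.mp hP
  have hpow : ∀ x : P, x ^ (p ^ N) = 1 := fun x => by
    rw [← hN]
    exact pow_card_eq_one'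
  have hcore := core p hP hno
  have hchar : ∀ j n, ∀ τ : MulAut P, ∀ x ∈ Dsub (P := P) p j n, τ x ∈ Dsub (P := P) p j n :=
    fun j n τ x hx => Dsub_char p j n τ hx
  have hR1 : ∀ j n, Reach (Dsub (P := P) p j n) (Dsub p j 0) := by
    intro j n
    induction n with
    | zero => exact Reach.refl _ (hchar j 0)
    | succ n ih =>
      exact Reach.head _ _ _ (hchar j (n + 1)) (Dsub_succ_le p j n) (Dsub_step p hcore j n) ih
  have hR2 : ∀ j, Reach (Dsub (P := P) p 0 N) (Dsub p j N) := by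
    intro j
    induction j with
    | zero => exact Reach.refl _ (hchar 0 N)
    | succ j ih =>
      have e : Dsub (P := P) p j 0 = Dsub p (j + 1) N := by
        rw [Dsub_zero, Dsub_top p (j + 1) N hpow]
      rw [← e]
      exact ih.trans (hR1 j N)
  have e0 : Dsub (P := P) p 0 N = ⊥ := by
    rw [Dsub_top p 0 N hpow]
    ext x
    rw [MonoidHom.mem_ker, Subgroup.mem_bot, powMonoidHom_apply, pow_zero, pow_one]
  have e1 : Dsub (P := P) p N N = ⊤ := by
    rw [Dsub_top p N N hpow]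
    ext x
    rw [MonoidHom.mem_ker, powMonoidHom_apply]
    exact ⟨fun _ => Subgroup.mem_top _, fun _ => hpow x⟩
  have hR := hR2 N
  rw [e0, e1] at hR
  exact hR.toFin

end Chain

end Cfsg.Agent.Lib.Helper88.AbInv
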