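import Mathlib
import Cfsg.Agent.Lib.Helper88.CEStmt
import Cfsg.Agent.Lib.Helper88.CESStmt

/-! Assembly for S5127 from the pieces of `CEStmt` and `CESStmt`. -/

set_option autoImplicit false

namespace Cfsg.Agent.Lib.Helper88.CEAsm

open Cfsg Cfsg.FusionSystem Cfsg.Agent.Lib.Helper88.FCStmt Cfsg.Agent.Lib.Helper88.CEStmt
  Cfsg.Agent.Lib.Helper88.CESStmt

universe u

/-- JOIN from ALPC, AUTJ and JALL. -/
theorem join (hALPC : AlpCrit.{u}) (hAUTJ : AutJoin.{u}) (hJALL : JAll.{u}) : JoinCentral.{u} := by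
  intro Ω _ S _ p _ hS F hF T E hE X₁ X₂ hX₁ hXE₁ hX₂ hXE₂
  refine hALPC p hS F hF E hE (X₁ ⊔ X₂) (sup_le hX₁ hX₂) ?_
  intro R hRc hRfa α hα
  exact hAUTJ p hS F hF E hE (fun P hP => hJALL p hS F hF E hE P hP) X₁ X₂ hX₁ hXE₁ hX₂ hXE₂
    R hRc hRfa α hα

/-- LEMG: every `F`-conjugate of a subgroup of `C_S(T)` centralizing `E` lies in `C_S(T)`. -/
theorem lemg (hLGSTEP : LemGStep.{u}) {Ω : Type u} [Group Ω] {S : Subgroup Ω} [Finite S] (p : ℕ)
    [Fact p.Prime] (hS : IsPGroup p S) (F : FusionSystem S) (hF : F.IsSaturated p)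
    {T : Subgroup Ω} (E : FusionSystem T) (hE : E.IsNormalIn F p) (X : Subgroup Ω)
    (hX : X ≤ centralizerIn S T) (hXE : ECentral F E X) (φ : X →* Ω) (hφ : φ ∈ F.Hom X) :
    φ.range ≤ centralizerIn S T := by
  have hTS : T ≤ S := hE.1.2.2.2.1.1
  have hfinT : Finite T := H85.finite_of_le hTS
  have key : ∀ n : ℕ, ∀ φ : X →* Ω, φ ∈ F.Hom X →
      Nat.card T ≤ Nat.card ↥(centralizerIn T φ.range) + n → φ.range ≤ centralizerIn S T := by
    intro n
    induction n with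
    | zero =>
      intro φ hφ hn
      refine hLGSTEP p hS F hF E hE X hX hXE φ hφ ?_
      intro φ' hφ' hlt
      have h1 : Nat.card ↥(centralizerIn T φ'.range) ≤ Nat.card T :=
        Subgroup.card_le_of_le inf_le_left
      omega
    | succ n ih =>
      intro φ hφ hn
      refine hLGSTEP p hS F hF E hE X hX hXE φ hφ ?_
      intro φ' hφ' hlt
      exact ih φ' hφ' (by omega)
  exact key (Nat.card T) φ hφ (Nat.le_add_left _ _)

/-- SC from SUBC, CONJC and LGSTEP. -/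
theorem sc (hSUBC : SubCentral.{u}) (hCONJC : ConjCentral.{u}) (hLGSTEP : LemGStep.{u}) :
    LargestClosed.{u} := by
  intro Ω _ S _ p _ hS F hF T E hE C hC hCE hmax
  refine ⟨hC.trans inf_le_left, ?_⟩
  intro R hRC φ hφ x
  have hRE : ECentral F E R := hSUBC F E C R hRC hCE
  have hR : R ≤ centralizerIn S T := hRC.trans hC
  have h1 : φ.range ≤ centralizerIn S T := lemg hLGSTEP p hS F hF E hE R hR hRE φ hφ
  have h2 : ECentral F E φ.range := hCONJC p hS F hF E hE R hR hRE φ hφ h1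
  exact hmax _ h1 h2 ⟨x, rfl⟩

/-- The statement S5127 from SUP and SC. -/
theorem s5127 (hSUP : SupCentral.{u}) (hSC : LargestClosed.{u}) {Ω : Type u} [Group Ω]
    {S : Subgroup Ω} [Finite S] (p : ℕ) [Fact p.Prime] (hS : IsPGroup p S)
    (F : Cfsg.FusionSystem S) (hF : F.IsSaturated p) {T : Subgroup Ω} (E : Cfsg.FusionSystem T)
    (hE : E.IsNormalIn F p) :
    ∃ C : Subgroup Ω, C ≤ Cfsg.FusionSystem.centralizerIn S T ∧
      (∀ P : Subgroup Ω, E.Hom P ⊆ F.centralizerHom C P) ∧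
      (∀ Y : Subgroup Ω, Y ≤ Cfsg.FusionSystem.centralizerIn S T →
        (∀ P : Subgroup Ω, E.Hom P ⊆ F.centralizerHom Y P) → Y ≤ C) ∧ F.StronglyClosed C := by
  have h1 : ECentral F E (sSup {X : Subgroup Ω | X ≤ centralizerIn S T ∧ ECentral F E X}) :=
    hSUP p hS F hF E hE
  have h2 : sSup {X : Subgroup Ω | X ≤ centralizerIn S T ∧ ECentral F E X} ≤ centralizerIn S T :=
    sSup_le (fun X hX => hX.1)
  have h3 : ∀ Y : Subgroup Ω, Y ≤ centralizerIn S T → ECentral F E Y →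
      Y ≤ sSup {X : Subgroup Ω | X ≤ centralizerIn S T ∧ ECentral F E X} :=
    fun Y hY hYE => le_sSup ⟨hY, hYE⟩
  exact ⟨_, h2, h1, h3, hSC p hS F hF E hE _ h2 h1 h3⟩

end Cfsg.Agent.Lib.Helper88.CEAsm
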