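import Mathlib
import Cfsg.Agent.H84.FusSat
import Cfsg.Agent.Lib.Helper87.FSSat
import Cfsg.Agent.Lib.Helper88.Centric
import Cfsg.Agent.Lib.Helper88.CEStmt

/-! Piece JSTEP of S5127: for `P` `E`-centric and fully normalized in `E`, `J(N_T(P))` implies
`J(P)`. -/

set_option autoImplicit false

namespace Cfsg.Agent.Lib.Helper88.CEJSTEP

open Cfsg Cfsg.FusionSystem Cfsg.Agent.Lib.Helper88.FCStmt Cfsg.Agent.Lib.Helper88.CEStmt

universe u

/-- An element of `T` inducing an automorphism of `P` normalizes `P`. -/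
theorem mem_normalizerIn_of_aut {Ω : Type*} [Group Ω] {T P : Subgroup Ω} (a : MulAut P) (t : Ω)
    (ht : t ∈ T) (h : ∀ u : P, ((a u : P) : Ω) = t * (u : Ω) * t⁻¹) : t ∈ normalizerIn T P := by
  refine ⟨ht, ?_⟩
  show t ∈ Subgroup.normalizer (P : Set Ω)
  rw [Subgroup.mem_normalizer_iff]
  intro g
  constructor
  · intro hg
    have := h ⟨g, hg⟩
    rw [← this]
    exact (a ⟨g, hg⟩).2
  · intro hg
    obtain ⟨u, hu⟩ := a.surjective ⟨_, hg⟩
    have h1 := h u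
    rw [hu] at h1
    have h2 : g = (u : Ω) := by
      have h3 : t * g * t⁻¹ = t * (u : Ω) * t⁻¹ := h1
      have h4 : t⁻¹ * (t * g * t⁻¹) * t = t⁻¹ * (t * (u : Ω) * t⁻¹) * t := by rw [h3]
      simpa [mul_assoc] using h4
    rw [h2]
    exact u.2

theorem main (hKMEM : KMem.{u}) (hJTRANS : JTrans.{u}) (hJEXT : JExt.{u}) (hJCEN : JCen.{u})
    (hJCOM : JCom.{u}) (hJPP : JPP.{u}) (hJNORM : JNorm.{u}) (hJFIX : JFix.{u}) : JStep.{u} := by
  intro Ω _ S _ p _ hS F hF T E hE P hPc hPfn hJ1 X hX hXE κ hκ α₀ hα₀ x₀ hx₀ z₀ hz₀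
  have hE' := hE
  obtain ⟨⟨hEsat, -, hEF, hTcl, -, -⟩, -⟩ := hE
  have hTS : T ≤ S := hTcl.1
  have hfinT : Finite T := H85.finite_of_le hTS
  have hpT : IsPGroup p T := hS.to_le hTS
  have hPT : P ≤ T := hPc.1
  have hfinP : Finite P := H85.finite_of_le (hPT.trans hTS)
  have hpP : IsPGroup p P := hS.to_le (hPT.trans hTS)
  have hCP : centralizerIn T P ≤ P := hPc.2 P (H85.isConj_refl E hPT)
  have hPP₁ : P ≤ normalizerIn T P := fun u hu => ⟨hPT hu, Subgroup.le_normalizer hu⟩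
  have hP₁T : normalizerIn T P ≤ T := inf_le_left
  have hP₁c : E.IsCentric (normalizerIn T P) :=
    Cfsg.Agent.Lib.Helper88.Centric.isCentric_of_le E hPc hPP₁ hP₁T
  obtain ⟨-, Q, hQ⟩ := Cfsg.Agent.H84.fullyAutomized_of_fn hpT E hEsat hPfn
  -- the extension of an element of `K_X(P)` to `N_T(P) X`
  have hext : ∀ κ' : MulAut ↥(P ⊔ X), IsK F T P X κ' →
      ∃ κ₁ ∈ F.autGroup (normalizerIn T P ⊔ X),
        (∀ u : ↥(normalizerIn T P ⊔ X), (u : Ω) ∈ P → κ₁ u = u) ∧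
        (∀ x : ↥(normalizerIn T P ⊔ X), (x : Ω) ∈ X →
          (x : Ω)⁻¹ * ((κ₁ x : ↥(normalizerIn T P ⊔ X)) : Ω) ∈ P) ∧
        ∀ (x : Ω) (hx : x ∈ X),
          ((κ₁ ⟨x, Subgroup.mem_sup_right hx⟩ : ↥(normalizerIn T P ⊔ X)) : Ω) =
            ((κ' ⟨x, Subgroup.mem_sup_right hx⟩ : ↥(P ⊔ X)) : Ω) := by
    intro κ' hκ'
    obtain ⟨κ₁, hκ₁, hκ₁e⟩ := hJEXT p hS F hF E hE' P hPc hPfn X hX κ' hκ'
    refine ⟨κ₁, hκ₁, ?_, ?_, ?_⟩
    · intro u hu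
      apply Subtype.ext
      have h1 := hκ₁e ⟨u, Subgroup.mem_sup_left hu⟩ u.2
      have h2 := hκ'.2.1 ⟨u, Subgroup.mem_sup_left hu⟩ hu
      rw [h2] at h1
      exact h1
    · intro x hx
      have h1 := hκ₁e ⟨x, Subgroup.mem_sup_right hx⟩ x.2
      have h2 := (hKMEM F T hTS P hPT hCP X hX κ' hκ' ⟨x, Subgroup.mem_sup_right hx⟩ hx).1
      have h3 : ((κ₁ x : ↥(normalizerIn T P ⊔ X)) : Ω) =
          ((κ' ⟨x, Subgroup.mem_sup_right hx⟩ : ↥(P ⊔ X)) : Ω) := h1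
      rw [h3]
      exact h2
    · intro x hx
      exact hκ₁e ⟨x, Subgroup.mem_sup_right hx⟩ (Subgroup.mem_sup_right hx)
  -- the subgroup of `Aut_E(P)` fixing all displacements
  let N : Subgroup ↥(E.autGroup P) :=
    { carrier := {a | ∀ κ' : MulAut ↥(P ⊔ X), IsK F T P X κ' → ∀ (x : Ω) (hx : x ∈ X) (z : P),
        (z : Ω) = x⁻¹ * ((κ' ⟨x, Subgroup.mem_sup_right hx⟩ : ↥(P ⊔ X)) : Ω) →
        (a : MulAut P) z = z}
      mul_mem' := by
        intro a b ha hb κ' hκ' x hx z hz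
        show (a : MulAut P) ((b : MulAut P) z) = z
        rw [hb κ' hκ' x hx z hz, ha κ' hκ' x hx z hz]
      one_mem' := by
        intro κ' hκ' x hx z hz
        rfl
      inv_mem' := by
        intro a ha κ' hκ' x hx z hz
        have h1 := ha κ' hκ' x hx z hz
        show (a : MulAut P)⁻¹ z = z
        rw [MulAut.inv_apply, MulEquiv.symm_apply_eq]
        exact h1.symm }
  have hNmem : ∀ a : ↥(E.autGroup P), a ∈ N ↔ ∀ κ' : MulAut ↥(P ⊔ X), IsK F T P X κ' →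
      ∀ (x : Ω) (hx : x ∈ X) (z : P),
        (z : Ω) = x⁻¹ * ((κ' ⟨x, Subgroup.mem_sup_right hx⟩ : ↥(P ⊔ X)) : Ω) →
        (a : MulAut P) z = z := fun a => Iff.rfl
  -- normality
  have hNn : N.Normal := by
    constructor
    intro a ha b
    rw [hNmem]
    intro κ' hκ' x hx z hz
    have hbinv : P.subtype.comp ((b⁻¹ : ↥(E.autGroup P)) : MulAut P).toMonoidHom ∈ E.Hom P :=
      (H85.mem_autGroup_iff E hPT _).mp (b⁻¹).2
    have hrange : (P.subtype.comp ((b⁻¹ : ↥(E.autGroup P)) : MulAut P).toMonoidHom).range = P := by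
      ext y
      constructor
      · rintro ⟨u, rfl⟩
        exact (((b⁻¹ : ↥(E.autGroup P)) : MulAut P) u).2
      · intro hy
        obtain ⟨u, hu⟩ := ((b⁻¹ : ↥(E.autGroup P)) : MulAut P).surjective ⟨y, hy⟩
        exact ⟨u, by show ((((b⁻¹ : ↥(E.autGroup P)) : MulAut P) u : P) : Ω) = y; rw [hu]⟩
    obtain ⟨κ'', hκ'', hκ''e⟩ := hJTRANS p hS F hF E hE' P hPc X hX hXE _ hbinv P hrange κ' hκ'
    have h1 := hκ''e x hx z hz
    have h2 := (hNmem a).mp ha κ'' hκ'' x hx (((b⁻¹ : ↥(E.autGroup P)) : MulAut P) z) h1.symm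
    show (b : MulAut P) ((a : MulAut P) (((b⁻¹ : ↥(E.autGroup P)) : MulAut P) z)) = z
    rw [h2]
    show (b : MulAut P) ((b : MulAut P)⁻¹ z) = z
    rw [MulAut.inv_apply, MulEquiv.apply_symm_apply]
  -- the Sylow subgroup lies in `N`
  have hQmem : ∀ a : ↥(E.autGroup P), a ∈ (Q : Subgroup ↥(E.autGroup P)) ↔
      (a : MulAut P) ∈ autInducedBy T P := by
    intro a
    rw [hQ, Subgroup.mem_subgroupOf]
  have hQN : (Q : Subgroup ↥(E.autGroup P)) ≤ N := by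
    intro a ha
    rw [hQmem] at ha
    obtain ⟨t, ht, hta⟩ := (Cfsg.Agent.H84.mem_autInducedBy_iff T P _).mp ha
    have htN : t ∈ normalizerIn T P := mem_normalizerIn_of_aut _ t ht hta
    rw [hNmem]
    intro κ' hκ' x hx z hz
    obtain ⟨κ₁, hκ₁, -, -, hκ₁x⟩ := hext κ' hκ'
    have h1 := hJCEN F T hTcl P (normalizerIn T P) hPP₁ hP₁T hCP X hX κ₁ hκ₁
      ⟨x, Subgroup.mem_sup_right hx⟩ hx t htN
    rw [hκ₁x x hx] at h1
    apply Subtype.ext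
    rw [hta z, hz]
    have h2 : t * (x⁻¹ * ((κ' ⟨x, Subgroup.mem_sup_right hx⟩ : ↥(P ⊔ X)) : Ω)) =
        x⁻¹ * ((κ' ⟨x, Subgroup.mem_sup_right hx⟩ : ↥(P ⊔ X)) : Ω) * t := h1
    rw [h2, mul_inv_cancel_right]
  -- elements of order prime to `p` normalizing the Sylow subgroup lie in `N`
  have hpr : ∀ a ∈ Subgroup.normalizer ((Q : Subgroup ↥(E.autGroup P)) : Set ↥(E.autGroup P)),
      (orderOf a).Coprime p → a ∈ N := by
    intro a haN hao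
    have hnorm : ∀ t ∈ normalizerIn T P, ∃ t' ∈ normalizerIn T P,
        ∀ (u : P) (h : t * (u : Ω) * t⁻¹ ∈ P),
          (((a : MulAut P) ⟨_, h⟩ : P) : Ω) = t' * (((a : MulAut P) u : P) : Ω) * t'⁻¹ := by
      intro t ht
      have htn : t ∈ Subgroup.normalizer (P : Set Ω) := ht.2
      let ct : MulAut P := Subgroup.normalizerMonoidHom P ⟨t, htn⟩
      have hct : ∀ u : P, ((ct u : P) : Ω) = t * (u : Ω) * t⁻¹ := fun u => rfl
      have hctT : ct ∈ autInducedBy T P :=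
        (Cfsg.Agent.H84.mem_autInducedBy_iff T P ct).mpr ⟨t, ht.1, hct⟩
      have hctE : ct ∈ E.autGroup P := H85.autInducedBy_le_autGroup E hPT hctT
      have hq : (⟨ct, hctE⟩ : ↥(E.autGroup P)) ∈ (Q : Subgroup ↥(E.autGroup P)) :=
        (hQmem _).mpr hctT
      have hq2 : a * ⟨ct, hctE⟩ * a⁻¹ ∈ (Q : Subgroup ↥(E.autGroup P)) :=
        (Subgroup.mem_normalizer_iff.mp haN _).mp hq
      rw [hQmem] at hq2
      obtain ⟨t', ht', hta'⟩ := (Cfsg.Agent.H84.mem_autInducedBy_iff T P _).mp hq2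
      have ht'N : t' ∈ normalizerIn T P := mem_normalizerIn_of_aut _ t' ht' hta'
      refine ⟨t', ht'N, ?_⟩
      intro u h
      have h1 := hta' ((a : MulAut P) u)
      rw [← h1]
      show (((a : MulAut P) ⟨_, h⟩ : P) : Ω) =
        (((a : MulAut P) (ct ((a : MulAut P)⁻¹ ((a : MulAut P) u))) : P) : Ω)
      rw [MulAut.inv_apply, MulEquiv.symm_apply_apply]
      rfl
    obtain ⟨α₁, hα₁, hα₁e⟩ := hJNORM p hpT E hEsat P hPfn (a : MulAut P) a.2 hnorm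
    have hα₁P : ∀ u : ↥(normalizerIn T P), (u : Ω) ∈ P →
        ((α₁ u : ↥(normalizerIn T P)) : Ω) ∈ P := by
      intro u hu
      have := hα₁e ⟨u, hu⟩ u.2
      rw [show α₁ u = α₁ ⟨((⟨u, hu⟩ : P) : Ω), u.2⟩ from rfl, this]
      exact ((a : MulAut P) ⟨u, hu⟩).2
    rw [hNmem]
    intro κ' hκ' x hx z hz
    obtain ⟨κ₁, hκ₁, hκ₁P, hκ₁X, hκ₁x⟩ := hext κ' hκ'
    have hz₁ : (((⟨z, hPP₁ z.2⟩ : ↥(normalizerIn T P)) : Ω)) =
        ((⟨x, Subgroup.mem_sup_right hx⟩ : ↥(normalizerIn T P ⊔ X)) : Ω)⁻¹ *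
          ((κ₁ ⟨x, Subgroup.mem_sup_right hx⟩ : ↥(normalizerIn T P ⊔ X)) : Ω) := by
      rw [hκ₁x x hx]
      exact hz
    have h1 := hJCOM p hS F hF E hE' P (normalizerIn T P) hPc hP₁c hPP₁ X hX hXE κ₁ hκ₁ hκ₁P
      hκ₁X α₁ hα₁ hα₁P hJ1 ⟨x, Subgroup.mem_sup_right hx⟩ hx ⟨z, hPP₁ z.2⟩ hz₁
    -- translate to `P`
    have e1 : ((α₁ ⟨z, hPP₁ z.2⟩ : ↥(normalizerIn T P)) : Ω) = (((a : MulAut P) z : P) : Ω) :=
      hα₁e z (hPP₁ z.2)
    have e2 : ((⟨z, hPP₁ z.2⟩ : ↥(normalizerIn T P)) * (α₁ ⟨z, hPP₁ z.2⟩)⁻¹ : ↥(normalizerIn T P)) =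
        ⟨((z * ((a : MulAut P) z)⁻¹ : P) : Ω), hPP₁ (z * ((a : MulAut P) z)⁻¹).2⟩ := by
      apply Subtype.ext
      show (z : Ω) * ((α₁ ⟨z, hPP₁ z.2⟩ : ↥(normalizerIn T P)) : Ω)⁻¹ =
        (z : Ω) * (((a : MulAut P) z : P) : Ω)⁻¹
      rw [e1]
    have h2 : (a : MulAut P) (z * ((a : MulAut P) z)⁻¹) = z * ((a : MulAut P) z)⁻¹ := by
      apply Subtype.ext
      rw [← hα₁e (z * ((a : MulAut P) z)⁻¹) (hPP₁ (z * ((a : MulAut P) z)⁻¹).2), ← e2, h1, e2]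
    obtain ⟨n, hn⟩ := (IsPGroup.iff_orderOf.mp hpP) z
    have hzn : z ^ (p ^ n) = 1 := by rw [← hn]; exact pow_orderOf_eq_one z
    have hcomm : z * (a : MulAut P) z = (a : MulAut P) z * z := by
      have h3 := (hKMEM F T hTS P hPT hCP X hX κ' hκ' ⟨x, Subgroup.mem_sup_right hx⟩ hx).2
        (((a : MulAut P) z : P) : Ω) ((a : MulAut P) z).2
      apply Subtype.ext
      show (z : Ω) * (((a : MulAut P) z : P) : Ω) = (((a : MulAut P) z : P) : Ω) * (z : Ω)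
      rw [hz]
      exact h3.symm
    have hao' : (orderOf (a : MulAut P)).Coprime p := by
      rw [Subgroup.orderOf_coe]; exact hao
    exact hJPP p n (orderOf (a : MulAut P)) hao' (a : MulAut P) (pow_orderOf_eq_one _) z hzn
      hcomm h2
  have hfinA : Finite ↥(E.autGroup P) := inferInstance
  have hNtop : N = ⊤ := hJFIX p Q N hNn hQN hpr
  have hmem : (⟨α₀, hα₀⟩ : ↥(E.autGroup P)) ∈ N := by rw [hNtop]; trivial
  exact (hNmem _).mp hmem κ hκ (x₀ : Ω) hx₀ z₀ hz₀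

end Cfsg.Agent.Lib.Helper88.CEJSTEP
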