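import Mathlib
import Cfsg.Agent.Lib.Helper88.MCStmt

/-!
# S4245: assembly (induction on the order of the group)
-/

set_option autoImplicit false

universe u

namespace Cfsg.Agent.Lib.Helper88.MCAsm

open Cfsg.Agent.Lib.Helper88.MCStmt

/-- push `B` into `G` -/
theorem push {G : Type u} [Group G] [Finite G] (A : Subgroup G) (B : Subgroup ↥A) [B.Normal]
    (hB : IsCyclic ↥B) :
    IsCyclic ↥(B.map A.subtype) ∧ Nat.card ↥(B.map A.subtype) = Nat.card ↥B ∧
      (B.map A.subtype).index = Nat.card (↥A ⧸ B) * A.index := by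
  refine ⟨?_, ?_, ?_⟩
  · exact isCyclic_of_surjective
      (B.equivMapOfInjective A.subtype A.subtype_injective).toMonoidHom (MulEquiv.surjective _)
  · exact (Nat.card_congr (B.equivMapOfInjective A.subtype A.subtype_injective).toEquiv).symm
  · rw [Subgroup.index_map_subtype, Subgroup.index_eq_card]

theorem core (hNil : NilIdx.{u}) (hEven : EvenB.{u}) (hQuot : Quot.{u}) (hSyl : SylCyc.{u})
    (hCompl : Compl.{u}) (hFin : Finish.{u}) :
    ∀ (n : ℕ) (G : Type u) [Group G] [Finite G], Nat.card G = n → Hyp G →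
      Group.IsSolvable G := by
  intro n
  induction n using Nat.strong_induction_on with
  | _ n ih =>
    intro G _ _ hn hyp
    obtain ⟨A, p, s, hp, hA, B, hBn, hBc, hABc, r, hr⟩ := hyp
    have := hBn
    obtain ⟨hB0c, hB0card, hB0idx⟩ := push A B hBc
    by_cases h1 : p = 2 ∨ r = 0
    · rcases h1 with h1 | h1
      · subst h1
        exact hNil G (B.map A.subtype) 2 (r + s) hp hB0c (by rw [hB0idx, hr, hA, pow_add])
      · subst h1
        exact hNil G (B.map A.subtype) p s hp hB0c
          (by rw [hB0idx, hr, hA, pow_zero, one_mul])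
    · rw [not_or] at h1
      obtain ⟨hp2, -⟩ := h1
      rcases Nat.even_or_odd (Nat.card ↥B) with hev | hodd
      · obtain ⟨N, hNn, hNbot, hNsolv⟩ := hEven G A p s hp hA B hBc hev
        have := hNn
        have hq : Hyp (G ⧸ N) := hQuot G N ⟨A, p, s, hp, hA, B, hBn, hBc, hABc, r, hr⟩
        have hlt : Nat.card (G ⧸ N) < n := by
          have h2 := Subgroup.card_eq_card_quotient_mul_card_subgroup N
          have h3 : 1 < Nat.card ↥N := (Subgroup.one_lt_card_iff_ne_bot N).mpr hNbot
          have h4 : 0 < Nat.card (G ⧸ N) := Nat.card_pos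
          rw [← hn, h2]
          nlinarith
        have hqs : Group.IsSolvable (G ⧸ N) := ih _ hlt (G ⧸ N) rfl hq
        have := hNsolv
        exact Group.isSolvable_of_ker_le_range N.subtype (QuotientGroup.mk' N)
          (by rw [QuotientGroup.ker_mk', Subgroup.range_subtype])
      · obtain ⟨T, hTc, hTcard⟩ := hSyl G A p s hp hp2 hA B hABc r hr hodd
        obtain ⟨K, hKn, hKidx⟩ := hCompl G T hTc
        exact hFin G K (B.map A.subtype) p s r hp hKn (by rw [hKidx, hTcard]) hB0c
          (by rw [hB0card]; exact hodd) (by rw [hB0idx, hr, hA])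

end Cfsg.Agent.Lib.Helper88.MCAsm
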