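import Mathlib
import Cfsg.Agent.Lib.Helper33.Omega
set_option autoImplicit false
open scoped commutatorElement

/-! Minimal configurations for a family of automorphisms: a `p`-subgroup `Q` generated by the
quotients `x⁻¹ β(x)` for `β` in a family fixing `⁅Q, Q⁆` and the `p`-th powers of `Q` elementwise
has exponent `p` (or `4` when `p = 2`). -/

namespace Cfsg.Agent.Lib.Helper88.MinConfig

open Cfsg.Agent.Lib.Helper24.Coprime
open Cfsg.Agent.Lib.Helper33.Omega

variable {Y : Type*} [Group Y]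

/-- The subgroup generated by the `p`-th powers of `Q`. -/
def powSub (p : ℕ) (Q : Subgroup Y) : Subgroup Y := Subgroup.closure {y | ∃ x ∈ Q, x ^ p = y}

theorem powSub_le (p : ℕ) (Q : Subgroup Y) : powSub p Q ≤ Q := by
  rw [powSub, Subgroup.closure_le]
  rintro y ⟨x, hx, rfl⟩
  exact Q.pow_mem hx p

theorem pow_mem_powSub (p : ℕ) (Q : Subgroup Y) {x : Y} (hx : x ∈ Q) : x ^ p ∈ powSub p Q :=
  Subgroup.subset_closure ⟨x, hx, rfl⟩

/-- An automorphism preserving `Q` preserves the subgroup of `p`-th powers. -/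
theorem powSub_invariant (p : ℕ) (Q : Subgroup Y) (β : MulAut Y) (hβ : ∀ x ∈ Q, β x ∈ Q)
    {y : Y} (hy : y ∈ powSub p Q) : β y ∈ powSub p Q := by
  have h : powSub p Q ≤ (powSub p Q).comap β.toMonoidHom := by
    rw [powSub, Subgroup.closure_le]
    rintro y ⟨x, hx, rfl⟩
    change β (x ^ p) ∈ Subgroup.closure {y | ∃ x ∈ Q, x ^ p = y}
    exact Subgroup.subset_closure ⟨β x, hβ x hx, (map_pow β x p).symm⟩
  exact h hy

/-- An automorphism preserving `Q` preserves `⁅Q, Q⁆`. -/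
theorem commutator_invariant (Q : Subgroup Y) (β : MulAut Y) (hβ : ∀ x ∈ Q, β x ∈ Q)
    {y : Y} (hy : y ∈ ⁅Q, Q⁆) : β y ∈ ⁅Q, Q⁆ := by
  have h : ⁅Q, Q⁆ ≤ (⁅Q, Q⁆).comap β.toMonoidHom := by
    rw [Subgroup.commutator_le]
    intro a ha b hb
    change β ⁅a, b⁆ ∈ ⁅Q, Q⁆
    rw [map_commutatorElement]
    exact Subgroup.commutator_mem_commutator (hβ a ha) (hβ b hb)
  exact h hy

theorem powSub_normalizer (p : ℕ) (Q : Subgroup Y) {g : Y}
    (hg : g ∈ Subgroup.normalizer (Q : Set Y)) :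
    g ∈ Subgroup.normalizer ((powSub p Q : Subgroup Y) : Set Y) := by
  rw [powSub]
  apply Subgroup.normalizer_le_normalizer_closure
  rw [Subgroup.mem_set_normalizer_iff]
  intro h
  constructor
  · rintro ⟨x, hx, rfl⟩
    exact ⟨g * x * g⁻¹, (Subgroup.mem_normalizer_iff.mp hg x).mp hx, by rw [conj_pow]⟩
  · rintro ⟨x, hx, hxe⟩
    refine ⟨g⁻¹ * x * g, (Subgroup.mem_normalizer_iff''.mp hg x).mp hx, ?_⟩
    have : (g⁻¹ * x * g) ^ p = g⁻¹ * x ^ p * g := by
      have := conj_pow (a := g⁻¹) (b := x) (i := p)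
      rwa [inv_inv] at this
    rw [this, hxe]; group

/-- The subgroup of `p`-th powers of a nontrivial finite `p`-group is proper. -/
theorem powSub_ne [Finite Y] (p : ℕ) [Fact p.Prime] (Q : Subgroup Y) (hQ : IsPGroup p Q)
    (hbot : Q ≠ ⊥) : powSub p Q ≠ Q := by
  obtain ⟨m, hm⟩ := hQ.exists_card_eq
  have hm0 : m ≠ 0 := by
    rintro rfl
    rw [pow_zero] at hm
    exact hbot (Subgroup.eq_bot_of_card_eq Q hm)
  obtain ⟨k, rfl⟩ := Nat.exists_eq_succ_of_ne_zero hm0
  obtain ⟨M, hM⟩ := Sylow.exists_subgroup_card_pow_prime (G := Q) p (n := k)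
    (by rw [hm]; exact pow_dvd_pow p (Nat.le_succ k))
  have hidx : M.index = p := by
    have h1 := M.card_mul_index
    rw [hM, hm, pow_succ] at h1
    exact Nat.eq_of_mul_eq_mul_left (pow_pos (Fact.out : p.Prime).pos k) h1
  have hMn : M.Normal := by
    apply Subgroup.normal_of_index_eq_minFac_card
    rw [hidx, hm, Nat.pow_minFac (Nat.succ_ne_zero k), Nat.Prime.minFac_eq (Fact.out : p.Prime)]
  intro heq
  have hle0 : powSub p Q ≤ M.map Q.subtype := by
    rw [powSub, Subgroup.closure_le]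
    rintro y ⟨x, hx, rfl⟩
    have := Subgroup.pow_index_mem M (⟨x, hx⟩ : Q)
    rw [hidx] at this
    exact ⟨_, this, rfl⟩
  have hle : Q ≤ M.map Q.subtype := by
    intro z hz
    apply hle0
    rw [heq]; exact hz
  have hcard : Nat.card (M.map Q.subtype) = p ^ k := by
    rw [Subgroup.card_map_of_injective Q.subtype_injective, hM]
  have h2 := Subgroup.card_le_of_le hle
  rw [hcard, hm] at h2
  have := Nat.pow_lt_pow_right (Fact.out : p.Prime).one_lt (Nat.lt_succ_self k)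
  omega

/-- The commutator subgroup of a nontrivial finite `p`-group is proper. -/
theorem commutator_ne [Finite Y] (p : ℕ) [Fact p.Prime] (Q : Subgroup Y) (hQ : IsPGroup p Q)
    (hbot : Q ≠ ⊥) : ⁅Q, Q⁆ ≠ Q :=
  fun h => hbot (eq_bot_of_commutator_eq hQ.isNilpotent le_rfl le_rfl h)

/-- Minimal configuration for a family `Fm` of automorphisms. -/
theorem om_of_minimal_family [Finite Y] (p : ℕ) [Fact p.Prime] (Fm : Set (MulAut Y))
    (Q : Subgroup Y)
    (hgen : Subgroup.closure {y | ∃ x ∈ Q, ∃ β ∈ Fm, y = x⁻¹ * β x} = Q)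
    (hinv : ∀ β ∈ Fm, ∀ x ∈ Q, β x ∈ Q)
    (hcomm : ∀ β ∈ Fm, ∀ x ∈ ⁅Q, Q⁆, β x = x)
    (hpow : ∀ β ∈ Fm, ∀ x ∈ powSub p Q, β x = x) :
    ∀ x ∈ Q, Om p x := by
  -- a subgroup of `Q` normalized by `Q` and fixed by the family is central in `Q`
  have hcentral : ∀ K : Subgroup Y, K ≤ Q → Q ≤ Subgroup.normalizer (K : Set Y) →
      (∀ β ∈ Fm, ∀ x ∈ K, β x = x) → ∀ k ∈ K, ∀ x ∈ Q, k * x = x * k := by
    intro K _ hQK hfix k hk
    have hle : Subgroup.closure {y | ∃ x ∈ Q, ∃ β ∈ Fm, y = x⁻¹ * β x} ≤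
        Subgroup.centralizer ({k} : Set Y) := by
      rw [Subgroup.closure_le]
      rintro _ ⟨x, hx, β, hβ, rfl⟩
      refine Subgroup.mem_centralizer_iff.mpr ?_
      intro h hh
      rw [Set.mem_singleton_iff] at hh
      subst hh
      have hk' : x * h * x⁻¹ ∈ K := (Subgroup.mem_normalizer_iff.mp (hQK hx) h).mp hk
      have e1 : β x * h * (β x)⁻¹ = x * h * x⁻¹ := by
        have := hfix β hβ _ hk'
        rw [map_mul, map_mul, map_inv, hfix β hβ h hk] at this
        exact this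
      have e2 : β x * h = x * h * x⁻¹ * β x := by
        rw [← e1]; group
      calc h * (x⁻¹ * β x) = x⁻¹ * (x * h * x⁻¹ * β x) := by group
        _ = x⁻¹ * (β x * h) := by rw [e2]
        _ = x⁻¹ * β x * h := by group
    rw [hgen] at hle
    intro x hx
    exact Subgroup.mem_centralizer_iff.mp (hle hx) k rfl
  have hQQle : ⁅Q, Q⁆ ≤ Q := commutator_le_of_le_normalizer Subgroup.le_normalizer
  have hcomm_central := hcentral ⁅Q, Q⁆ hQQle
    (fun g hg => mem_normalizer_commutator (Subgroup.le_normalizer hg) (Subgroup.le_normalizer hg))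
    hcomm
  have hK₂central := hcentral (powSub p Q) (powSub_le p Q)
    (fun g hg => powSub_normalizer p Q (Subgroup.le_normalizer hg)) hpow
  have hcmem : ∀ x ∈ Q, ∀ y ∈ Q, y⁻¹ * x⁻¹ * y * x ∈ ⁅Q, Q⁆ := by
    intro x hx y hy
    have := Subgroup.commutator_mem_commutator (Q.inv_mem hy) (Q.inv_mem hx)
    simpa [commutatorElement_def] using this
  obtain ⟨q, hq_pow, hq_mem, hq_om⟩ : ∃ q : ℕ,
      (∀ x ∈ Q, ∀ y ∈ Q, (x * y) ^ q = x ^ q * y ^ q) ∧
      (∀ x ∈ Q, x ^ q ∈ powSub p Q) ∧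
      (∀ x : Y, x ^ q = 1 → Om p x) := by
    by_cases hp : p = 2
    · refine ⟨4, ?_, ?_, fun x hx => Or.inr ⟨hp, hx⟩⟩
      · intro x hx y hy
        have hc := hcmem x hx y hy
        have h : y * x = x * y * (y⁻¹ * x⁻¹ * y * x) := by group
        have hcx := hcomm_central _ hc x hx
        have hcy := hcomm_central _ hc y hy
        have h1 := pow_mul_comm_of_central h hcy 2
        have hy2 : y ^ 2 * x = x * y ^ 2 :=
          hK₂central _ (Subgroup.subset_closure
            (show y ^ 2 ∈ {y | ∃ x ∈ Q, x ^ p = y} from ⟨y, hy, by rw [hp]⟩)) x hx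
        rw [hy2] at h1
        have hc2 : (y⁻¹ * x⁻¹ * y * x) ^ 2 = 1 := by
          have : x * y ^ 2 * 1 = x * y ^ 2 * (y⁻¹ * x⁻¹ * y * x) ^ 2 := by rw [mul_one]; exact h1
          exact (mul_left_cancel this).symm
        rw [mul_pow_of_central h hcx hcy 4]
        have e42 : Nat.choose 4 2 = 2 * 3 := by decide
        rw [e42, pow_mul, hc2, one_pow, mul_one]
      · intro x hx
        have e : x ^ 4 = (x ^ 2) ^ 2 := by rw [← pow_mul]
        rw [e]
        exact Subgroup.pow_mem _ (Subgroup.subset_closure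
          (show x ^ 2 ∈ {y | ∃ x ∈ Q, x ^ p = y} from ⟨x, hx, by rw [hp]⟩)) 2
    · refine ⟨p, ?_, fun x hx => pow_mem_powSub p Q hx, fun x hx => Or.inl hx⟩
      intro x hx y hy
      have hc := hcmem x hx y hy
      apply mul_pow_prime_of_central p hp
      · exact hcomm_central _ hc x hx
      · exact hcomm_central _ hc y hy
      · exact hK₂central _ (pow_mem_powSub p Q hy) x hx
  let W : Subgroup Y :=
    { carrier := {x | x ∈ Q ∧ x ^ q = 1}
      mul_mem' := by
        rintro x y ⟨hx, hx1⟩ ⟨hy, hy1⟩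
        exact ⟨Q.mul_mem hx hy, by rw [hq_pow x hx y hy, hx1, hy1, one_mul]⟩
      one_mem' := ⟨Q.one_mem, one_pow q⟩
      inv_mem' := by
        rintro x ⟨hx, hx1⟩
        exact ⟨Q.inv_mem hx, by rw [inv_pow, hx1, inv_one]⟩ }
  have hle : Subgroup.closure {y | ∃ x ∈ Q, ∃ β ∈ Fm, y = x⁻¹ * β x} ≤ W := by
    rw [Subgroup.closure_le]
    rintro _ ⟨x, hx, β, hβ, rfl⟩
    refine ⟨Q.mul_mem (Q.inv_mem hx) (hinv β hβ x hx), ?_⟩
    rw [hq_pow _ (Q.inv_mem hx) _ (hinv β hβ x hx), ← map_pow, hpow β hβ _ (hq_mem x hx), inv_pow,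
      inv_mul_cancel]
  intro x hx
  have hxW : x ∈ W := hle (by rw [hgen]; exact hx)
  exact hq_om x hxW.2

end Cfsg.Agent.Lib.Helper88.MinConfig
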