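import Mathlib
import Cfsg.Prelude.Def_FusionSystem
import Cfsg.Prelude.Def_FusionComponents
import Cfsg.Prelude.Def_FusionReduction
import Cfsg.Agent.H85.Basic
import Cfsg.Agent.H85.Sat
import Cfsg.Agent.H85.ResLimit
import Cfsg.Agent.Lib.Helper88.ORStmt

/-! Piece CHAIN of S5202/S5201: descent along a `p`-solvable series of `Aut_F(T)/Aut_E(T)`. -/

set_option autoImplicit false

namespace Cfsg.Agent.Lib.Helper88.ORCHAIN

open Cfsg Cfsg.FusionSystem Cfsg.Agent.Lib.Helper88.ORStmt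

universe u

theorem main (hP : PStep.{u}) (hQ : QStep.{u}) (hBASE : BaseCase.{u}) (hSELF : SelfNormal.{u})
    (hSER : SeriesElt.{u}) : Chain.{u} := by
  intro Ω _ S _ p _ hS F hF T E hE hn hsolv
  obtain ⟨n, H, hH0, hHn, hmono, hnorm, hstep⟩ := hsolv
  have hp : p.Prime := Fact.out
  have hEF : E.IsSubsystemOf F := hE.1.2.2.1
  have hTS : T ≤ S := hE.1.2.2.2.1.1
  have hfinT : Finite T := H85.finite_of_le hTS
  have hfinA : Finite (MulAut T) :=
    Finite.of_injective (fun a : MulAut T => (a : T → T)) (fun a b h => DFunLike.coe_injective h)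
  have hautle : E.autGroup T ≤ F.autGroup T := Subgroup.closure_mono (fun a ha => hEF T ha)
  -- the series, pulled back to `Aut(T)`
  obtain ⟨G, hGdef⟩ : ∃ G : Fin (n + 1) → Subgroup (MulAut T), ∀ i, G i =
      ((H i).comap (QuotientGroup.mk' ((E.autGroup T).subgroupOf (F.autGroup T)))).map
        (F.autGroup T).subtype := ⟨_, fun _ => rfl⟩
  have hGmem : ∀ (i : Fin (n + 1)) (ν : MulAut T), ν ∈ G i ↔ ∃ h : ν ∈ F.autGroup T,
      QuotientGroup.mk' ((E.autGroup T).subgroupOf (F.autGroup T)) ⟨ν, h⟩ ∈ H i := by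
    intro i ν
    rw [hGdef i]
    constructor
    · rintro ⟨ν', hν', rfl⟩
      exact ⟨ν'.2, hν'⟩
    · rintro ⟨h, hν⟩
      exact ⟨⟨ν, h⟩, hν, rfl⟩
  have hG0 : G 0 = E.autGroup T := by
    rw [hGdef 0, hH0, MonoidHom.comap_bot, QuotientGroup.ker_mk', Subgroup.subgroupOf_map_subtype]
    exact inf_eq_left.mpr hautle
  have hGn : G (Fin.last n) = F.autGroup T := by
    rw [hGdef (Fin.last n), hHn, Subgroup.comap_top, ← MonoidHom.range_eq_map,
      Subgroup.range_subtype]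
  have hGmono : ∀ i j : Fin (n + 1), i ≤ j → G i ≤ G j := by
    intro i j hij
    rw [hGdef i, hGdef j]
    exact Subgroup.map_mono (Subgroup.comap_mono (hmono hij))
  have hGE : ∀ i : Fin (n + 1), E.autGroup T ≤ G i := by
    intro i
    rw [← hG0]
    exact hGmono 0 i (Fin.zero_le i)
  have hGnorm : ∀ i : Fin (n + 1), NormBy F T (G i) := by
    intro i γ hγ g hg
    obtain ⟨h, hgH⟩ := (hGmem i g).mp hg
    refine (hGmem i _).mpr ⟨Subgroup.mul_mem _ (Subgroup.mul_mem _ hγ h) (Subgroup.inv_mem _ hγ), ?_⟩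
    have e : (⟨γ * g * γ⁻¹, Subgroup.mul_mem _ (Subgroup.mul_mem _ hγ h) (Subgroup.inv_mem _ hγ)⟩ :
        ↥(F.autGroup T)) = ⟨γ, hγ⟩ * ⟨g, h⟩ * ⟨γ, hγ⟩⁻¹ := rfl
    rw [e, map_mul, map_mul, map_inv]
    exact (hnorm i).conj_mem _ hgH _
  -- the descent
  have key : ∀ i : Fin (n + 1), ∃ (S' : Subgroup Ω) (F' : FusionSystem S'),
      Inter p F E F' ∧ F'.autGroup T ≤ G i := by
    intro i
    induction i using Fin.reverseInduction with
    | last =>
      refine ⟨S, F, ⟨hSELF p hS F hF, hE, sup_le hTS inf_le_left, ?_⟩, by rw [hGn]⟩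
      intro U V Xinf Yinf hX hY
      exact H85.resLimit_unique hX inferInstance inferInstance hS Yinf hY
    | cast i ih =>
      obtain ⟨S', F', hI, hle⟩ := ih
      have hHle : H i.castSucc ≤ H i.succ := hmono (Fin.castSucc_lt_succ).le
      have hnormi : (H i.castSucc).Normal := hnorm i.castSucc
      have hser := hSER p (H i.castSucc) (H i.succ) hHle
      rcases hstep i with hpow | hcop
      · refine hP p hS F hF E hE F' hI (G i.castSucc) (hGnorm _) (hGE _) ?_
        intro ν hν hνcop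
        obtain ⟨h, hνH⟩ := (hGmem i.succ ν).mp (hle hν)
        refine (hGmem i.castSucc ν).mpr ⟨h, hser.1 hpow _ hνH ?_⟩
        have h1 : orderOf (QuotientGroup.mk' ((E.autGroup T).subgroupOf (F.autGroup T))
            ⟨ν, h⟩) ∣ orderOf (⟨ν, h⟩ : ↥(F.autGroup T)) := orderOf_map_dvd _ _
        have h2 : orderOf (⟨ν, h⟩ : ↥(F.autGroup T)) = orderOf ν := by
          rw [← Subgroup.orderOf_coe]
        rw [h2] at h1
        exact Nat.Coprime.coprime_dvd_left h1 hνcop
      · refine hQ p hS F hF E hE F' hI (G i.castSucc) (hGnorm _) (hGE _) ?_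
        intro ν hν hνpow
        obtain ⟨k, hk⟩ := hνpow
        obtain ⟨h, hνH⟩ := (hGmem i.succ ν).mp (hle hν)
        refine (hGmem i.castSucc ν).mpr ⟨h, hser.2 hcop _ hνH ?_⟩
        have h1 : orderOf (QuotientGroup.mk' ((E.autGroup T).subgroupOf (F.autGroup T))
            ⟨ν, h⟩) ∣ orderOf (⟨ν, h⟩ : ↥(F.autGroup T)) := orderOf_map_dvd _ _
        have h2 : orderOf (⟨ν, h⟩ : ↥(F.autGroup T)) = orderOf ν := by
          rw [← Subgroup.orderOf_coe]
        rw [h2, hk] at h1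
        obtain ⟨j, -, hj⟩ := (Nat.dvd_prime_pow hp).mp h1
        exact ⟨j, hj⟩
  obtain ⟨S', F', hI, hle⟩ := key 0
  rw [hG0] at hle
  have hS'eq : S' = T ⊔ centralizerIn S T :=
    hBASE p hS F hF E F' hE hI.1.1.2.2.1 hI.2.2.1 hle
  subst hS'eq
  refine ⟨F', hI, le_antisymm hle ?_⟩
  exact Subgroup.closure_mono (fun a ha => hI.2.1.1.2.2.1 T ha)

end Cfsg.Agent.Lib.Helper88.ORCHAIN
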