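import Mathlib
import Cfsg.Prelude.Def_FusionSystem
import Cfsg.Prelude.Def_FusionComponents
import Cfsg.Agent.H85.Basic
import Cfsg.Agent.H85.Aut
import Cfsg.Agent.H85.GroupFS2
import Cfsg.Agent.H85.Sat
import Cfsg.Agent.H85.PPowNormal
import Cfsg.Agent.Lib.Helper87.FSHyp
import Cfsg.Agent.Lib.Helper88.ORStmt

/-! Piece EXTP of S5202/S5201: the extension clause for `E` in a subsystem of `p`-power index
over a subgroup containing `T C_S(T)`. -/

set_option autoImplicit false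

namespace Cfsg.Agent.Lib.Helper88.OREXTP

open Cfsg Cfsg.FusionSystem Cfsg.Agent.Lib.Helper88.ORStmt

universe u

theorem main : ExtPStep.{u} := by
  intro Ω _ S _ p _ hS F hF T E S'' F'' hE hF''sat hidx hQS''
  have hpp : p.Prime := Fact.out
  have hS''S : S'' ≤ S := (F.le_of_mem (hidx.1 S'' (F''.conj_mem le_rfl (one_mem S'')))).1
  have hTS : T ≤ S := hE.1.2.2.2.1.1
  have hfinT : Finite T := H85.finite_of_le hTS
  have hcen : centralizerIn S'' T = centralizerIn S T := by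
    apply le_antisymm
    · exact fun c hc => ⟨hS''S hc.1, hc.2⟩
    · exact fun c hc => ⟨hQS'' (Subgroup.mem_sup_right hc), hc.2⟩
  unfold ExtCl
  suffices key : ∀ C' : Subgroup Ω, C' = centralizerIn S T → ∀ α ∈ E.autGroup T,
      ∃ β ∈ F''.autGroup (T ⊔ C'),
        (∀ x : T, ((β (Subgroup.inclusion le_sup_left x) : ↥(T ⊔ C')) : Ω) = ((α x : T) : Ω)) ∧
        ∀ c : ↥(T ⊔ C'), (c : Ω) ∈ C' →
          (c : Ω)⁻¹ * ((β c : ↥(T ⊔ C')) : Ω) ∈ T ⊓ Subgroup.centralizer (T : Set Ω) from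
    key _ hcen
  rintro C' rfl
  obtain ⟨Q, hQdef⟩ : ∃ Q : Subgroup Ω, Q = T ⊔ centralizerIn S T := ⟨_, rfl⟩
  have hTQ : T ≤ Q := by rw [hQdef]; exact le_sup_left
  have hQS : Q ≤ S := by rw [hQdef]; exact sup_le hTS inf_le_left
  have hfinQ : Finite Q := H85.finite_of_le hQS
  have hfinA : Finite (MulAut Q) :=
    Finite.of_injective (fun a : MulAut Q => (a : Q → Q)) (fun a b h => DFunLike.coe_injective h)
  -- reformulate the goal and the hypothesis over `Q`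
  suffices hmain : ∀ α ∈ E.autGroup T, ∃ β ∈ F''.autGroup Q,
      (∀ x : T, ((β (Subgroup.inclusion hTQ x) : Q) : Ω) = ((α x : T) : Ω)) ∧
      ∀ c : Q, (c : Ω) ∈ centralizerIn S T →
        (c : Ω)⁻¹ * ((β c : Q) : Ω) ∈ T ⊓ Subgroup.centralizer (T : Set Ω) by
    subst hQdef
    exact hmain
  have hext : ∀ α ∈ E.autGroup T, ∃ β ∈ F.autGroup Q,
      (∀ x : T, ((β (Subgroup.inclusion hTQ x) : Q) : Ω) = ((α x : T) : Ω)) ∧
      ∀ c : Q, (c : Ω) ∈ centralizerIn S T →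
        (c : Ω)⁻¹ * ((β c : Q) : Ω) ∈ T ⊓ Subgroup.centralizer (T : Set Ω) := by
    subst hQdef
    exact hE.2
  have hQS''' : Q ≤ S'' := by rw [hQdef]; exact hQS''
  clear hcen
  -- the notion of a good extension
  obtain ⟨Good, hGood⟩ : ∃ Good : MulAut T → MulAut Q → Prop, ∀ ν β, Good ν β ↔
      ((∀ x : T, ((β (Subgroup.inclusion hTQ x) : Q) : Ω) = ((ν x : T) : Ω)) ∧
      ∀ c : Q, (c : Ω) ∈ centralizerIn S T →
        (c : Ω)⁻¹ * ((β c : Q) : Ω) ∈ T ⊓ Subgroup.centralizer (T : Set Ω)) :=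
    ⟨_, fun _ _ => Iff.rfl⟩
  -- automorphisms of `T` preserve the centre
  have hcenT : ∀ (ν : MulAut T) (z : T), (z : Ω) ∈ Subgroup.centralizer (T : Set Ω) →
      ((ν z : T) : Ω) ∈ Subgroup.centralizer (T : Set Ω) := by
    intro ν z hz
    rw [Subgroup.mem_centralizer_iff]
    intro t ht
    have h1 := (Subgroup.mem_centralizer_iff.mp hz) ((ν⁻¹ ⟨t, ht⟩ : T) : Ω) (ν⁻¹ ⟨t, ht⟩).2
    have h2 : (ν⁻¹ ⟨t, ht⟩ : T) * z = z * (ν⁻¹ ⟨t, ht⟩ : T) := Subtype.ext h1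
    have h3 := congrArg (fun y : T => ((ν y : T) : Ω)) h2
    simp only [map_mul, MulAut.apply_inv_self, Subgroup.coe_mul] at h3
    exact h3
  have hone : Good 1 1 := by
    rw [hGood]
    refine ⟨fun x => rfl, fun c _ => ?_⟩
    show (c : Ω)⁻¹ * (c : Ω) ∈ _
    rw [inv_mul_cancel]
    exact Subgroup.one_mem _
  have hmul : ∀ ν₁ ν₂ β₁ β₂, Good ν₁ β₁ → Good ν₂ β₂ → Good (ν₁ * ν₂) (β₁ * β₂) := by
    intro ν₁ ν₂ β₁ β₂ h₁ h₂
    rw [hGood] at h₁ h₂ ⊢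
    refine ⟨fun x => ?_, fun c hc => ?_⟩
    · show ((β₁ (β₂ (Subgroup.inclusion hTQ x)) : Q) : Ω) = ((ν₁ (ν₂ x) : T) : Ω)
      have e : β₂ (Subgroup.inclusion hTQ x) = Subgroup.inclusion hTQ (ν₂ x) :=
        Subtype.ext (h₂.1 x)
      rw [e]
      exact h₁.1 _
    · have hz := h₂.2 c hc
      obtain ⟨z, hzdef⟩ : ∃ z : T, (z : Ω) = (c : Ω)⁻¹ * ((β₂ c : Q) : Ω) := ⟨⟨_, hz.1⟩, rfl⟩
      have e : β₂ c = c * Subgroup.inclusion hTQ z := by
        apply Subtype.ext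
        show ((β₂ c : Q) : Ω) = (c : Ω) * (z : Ω)
        rw [hzdef]; group
      show (c : Ω)⁻¹ * ((β₁ (β₂ c) : Q) : Ω) ∈ _
      rw [e, map_mul]
      have e2 : (c : Ω)⁻¹ * (((β₁ c * β₁ (Subgroup.inclusion hTQ z) : Q)) : Ω) =
          ((c : Ω)⁻¹ * ((β₁ c : Q) : Ω)) * ((ν₁ z : T) : Ω) := by
        rw [Subgroup.coe_mul, h₁.1 z]; group
      rw [e2]
      refine Subgroup.mul_mem _ (h₁.2 c hc) ⟨(ν₁ z).2, hcenT ν₁ z ?_⟩
      rw [hzdef]; exact hz.2
  have hinv : ∀ ν β, Good ν β → Good ν⁻¹ β⁻¹ := by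
    intro ν β h
    rw [hGood] at h ⊢
    have hx : ∀ x : T, β⁻¹ (Subgroup.inclusion hTQ x) = Subgroup.inclusion hTQ (ν⁻¹ x) := by
      intro x
      have e : β (Subgroup.inclusion hTQ (ν⁻¹ x)) = Subgroup.inclusion hTQ x := by
        apply Subtype.ext
        rw [h.1 (ν⁻¹ x)]
        simp
      rw [← e]
      simp
    refine ⟨fun x => by rw [hx x]; rfl, fun c hc => ?_⟩
    have hz := h.2 c hc
    obtain ⟨z, hzdef⟩ : ∃ z : T, (z : Ω) = (c : Ω)⁻¹ * ((β c : Q) : Ω) := ⟨⟨_, hz.1⟩, rfl⟩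
    have e : β c = c * Subgroup.inclusion hTQ z := by
      apply Subtype.ext
      show ((β c : Q) : Ω) = (c : Ω) * (z : Ω)
      rw [hzdef]; group
    have e2 : β⁻¹ c = c * Subgroup.inclusion hTQ (ν⁻¹ z⁻¹) := by
      have h2 : β (Subgroup.inclusion hTQ (ν⁻¹ z⁻¹)) = Subgroup.inclusion hTQ z⁻¹ := by
        apply Subtype.ext
        rw [h.1 (ν⁻¹ z⁻¹)]
        simp
      apply β.injective
      rw [MulAut.apply_inv_self, map_mul, e, h2, map_inv, mul_inv_cancel_right]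
    rw [e2]
    have e3 : (c : Ω)⁻¹ * ((c * Subgroup.inclusion hTQ (ν⁻¹ z⁻¹) : Q) : Ω) =
        ((ν⁻¹ z⁻¹ : T) : Ω) := by
      rw [Subgroup.coe_mul]
      show (c : Ω)⁻¹ * ((c : Ω) * ((ν⁻¹ z⁻¹ : T) : Ω)) = _
      group
    rw [e3]
    refine ⟨(ν⁻¹ z⁻¹).2, hcenT ν⁻¹ z⁻¹ ?_⟩
    rw [Subgroup.coe_inv, hzdef]
    exact Subgroup.inv_mem _ hz.2
  have hpow : ∀ ν β, Good ν β → ∀ k : ℕ, Good (ν ^ k) (β ^ k) := by
    intro ν β h k
    induction k with
    | zero => rw [pow_zero, pow_zero]; exact hone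
    | succ k ih => rw [pow_succ, pow_succ]; exact hmul _ _ _ _ ih h
  -- `T` is fully automized in `E`
  have hTE : E.StronglyClosed T := ⟨le_rfl, fun R _ φ hφ x => (E.le_of_mem hφ).2 x⟩
  have hfa : E.IsFullyAutomized p T := (H85.far_of_stronglyClosed E hE.1.1 hTE).1
  -- elements of `O^p(Aut_E(T))` have good extensions in `F''`
  have hres : ∀ n : ↥(E.autGroup T), n ∈ pResidual p ↥(E.autGroup T) →
      ∃ β ∈ F''.autGroup Q, Good (n : MulAut T) β := by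
    intro n hn
    induction hn using Subgroup.closure_induction with
    | mem ν hν =>
      have hcop : (orderOf ν).Coprime p := hν
      obtain ⟨β₀, hβ₀, hβ₀g⟩ := hext (ν : MulAut T) ν.2
      have hg₀ : Good (ν : MulAut T) β₀ := (hGood _ _).mpr hβ₀g
      -- a `p'`-power of `β₀` still extending `ν`
      obtain ⟨e, hedef⟩ : ∃ e : ℕ, e = p ^ (Nat.card (MulAut Q)) := ⟨_, rfl⟩
      have hecop : e.Coprime (orderOf (ν : MulAut T)) := by
        rw [hedef, Subgroup.orderOf_coe]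
        exact Nat.Coprime.pow_left _ (Nat.Coprime.symm hcop)
      obtain ⟨j, hj⟩ := exists_pow_eq_self_of_coprime hecop
      have hg : Good (ν : MulAut T) ((β₀ ^ e) ^ j) := by
        have := hpow _ _ (hpow _ _ hg₀ e) j
        rwa [hj] at this
      refine ⟨(β₀ ^ e) ^ j, ?_, hg⟩
      -- `(β₀ ^ e) ^ j` has order prime to `p`
      have hord : (orderOf ((β₀ ^ e) ^ j)).Coprime p := by
        have h1 : orderOf ((β₀ ^ e) ^ j) ∣ orderOf (β₀ ^ e) := orderOf_pow_dvd j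
        refine Nat.Coprime.coprime_dvd_left h1 ?_
        rw [Nat.coprime_comm, Nat.Prime.coprime_iff_not_dvd hpp]
        intro hdvd
        -- then `p * orderOf (β₀ ^ e)` would divide the order of `β₀`
        have hpos : 0 < orderOf β₀ := orderOf_pos β₀
        have h2 : orderOf (β₀ ^ e) = orderOf β₀ / Nat.gcd (orderOf β₀) e := orderOf_pow β₀
        -- write the order of `β₀` as `p ^ a * b` with `b` prime to `p`
        obtain ⟨a, b, hb, hab⟩ := Nat.exists_eq_pow_mul_and_not_dvd hpos.ne' p hpp.ne_one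
        have hale : a ≤ Nat.card (MulAut Q) := by
          have h3 : p ^ a ≤ Nat.card (MulAut Q) := by
            have h4 : p ^ a ∣ orderOf β₀ := ⟨b, hab⟩
            exact (Nat.le_of_dvd hpos h4).trans (orderOf_le_card : orderOf β₀ ≤ Nat.card (MulAut Q))
          exact le_of_lt (lt_of_lt_of_le (Nat.lt_pow_self hpp.one_lt) h3)
        have hgcd : Nat.gcd (orderOf β₀) e = p ^ a := by
          rw [hab, hedef]
          have h5 : p ^ Nat.card (MulAut Q) = p ^ a * p ^ (Nat.card (MulAut Q) - a) := by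
            rw [← pow_add, Nat.add_sub_cancel' hale]
          rw [h5, Nat.gcd_mul_left]
          have h6 : Nat.gcd b (p ^ (Nat.card (MulAut Q) - a)) = 1 :=
            Nat.Coprime.pow_right _ ((Nat.Prime.coprime_iff_not_dvd hpp).mpr hb).symm
          rw [h6, mul_one]
        rw [h2, hgcd, hab, Nat.mul_div_cancel_left _ (pow_pos hpp.pos a)] at hdvd
        exact hb hdvd
      have hmem : (β₀ ^ e) ^ j ∈ F.autGroup Q :=
        Subgroup.pow_mem _ (Subgroup.pow_mem _ hβ₀ e) j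
      apply hidx.2.2 Q hQS'''
      refine ⟨⟨(β₀ ^ e) ^ j, hmem⟩, Subgroup.subset_closure ?_, rfl⟩
      show (orderOf (⟨(β₀ ^ e) ^ j, hmem⟩ : ↥(F.autGroup Q))).Coprime p
      rw [← Subgroup.orderOf_coe]
      exact hord
    | one => exact ⟨1, Subgroup.one_mem _, hone⟩
    | mul a b _ _ ha hb =>
      obtain ⟨β₁, hβ₁, hg₁⟩ := ha
      obtain ⟨β₂, hβ₂, hg₂⟩ := hb
      exact ⟨β₁ * β₂, Subgroup.mul_mem _ hβ₁ hβ₂, hmul _ _ _ _ hg₁ hg₂⟩
    | inv a _ ha =>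
      obtain ⟨β₁, hβ₁, hg₁⟩ := ha
      exact ⟨β₁⁻¹, Subgroup.inv_mem _ hβ₁, hinv _ _ hg₁⟩
  -- conclusion
  intro α hα
  obtain ⟨n, hn, r, hr, hαnr⟩ := Cfsg.Agent.Lib.Helper87.FSHyp.autGroup_decomp E hfa α hα
  obtain ⟨β₁, hβ₁, hg₁⟩ := hres n hn
  obtain ⟨t, ht, htr⟩ := (H85.mem_autInducedBy_iff T T r).mp hr
  have hgr : Good r (MulAut.conj (⟨t, hTQ ht⟩ : Q)) := by
    rw [hGood]
    refine ⟨fun x => ?_, fun c hc => ?_⟩
    · rw [htr x]; rfl
    · show (c : Ω)⁻¹ * (t * (c : Ω) * t⁻¹) ∈ _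
      have h1 : t * (c : Ω) = (c : Ω) * t := Subgroup.mem_centralizer_iff.mp hc.2 t ht
      have e : (c : Ω)⁻¹ * (t * (c : Ω) * t⁻¹) = 1 := by rw [h1]; group
      rw [e]
      exact Subgroup.one_mem _
  have hr'' : MulAut.conj (⟨t, hTQ ht⟩ : Q) ∈ F''.autGroup Q := by
    apply H85.autInducedBy_le_autGroup F'' hQS'''
    exact (H85.mem_autInducedBy_iff S'' Q _).mpr ⟨t, hQS''' (hTQ ht), fun x => rfl⟩
  have hg := hmul _ _ _ _ hg₁ hgr
  rw [← hαnr, hGood] at hg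
  exact ⟨β₁ * MulAut.conj (⟨t, hTQ ht⟩ : Q), Subgroup.mul_mem _ hβ₁ hr'', hg⟩

end Cfsg.Agent.Lib.Helper88.OREXTP
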