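import Mathlib
import Cfsg.Prelude.Def_FusionSystem
import Cfsg.Prelude.Def_FusionComponents
import Cfsg.Agent.H85.Basic
import Cfsg.Agent.H85.Aut
import Cfsg.Agent.H85.GroupFS2
import Cfsg.Agent.H85.Sat
import Cfsg.Agent.H85.PPowNormal
import Cfsg.Agent.H85.PrimeIdx
import Cfsg.Agent.Lib.Helper87.FSSat
import Cfsg.Agent.Lib.Helper87.ChainStab
import Cfsg.Agent.S5255
import Cfsg.Agent.Lib.Helper84.ORRESAUT
import Cfsg.Agent.Lib.Helper88.ORStmt

/-! Piece EXTQ of S5202/S5201: the extension clause for `E` in a subsystem of index prime to `p`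
whose automizer of `S` is cut out by a condition on the restriction to `T`. -/

set_option autoImplicit false

namespace Cfsg.Agent.Lib.Helper88.OREXTQ

open Cfsg Cfsg.FusionSystem Cfsg.Agent.Lib.Helper88.ORStmt

universe u

theorem main : ExtQStep.{u} := by
  intro Ω _ S _ p _ hS F hF T E hTS F'' Γ hE hF''sat hF''F hidx hEΓ hF''Γ hA
  have hTsc : F.StronglyClosed T := hE.1.2.2.2.1
  have hTsc'' : F''.StronglyClosed T :=
    ⟨hTS, fun R hR φ hφ x => hTsc.2 R hR φ (hF''F R hφ) x⟩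
  obtain ⟨Q, hQdef⟩ : ∃ Q : Subgroup Ω, Q = T ⊔ centralizerIn S T := ⟨_, rfl⟩
  have hTQ : T ≤ Q := by rw [hQdef]; exact le_sup_left
  have hQS : Q ≤ S := by rw [hQdef]; exact sup_le hTS inf_le_left
  have hQsc : F.StronglyClosed Q := by
    rw [hQdef]; exact Cfsg.Agent.S5255.result p hS F hF T hTsc
  have hfinQ : Finite Q := H85.finite_of_le hQS
  have hfinA : Finite (MulAut Q) :=
    Finite.of_injective (fun a : MulAut Q => (a : Q → Q)) (fun a b h => DFunLike.coe_injective h)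
  obtain ⟨hfa, hrec⟩ := H85.far_of_stronglyClosed F hF hQsc
  -- reformulate over `Q`
  unfold ExtCl
  suffices hmain : ∀ α ∈ E.autGroup T, ∃ β ∈ F''.autGroup Q,
      (∀ x : T, ((β (Subgroup.inclusion hTQ x) : Q) : Ω) = ((α x : T) : Ω)) ∧
      ∀ c : Q, (c : Ω) ∈ centralizerIn S T →
        (c : Ω)⁻¹ * ((β c : Q) : Ω) ∈ T ⊓ Subgroup.centralizer (T : Set Ω) by
    subst hQdef
    exact hmain
  have hext : ∀ α ∈ E.autGroup T, ∃ β ∈ F.autGroup Q,
      (∀ x : T, ((β (Subgroup.inclusion hTQ x) : Q) : Ω) = ((α x : T) : Ω)) ∧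
      ∀ c : Q, (c : Ω) ∈ centralizerIn S T →
        (c : Ω)⁻¹ * ((β c : Q) : Ω) ∈ T ⊓ Subgroup.centralizer (T : Set Ω) := by
    subst hQdef
    exact hE.2
  intro α hα
  obtain ⟨β, hβ, hβx, hβc⟩ := hext α hα
  refine ⟨β, ?_, hβx, hβc⟩
  -- Frattini decomposition of `β` in `Aut_F(Q)`
  obtain ⟨N, hNdef⟩ : ∃ N : Subgroup (MulAut Q),
    N = (H85.ppGen p (F.autGroup Q)).map (F.autGroup Q).subtype := ⟨_, rfl⟩
  have hNA : N ≤ F.autGroup Q := by
    rw [hNdef]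
    rintro _ ⟨b, -, rfl⟩
    exact b.2
  have hnorm : ∀ a ∈ F.autGroup Q, ∀ n ∈ N, a * n * a⁻¹ ∈ N := by
    intro a ha n hn
    rw [hNdef] at hn ⊢
    obtain ⟨b, hb, rfl⟩ := hn
    exact ⟨⟨a, ha⟩ * b * ⟨a, ha⟩⁻¹, H85.ppGen_conj_mem p ⟨a, ha⟩ hb, rfl⟩
  have hN'' : N ≤ F''.autGroup Q := by
    rw [hNdef]
    exact hidx.2 Q hQS
  obtain ⟨n, hn, ν, hν, hβnν, hνd⟩ := Cfsg.Agent.Lib.Helper87.ChainStab.frattini_decomp
    (F.autGroup Q) N (autInducedBy S Q) hNA hnorm (H85.isPGroup_autInducedBy hS Q)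
    (fun K hK hKp => Cfsg.Agent.Lib.Helper87.FSSat.exists_conj_le_autS F hfa K hKp hK) β hβ
  -- `Q` is normal in `S`
  have hQnorm : ∀ g ∈ S, g ∈ Subgroup.normalizer (Q : Set Ω) := by
    intro g hg
    have key : ∀ g ∈ S, ∀ x ∈ Q, g * x * g⁻¹ ∈ Q := by
      intro g hg x hx
      exact hQsc.2 Q le_rfl _ (F.conj_mem hQS hg) ⟨x, hx⟩
    rw [Subgroup.mem_normalizer_iff]
    intro x
    refine ⟨fun hx => key g hg x hx, fun hx => ?_⟩
    have h1 := key g⁻¹ (S.inv_mem hg) _ hx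
    have e : g⁻¹ * (g * x * g⁻¹) * g⁻¹⁻¹ = x := by group
    rwa [e] at h1
  -- `ν` extends to an `F`-automorphism of `S`
  have hνF : Q.subtype.comp ν.toMonoidHom ∈ F.Hom Q := (H85.mem_autGroup_iff F hQS ν).mp hν
  obtain ⟨ψ, hψ, hψx⟩ := hrec.2 Q _ hνF (H85.range_of_iso ν)
  have hSext : S ≤ extender S Q (Q.subtype.comp ν.toMonoidHom) := by
    intro g hg
    have hgN := hQnorm g hg
    have hcS : Q.normalizerMonoidHom ⟨g, hgN⟩ ∈ autInducedBy S Q :=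
      (H85.mem_autInducedBy_iff S Q _).mpr ⟨g, hg, fun x => rfl⟩
    have hcg : Q.normalizerMonoidHom ⟨g, hgN⟩ ∈ autInducedBy S Q ⊓ N := by
      refine ⟨hcS, ?_⟩
      rw [hNdef]
      obtain ⟨k, hk⟩ := (IsPGroup.iff_orderOf.mp (H85.isPGroup_autInducedBy hS Q)) ⟨_, hcS⟩
      refine ⟨⟨_, H85.autInducedBy_le_autGroup F hQS hcS⟩, Subgroup.subset_closure ⟨k, ?_⟩, rfl⟩
      rw [← hk, ← Subgroup.orderOf_coe, ← Subgroup.orderOf_coe]
    have hconj := (hνd _ hcg).1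
    obtain ⟨h, hh, hhx⟩ := (H85.mem_autInducedBy_iff S Q _).mp hconj
    refine Subgroup.subset_closure ⟨hg, hgN, h, hh, fun x hx => ?_⟩
    have h1 := hhx (ν x)
    have e : (ν * Q.normalizerMonoidHom ⟨g, hgN⟩ * ν⁻¹) (ν x) =
        ν (Q.normalizerMonoidHom ⟨g, hgN⟩ x) := by
      show ν (Q.normalizerMonoidHom ⟨g, hgN⟩ (ν⁻¹ (ν x))) = _
      rw [MulAut.inv_apply_self]
    rw [e] at h1
    have e2 : Q.normalizerMonoidHom ⟨g, hgN⟩ x = ⟨g * (x : Ω) * g⁻¹, hx⟩ := Subtype.ext rfl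
    rw [e2] at h1
    exact h1
  have hψS := H85.restrict_mem F hψ hSext
  have hrS : (ψ.comp (Subgroup.inclusion hSext)).range = S := by
    apply Subgroup.eq_of_le_of_card_ge
    · rintro _ ⟨x, rfl⟩; exact (F.le_of_mem hψS).2 x
    · exact (Nat.card_congr (MonoidHom.ofInjective (F.injective_of_mem hψS)).toEquiv).le
  obtain ⟨a, hadef⟩ : ∃ a : MulAut S, a = H85.isoOf F hψS hrS := ⟨_, rfl⟩
  have haF : a ∈ F.autGroup S := by
    rw [hadef]; exact (H85.mem_autGroup_iff F le_rfl _).mpr (H85.isIso_isoOf F hψS hrS)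
  have haQ : ∀ x : Q, ((a ⟨(x : Ω), hQS x.2⟩ : S) : Ω) = ((ν x : Q) : Ω) := by
    intro x
    rw [hadef, H85.coe_isoOf]
    exact hψx (x : Ω) x.2 (hSext (hQS x.2))
  -- the restriction of `n` to `T`
  have hn'' : n ∈ F''.autGroup Q := hN'' hn
  have hfinS'' : Finite S := inferInstance
  obtain ⟨gn, hgn, hgnres⟩ := Cfsg.Agent.Lib.Helper84.ORRESAUT.main F'' T Q hTQ hTsc'' hQS n hn''
  -- the restriction of `a` to `T` lies in `Γ`
  have hg : gn⁻¹ * α ∈ Γ := Subgroup.mul_mem _ (Subgroup.inv_mem _ (hF''Γ hgn)) (hEΓ hα)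
  have hres : ResOf hTS (gn⁻¹ * α) a := by
    intro t
    show ((gn⁻¹ (α t) : T) : Ω) = ((a ⟨(t : Ω), hTS t.2⟩ : S) : Ω)
    have h1 := haQ (Subgroup.inclusion hTQ t)
    have e1 : (⟨((Subgroup.inclusion hTQ t : Q) : Ω), hQS (Subgroup.inclusion hTQ t).2⟩ : S) =
        ⟨(t : Ω), hTS t.2⟩ := rfl
    rw [e1] at h1
    rw [h1]
    -- `ν = n⁻¹ β`
    have hν' : ν = n⁻¹ * β := by rw [hβnν]; group
    rw [hν']
    show _ = ((n⁻¹ (β (Subgroup.inclusion hTQ t)) : Q) : Ω)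
    have e2 : β (Subgroup.inclusion hTQ t) = Subgroup.inclusion hTQ (α t) := Subtype.ext (hβx t)
    rw [e2]
    -- `n⁻¹` on `T` is `gn⁻¹`
    have e3 : n (Subgroup.inclusion hTQ (gn⁻¹ (α t))) = Subgroup.inclusion hTQ (α t) := by
      apply Subtype.ext
      have h2 := hgnres (gn⁻¹ (α t))
      rw [MulAut.apply_inv_self] at h2
      exact h2.symm
    rw [← e3, MulAut.inv_apply_self]
    rfl
  have ha'' : a ∈ F''.autGroup S := hA a haF _ hg hres
  -- hence `ν`, and so `β`, is in `F''`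
  have hν'' : ν ∈ F''.autGroup Q := by
    rw [H85.mem_autGroup_iff F'' hQS]
    have h1 := H85.restrict_mem F'' ((H85.mem_autGroup_iff F'' le_rfl a).mp ha'') hQS
    exact H85.hom_congr F'' h1 (fun x => (haQ x).symm)
  rw [hβnν]
  exact Subgroup.mul_mem _ hn'' hν''

end Cfsg.Agent.Lib.Helper88.OREXTQ
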