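import Cfsg.Agent.S5113
import Cfsg.Agent.Lib.Helper88.ORStmt

/-! Piece PPEX of S5202/S5201: existence of the subsystem of `p`-power index (from S5113). -/

set_option autoImplicit false

namespace Cfsg.Agent.Lib.Helper88.ORPPEX

open Cfsg Cfsg.FusionSystem Cfsg.Agent.Lib.Helper88.ORStmt

universe u

theorem main : PPEx.{u} := by
  intro Ω _ S _ p _ hS F hF T hTS hT
  obtain ⟨E, hE, -⟩ := Cfsg.Agent.S5113.result p hS F hF T hTS hT
  exact ⟨E, hE⟩

end Cfsg.Agent.Lib.Helper88.ORPPEX
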