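import Mathlib

/-!
# A Chevalley–Warning bound for quadratic maps over `𝔽₂`

A map `s : V → W` between finite vector spaces over `ZMod 2` whose polarisation is biadditive and
which vanishes only at `0` forces `dim V ≤ 2 * dim W`.
-/

set_option autoImplicit false

namespace Cfsg.Agent.Lib.Helper88.QuadBound

open MvPolynomial

section
variable {V W : Type*} [AddCommGroup V] [Module (ZMod 2) V] [AddCommGroup W] [Module (ZMod 2) W]

theorem zmod2_cases : ∀ a : ZMod 2, a = 0 ∨ a = 1 := by
  decide

/-- Expansion of a quadratic map on a combination of a finite family. -/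
theorem expand (s : V → W) (B : V → V → W)
    (hB1 : ∀ u v w, B (u + v) w = B u w + B v w) (hB2 : ∀ u v w, B u (v + w) = B u v + B u w)
    (hs : ∀ v w, s (v + w) = s v + s w + B v w) :
    ∀ (m : ℕ) (b : Fin m → V) (x : Fin m → ZMod 2),
      s (∑ j, x j • b j) = ∑ j, x j • s (b j)
        + ∑ j, ∑ k, if j < k then (x j * x k) • B (b j) (b k) else 0 := by
  have hB0l : ∀ w, B 0 w = 0 := by
    intro w
    have h := hB1 0 0 w
    rw [add_zero] at h
    exact left_eq_add.1 h
  have hB0r : ∀ u, B u 0 = 0 := by
    intro u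
    have h := hB2 u 0 0
    rw [add_zero] at h
    exact left_eq_add.1 h
  have hs0 : s 0 = 0 := by
    have h := hs 0 0
    rw [add_zero, hB0l, add_zero] at h
    exact left_eq_add.1 h
  have hsm : ∀ (a : ZMod 2) (v : V), s (a • v) = a • s v := by
    intro a v
    rcases zmod2_cases a with h | h
    · rw [h, zero_smul, zero_smul, hs0]
    · rw [h, one_smul, one_smul]
  have hBl : ∀ (a : ZMod 2) (u v : V), B (a • u) v = a • B u v := by
    intro a u v
    rcases zmod2_cases a with h | h
    · rw [h, zero_smul, zero_smul, hB0l]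
    · rw [h, one_smul, one_smul]
  have hBr : ∀ (a : ZMod 2) (u v : V), B u (a • v) = a • B u v := by
    intro a u v
    rcases zmod2_cases a with h | h
    · rw [h, zero_smul, zero_smul, hB0r]
    · rw [h, one_smul, one_smul]
  have hBsum : ∀ (u : V) (m : ℕ) (y : Fin m → V), B u (∑ k, y k) = ∑ k, B u (y k) := by
    intro u m y
    let Bu : V →+ W := ⟨⟨B u, hB0r u⟩, hB2 u⟩
    exact map_sum Bu y Finset.univ
  intro m
  induction m with
  | zero =>
    intro b x
    simp [hs0]
  | succ m ih =>
    intro b x
    have hih := ih (fun j => b j.succ) (fun j => x j.succ)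
    rw [Fin.sum_univ_succ, hs, hsm, hih, hBsum]
    rw [Fin.sum_univ_succ (fun j => x j • s (b j))]
    rw [Fin.sum_univ_succ (fun j => ∑ k, if j < k then (x j * x k) • B (b j) (b k) else 0)]
    have e1 : (∑ k : Fin (m + 1), if (0 : Fin (m + 1)) < k then (x 0 * x k) • B (b 0) (b k) else 0)
        = ∑ k : Fin m, B (x 0 • b 0) (x k.succ • b k.succ) := by
      rw [Fin.sum_univ_succ]
      simp only [lt_self_iff_false, if_false, zero_add, Fin.succ_pos, if_true]
      apply Finset.sum_congr rfl
      intro k _
      rw [hBl, hBr, smul_smul]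
    have e2 : ∀ j : Fin m, (∑ k : Fin (m + 1),
        if j.succ < k then (x j.succ * x k) • B (b j.succ) (b k) else 0)
        = ∑ k : Fin m, if j < k then (x j.succ * x k.succ) • B (b j.succ) (b k.succ) else 0 := by
      intro j
      rw [Fin.sum_univ_succ]
      simp only [Fin.not_lt_zero, if_false, zero_add, Fin.succ_lt_succ_iff]
    rw [e1]
    simp only [e2]
    abel
end

/-- The Chevalley–Warning bound. -/
theorem finrank_le {V W : Type*} [AddCommGroup V] [Module (ZMod 2) V] [Finite V]
    [AddCommGroup W] [Module (ZMod 2) W] [Finite W]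
    (s : V → W) (B : V → V → W)
    (hB1 : ∀ u v w, B (u + v) w = B u w + B v w) (hB2 : ∀ u v w, B u (v + w) = B u v + B u w)
    (hs : ∀ v w, s (v + w) = s v + s w + B v w) (h0 : ∀ v, s v = 0 → v = 0) :
    Module.finrank (ZMod 2) V ≤ 2 * Module.finrank (ZMod 2) W := by
  classical
  by_contra hcon
  rw [not_le] at hcon
  have hs0 : s 0 = 0 := by
    have hB0l : B 0 0 = 0 := by
      have h := hB1 0 0 0
      rw [add_zero] at h
      exact left_eq_add.1 h
    have h := hs 0 0
    rw [add_zero, hB0l, add_zero] at h
    exact left_eq_add.1 h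
  let b := Module.finBasis (ZMod 2) V
  let c := Module.finBasis (ZMod 2) W
  let f : Fin (Module.finrank (ZMod 2) W) → MvPolynomial (Fin (Module.finrank (ZMod 2) V)) (ZMod 2) :=
    fun i => ∑ j, C (c.repr (s (b j)) i) * X j
      + ∑ j, ∑ k, if j < k then C (c.repr (B (b j) (b k)) i) * X j * X k else 0
  have hdeg : ∀ i, (f i).totalDegree ≤ 2 := by
    intro i
    refine (totalDegree_add _ _).trans (max_le ?_ ?_)
    · refine totalDegree_finsetSum_le (fun j _ => ?_)
      refine (totalDegree_mul _ _).trans ?_
      rw [totalDegree_C, totalDegree_X]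
      omega
    · refine totalDegree_finsetSum_le (fun j _ => ?_)
      refine totalDegree_finsetSum_le (fun k _ => ?_)
      split_ifs
      · refine (totalDegree_mul _ _).trans ?_
        have h1 := totalDegree_mul (C (c.repr (B (b j) (b k)) i)) (X j : MvPolynomial _ (ZMod 2))
        rw [totalDegree_C, totalDegree_X] at h1
        rw [totalDegree_X]
        omega
      · rw [totalDegree_zero]; omega
  have heval : ∀ (x : Fin (Module.finrank (ZMod 2) V) → ZMod 2) i,
      eval x (f i) = c.repr (s (∑ j, x j • b j)) i := by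
    intro x i
    rw [expand s B hB1 hB2 hs]
    simp only [f, map_add, map_sum, map_mul, eval_C, eval_X, apply_ite (eval x), map_zero,
      map_smul, Finsupp.coe_add, Pi.add_apply, Finsupp.coe_finsetSum, Finset.sum_apply,
      Finsupp.coe_smul, Pi.smul_apply, smul_eq_mul, apply_ite (c.repr),
      apply_ite (fun g : Fin (Module.finrank (ZMod 2) W) →₀ ZMod 2 => g i), Finsupp.coe_zero,
      Pi.zero_apply]
    congr 1
    · apply Finset.sum_congr rfl
      intro j _
      ring
    · apply Finset.sum_congr rfl
      intro j _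
      apply Finset.sum_congr rfl
      intro k _
      split_ifs
      · ring
      · rfl
  have hCW := char_dvd_card_solutions_of_fintype_sum_lt 2 (f := f) (by
    calc ∑ i, (f i).totalDegree ≤ ∑ _i : Fin (Module.finrank (ZMod 2) W), 2 :=
          Finset.sum_le_sum (fun i _ => hdeg i)
      _ = 2 * Module.finrank (ZMod 2) W := by simp [mul_comm]
      _ < Module.finrank (ZMod 2) V := hcon
      _ = Fintype.card (Fin (Module.finrank (ZMod 2) V)) := (Fintype.card_fin _).symm)
  have hzero : ∀ x : Fin (Module.finrank (ZMod 2) V) → ZMod 2,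
      (∀ i, eval x (f i) = 0) → x = 0 := by
    intro x hx
    have h1 : s (∑ j, x j • b j) = 0 := by
      apply c.repr.injective
      ext i
      rw [← heval, hx i]; simp
    have h2 := h0 _ h1
    exact funext (fun j => Fintype.linearIndependent_iff.1 b.linearIndependent x h2 j)
  have hsol : Nat.card {x : Fin (Module.finrank (ZMod 2) V) → ZMod 2 //
      ∀ i, eval x (f i) = 0} = 1 := by
    rw [Nat.card_eq_one_iff_unique]
    refine ⟨⟨fun x y => Subtype.ext ((hzero x.1 x.2).trans (hzero y.1 y.2).symm)⟩,
      ⟨⟨0, fun i => by rw [heval]; simp [hs0]⟩⟩⟩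
  rw [Fintype.card_eq_nat_card, hsol] at hCW
  exact absurd hCW (by norm_num)

end Cfsg.Agent.Lib.Helper88.QuadBound
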