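import Mathlib
import Cfsg.Agent.Lib.Helper88.QuadBound
import Cfsg.Agent.Lib.Helper63.Suzuki2

/-!
# The order of a class two 2-group whose involutions are central

If the involutions of the finite group `P` are exactly the non-identity central elements and all
squares and commutators are central, then `|P : Z(P)| ≤ |Z(P)|²` (Chevalley–Warning).
-/

set_option autoImplicit false

namespace Cfsg.Agent.Lib.Helper88.SuzOrd

theorem card_quot_le {P : Type*} [Group P] [Finite P]
    (hZ : ∀ x : P, x ∈ Subgroup.center P ↔ x * x = 1)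
    (hsq : ∀ x : P, x * x ∈ Subgroup.center P)
    (hcc : ∀ x y : P, x⁻¹ * y⁻¹ * x * y ∈ Subgroup.center P) :
    Nat.card (P ⧸ Subgroup.center P) ≤ Nat.card (Subgroup.center P) ^ 2 := by
  classical
  let cg : CommGroup (P ⧸ Subgroup.center P) :=
    { (inferInstance : Group (P ⧸ Subgroup.center P)) with
      mul_comm := by
        intro a b
        obtain ⟨a, rfl⟩ := QuotientGroup.mk_surjective a
        obtain ⟨b, rfl⟩ := QuotientGroup.mk_surjective b
        rw [← QuotientGroup.mk_mul, ← QuotientGroup.mk_mul, QuotientGroup.eq]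
        have h := hcc b a
        have e : (a * b)⁻¹ * (b * a) = b⁻¹ * a⁻¹ * b * a := by group
        rw [e]; exact h }
  let cz : CommGroup (Subgroup.center P) :=
    { (inferInstance : Group (Subgroup.center P)) with
      mul_comm := fun a b => Subtype.ext (Subgroup.mem_center_iff.1 b.2 a) }
  have hV2 : ∀ x : Additive (P ⧸ Subgroup.center P), x + x = 0 := by
    intro x
    obtain ⟨g, hg⟩ := QuotientGroup.mk_surjective x.toMul
    show Additive.ofMul (x.toMul * x.toMul) = Additive.ofMul 1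
    rw [← hg, ← QuotientGroup.mk_mul, (QuotientGroup.eq_one_iff _).2 (hsq g)]
  have hW2 : ∀ x : Additive (Subgroup.center P), x + x = 0 := by
    intro x
    show Additive.ofMul (x.toMul * x.toMul) = Additive.ofMul 1
    congr 1
    exact Subtype.ext ((hZ _).1 x.toMul.2)
  let mV : Module (ZMod 2) (Additive (P ⧸ Subgroup.center P)) :=
    AddCommGroup.zmodModule (n := 2) (fun x => by rw [two_nsmul]; exact hV2 x)
  let mW : Module (ZMod 2) (Additive (Subgroup.center P)) :=
    AddCommGroup.zmodModule (n := 2) (fun x => by rw [two_nsmul]; exact hW2 x)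
  let s : Additive (P ⧸ Subgroup.center P) → Additive (Subgroup.center P) := fun v =>
    Quotient.liftOn' v.toMul (fun g => Additive.ofMul (⟨g * g, hsq g⟩ : Subgroup.center P)) (by
      intro a b hab
      have hab' : a⁻¹ * b ∈ Subgroup.center P := QuotientGroup.leftRel_apply.1 hab
      have hc := Subgroup.mem_center_iff.1 hab' a
      have hzz := (hZ _).1 hab'
      show Additive.ofMul (⟨a * a, hsq a⟩ : Subgroup.center P) = Additive.ofMul ⟨b * b, hsq b⟩
      congr 1
      apply Subtype.ext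
      show a * a = b * b
      have e : b * b = a * a * ((a⁻¹ * b) * (a⁻¹ * b)) := by
        calc b * b = a * ((a⁻¹ * b) * a)⁻¹⁻¹ * (a⁻¹ * b) := by group
          _ = a * (a * (a⁻¹ * b)) * (a⁻¹ * b) := by rw [inv_inv, hc]
          _ = a * a * ((a⁻¹ * b) * (a⁻¹ * b)) := by group
      rw [e, hzz, mul_one])
  have hs_mk : ∀ g : P, s (Additive.ofMul (QuotientGroup.mk g))
      = Additive.ofMul (⟨g * g, hsq g⟩ : Subgroup.center P) := fun g => rfl
  have hccinv : ∀ g h : P, g⁻¹ * h * g * h⁻¹ ∈ Subgroup.center P := by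
    intro g h
    have := hcc g h⁻¹
    rwa [inv_inv] at this
  let c : P → P → Subgroup.center P := fun g h => ⟨g⁻¹ * h * g * h⁻¹, hccinv g h⟩
  have hsqsq : ∀ g : P, (⟨g * g, hsq g⟩ : Subgroup.center P) * ⟨g * g, hsq g⟩ = 1 :=
    fun g => Subtype.ext ((hZ _).1 (hsq g))
  have hmulsq : ∀ g h : P, (⟨(g * h) * (g * h), hsq (g * h)⟩ : Subgroup.center P)
      = ⟨g * g, hsq g⟩ * ⟨h * h, hsq h⟩ * c g h := by
    intro g h
    apply Subtype.ext
    show g * h * (g * h) = g * g * (h * h) * (g⁻¹ * h * g * h⁻¹)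
    have hc := Subgroup.mem_center_iff.1 (hccinv g h) (h * h)
    calc g * h * (g * h) = g * g * ((g⁻¹ * h * g * h⁻¹) * (h * h)) := by group
      _ = g * g * ((h * h) * (g⁻¹ * h * g * h⁻¹)) := by rw [hc]
      _ = g * g * (h * h) * (g⁻¹ * h * g * h⁻¹) := by group
  let B : Additive (P ⧸ Subgroup.center P) → Additive (P ⧸ Subgroup.center P)
      → Additive (Subgroup.center P) := fun v w => s (v + w) + s v + s w
  have hB_mk : ∀ g h : P, B (Additive.ofMul (QuotientGroup.mk g)) (Additive.ofMul (QuotientGroup.mk h))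
      = Additive.ofMul (c g h) := by
    intro g h
    show s (Additive.ofMul (QuotientGroup.mk (g * h))) + s (Additive.ofMul (QuotientGroup.mk g))
      + s (Additive.ofMul (QuotientGroup.mk h)) = Additive.ofMul (c g h)
    rw [hs_mk, hs_mk, hs_mk]
    show Additive.ofMul ((⟨(g * h) * (g * h), hsq (g * h)⟩ : Subgroup.center P)
      * ⟨g * g, hsq g⟩ * ⟨h * h, hsq h⟩) = Additive.ofMul (c g h)
    congr 1
    rw [hmulsq]
    calc (⟨g * g, hsq g⟩ : Subgroup.center P) * ⟨h * h, hsq h⟩ * c g h * ⟨g * g, hsq g⟩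
          * ⟨h * h, hsq h⟩
        = c g h * ((⟨g * g, hsq g⟩ : Subgroup.center P) * ⟨g * g, hsq g⟩)
          * ((⟨h * h, hsq h⟩ : Subgroup.center P) * ⟨h * h, hsq h⟩) := by
          simp only [mul_comm, mul_left_comm, mul_assoc]
      _ = c g h := by rw [hsqsq, hsqsq, mul_one, mul_one]
  have hsurj : ∀ v : Additive (P ⧸ Subgroup.center P), ∃ g : P,
      v = Additive.ofMul (QuotientGroup.mk g) := by
    intro v
    obtain ⟨g, hg⟩ := QuotientGroup.mk_surjective v.toMul
    exact ⟨g, by rw [hg]; rfl⟩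
  have hB1 : ∀ u v w, B (u + v) w = B u w + B v w := by
    intro u v w
    obtain ⟨g, rfl⟩ := hsurj u
    obtain ⟨g', rfl⟩ := hsurj v
    obtain ⟨h, rfl⟩ := hsurj w
    have e : (Additive.ofMul (QuotientGroup.mk g) : Additive (P ⧸ Subgroup.center P))
        + Additive.ofMul (QuotientGroup.mk g') = Additive.ofMul (QuotientGroup.mk (g * g')) := rfl
    rw [e, hB_mk, hB_mk, hB_mk]
    show Additive.ofMul (c (g * g') h) = Additive.ofMul (c g h * c g' h)
    congr 1
    apply Subtype.ext
    show (g * g')⁻¹ * h * (g * g') * h⁻¹ = (g⁻¹ * h * g * h⁻¹) * (g'⁻¹ * h * g' * h⁻¹)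
    have hc := Subgroup.mem_center_iff.1 (hccinv g h) g'⁻¹
    calc (g * g')⁻¹ * h * (g * g') * h⁻¹
        = g'⁻¹ * (g⁻¹ * h * g * h⁻¹) * (h * g' * h⁻¹) := by group
      _ = (g⁻¹ * h * g * h⁻¹) * g'⁻¹ * (h * g' * h⁻¹) := by rw [hc]
      _ = (g⁻¹ * h * g * h⁻¹) * (g'⁻¹ * h * g' * h⁻¹) := by group
  have hB2 : ∀ u v w, B u (v + w) = B u v + B u w := by
    intro u v w
    obtain ⟨g, rfl⟩ := hsurj u
    obtain ⟨h, rfl⟩ := hsurj v
    obtain ⟨h', rfl⟩ := hsurj w
    have e : (Additive.ofMul (QuotientGroup.mk h) : Additive (P ⧸ Subgroup.center P))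
        + Additive.ofMul (QuotientGroup.mk h') = Additive.ofMul (QuotientGroup.mk (h * h')) := rfl
    rw [e, hB_mk, hB_mk, hB_mk]
    show Additive.ofMul (c g (h * h')) = Additive.ofMul (c g h * c g h')
    congr 1
    apply Subtype.ext
    show g⁻¹ * (h * h') * g * (h * h')⁻¹ = (g⁻¹ * h * g * h⁻¹) * (g⁻¹ * h' * g * h'⁻¹)
    have hc := Subgroup.mem_center_iff.1 (hccinv g h') h⁻¹
    have hc2 := Subgroup.mem_center_iff.1 (hccinv g h') (g⁻¹ * h * g)
    calc g⁻¹ * (h * h') * g * (h * h')⁻¹
        = (g⁻¹ * h * g) * (g⁻¹ * h' * g * h'⁻¹) * h⁻¹ := by group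
      _ = (g⁻¹ * h' * g * h'⁻¹) * (g⁻¹ * h * g) * h⁻¹ := by rw [hc2]
      _ = (g⁻¹ * h' * g * h'⁻¹) * (g⁻¹ * h * g * h⁻¹) := by group
      _ = (g⁻¹ * h * g * h⁻¹) * (g⁻¹ * h' * g * h'⁻¹) :=
          (Subgroup.mem_center_iff.1 (hccinv g h') _).symm
  have hs : ∀ v w, s (v + w) = s v + s w + B v w := by
    intro v w
    show s (v + w) = s v + s w + (s (v + w) + s v + s w)
    have e : s v + s w + (s (v + w) + s v + s w) = s (v + w) + ((s v + s v) + (s w + s w)) := by
      abel
    rw [e, hW2, hW2, add_zero, add_zero]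
  have h0 : ∀ v, s v = 0 → v = 0 := by
    intro v hv
    obtain ⟨g, rfl⟩ := hsurj v
    rw [hs_mk] at hv
    have h1 : (⟨g * g, hsq g⟩ : Subgroup.center P) = 1 := hv
    have h2 : g * g = 1 := congrArg Subtype.val h1
    show Additive.ofMul (QuotientGroup.mk g : P ⧸ Subgroup.center P) = Additive.ofMul 1
    rw [(QuotientGroup.eq_one_iff g).2 ((hZ g).2 h2)]
  have key := Cfsg.Agent.Lib.Helper88.QuadBound.finrank_le s B hB1 hB2 hs h0
  have c1 : Nat.card (Additive (P ⧸ Subgroup.center P))
      = 2 ^ Module.finrank (ZMod 2) (Additive (P ⧸ Subgroup.center P)) := by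
    rw [Module.natCard_eq_pow_finrank (K := ZMod 2), Nat.card_zmod]
  have c2 : Nat.card (Additive (Subgroup.center P))
      = 2 ^ Module.finrank (ZMod 2) (Additive (Subgroup.center P)) := by
    rw [Module.natCard_eq_pow_finrank (K := ZMod 2), Nat.card_zmod]
  have c1' : Nat.card (P ⧸ Subgroup.center P)
      = 2 ^ Module.finrank (ZMod 2) (Additive (P ⧸ Subgroup.center P)) := c1
  have c2' : Nat.card (Subgroup.center P)
      = 2 ^ Module.finrank (ZMod 2) (Additive (Subgroup.center P)) := c2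
  rw [c1', c2', ← pow_mul]
  exact Nat.pow_le_pow_right (by norm_num) (by rw [mul_comm]; exact key)

/-- A group of automorphisms acting without fixed points on `P ∖ {1}` has order dividing
`|P| - 1`. -/
theorem card_dvd_of_free {P : Type*} [Group P] [Finite P] (K : Subgroup (MulAut P))
    (hfree : ∀ k ∈ K, ∀ x : P, x ≠ 1 → k x = x → k = 1) :
    Nat.card K ∣ Nat.card P - 1 := by
  classical
  have : Fintype P := Fintype.ofFinite P
  have : Fintype K := Fintype.ofFinite K
  have : Fintype (Quotient (MulAction.orbitRel K P)) := Fintype.ofFinite _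
  have hclass := @MulAction.card_eq_sum_card_group_div_card_stabilizer K P _ _ _ _ _
    (fun b => Fintype.ofFinite _)
  simp only [Fintype.card_eq_nat_card] at hclass
  have hsmul : ∀ (k : K) (x : P), k • x = (k : MulAut P) x := fun k x => rfl
  have hstab1 : ∀ x : P, x ≠ 1 → Nat.card (MulAction.stabilizer K x) = 1 := by
    intro x hx
    rw [Nat.card_eq_one_iff_unique]
    refine ⟨⟨fun a b => ?_⟩, ⟨1⟩⟩
    have ha : (a : K) = 1 := by
      apply Subtype.ext
      exact hfree _ (a : K).2 x hx (by rw [← hsmul]; exact a.2)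
    have hb : (b : K) = 1 := by
      apply Subtype.ext
      exact hfree _ (b : K).2 x hx (by rw [← hsmul]; exact b.2)
    exact Subtype.ext (ha.trans hb.symm)
  have hstab0 : Nat.card (MulAction.stabilizer K (1 : P)) = Nat.card K := by
    have : MulAction.stabilizer K (1 : P) = ⊤ := by
      rw [eq_top_iff]
      intro k _
      rw [MulAction.mem_stabilizer_iff, hsmul, map_one]
    rw [this, Subgroup.card_top]
  let ω₁ : Quotient (MulAction.orbitRel K P) := Quotient.mk _ 1
  have hout : ∀ ω : Quotient (MulAction.orbitRel K P), ω.out = 1 ↔ ω = ω₁ := by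
    intro ω
    constructor
    · intro h
      rw [← Quotient.out_eq ω, h]
    · intro h
      have h1 : Quotient.mk (MulAction.orbitRel K P) ω.out = Quotient.mk _ 1 := by
        rw [Quotient.out_eq, h]
      have h2 := Quotient.exact h1
      have h3 : ω.out ∈ MulAction.orbit K (1 : P) := h2
      obtain ⟨k, hk⟩ := h3
      have hk' : k • (1 : P) = ω.out := hk
      rw [← hk', hsmul, map_one]
  have hKpos : 0 < Nat.card K := Nat.card_pos
  rw [← Finset.add_sum_erase Finset.univ _ (Finset.mem_univ ω₁)] at hclass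
  have h1 : Nat.card K / Nat.card (MulAction.stabilizer K ω₁.out) = 1 := by
    rw [(hout ω₁).2 rfl, hstab0, Nat.div_self hKpos]
  have h2 : ∑ ω ∈ Finset.univ.erase ω₁, Nat.card K / Nat.card (MulAction.stabilizer K ω.out)
      = (Finset.univ.erase ω₁).card * Nat.card K := by
    rw [Finset.sum_congr rfl (g := fun _ => Nat.card K), Finset.sum_const, smul_eq_mul]
    intro ω hω
    have hne : ω.out ≠ 1 := fun h => (Finset.ne_of_mem_erase hω) ((hout ω).1 h)
    rw [hstab1 _ hne, Nat.div_one]
  rw [h1, h2] at hclass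
  exact ⟨(Finset.univ.erase ω₁).card, by rw [hclass]; simp [mul_comm]⟩

open Cfsg.Agent.Lib.Helper63.Suzuki2 in
/-- `|K| + 1 = |Z(P)|` for a regular action on the involutions. -/
theorem card_K {P : Type*} [Group P] [Finite P] {K : Subgroup (MulAut P)} (hS : Setup P K)
    (hZ : ∀ x : P, x ∈ Subgroup.center P ↔ x * x = 1) (z₀ : P) (hz₀ : z₀ ∈ Subgroup.center P)
    (hz₀1 : z₀ ≠ 1) : Nat.card K + 1 = Nat.card (Subgroup.center P) := by
  classical
  have hcen : ∀ (k : MulAut P) (z : P), z ∈ Subgroup.center P → k z ∈ Subgroup.center P := by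
    intro k z hz
    rw [hZ] at hz ⊢
    rw [← map_mul, hz, map_one]
  let f : Option K → Subgroup.center P := fun o =>
    match o with
    | none => 1
    | some k => ⟨(k : MulAut P) z₀, hcen _ _ hz₀⟩
  have hinj : Function.Injective f := by
    intro a b hab
    match a, b with
    | none, none => rfl
    | none, some k =>
      exfalso
      have h : (1 : P) = (k : MulAut P) z₀ := congrArg Subtype.val hab
      have h2 : (k : MulAut P) z₀ = (k : MulAut P) 1 := by rw [map_one]; exact h.symm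
      exact hz₀1 ((k : MulAut P).injective h2)
    | some k, none =>
      exfalso
      have h : (k : MulAut P) z₀ = (1 : P) := congrArg Subtype.val hab
      have h2 : (k : MulAut P) z₀ = (k : MulAut P) 1 := by rw [map_one]; exact h
      exact hz₀1 ((k : MulAut P).injective h2)
    | some k, some k' =>
      have h : (k : MulAut P) z₀ = (k' : MulAut P) z₀ := congrArg Subtype.val hab
      have h2 : ((k' : MulAut P)⁻¹ * (k : MulAut P)) z₀ = z₀ := by
        rw [MulAut.mul_apply, h, MulAut.inv_apply_self]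
      have h3 := hS.free _ (K.mul_mem (K.inv_mem k'.2) k.2) z₀ hz₀1 ((hZ _).1 hz₀) h2
      have h4 : (k : MulAut P) = k' := by
        have := congrArg (fun t => (k' : MulAut P) * t) h3
        simpa using this
      rw [Subtype.ext h4]
  have hsurj : Function.Surjective f := by
    rintro ⟨z, hz⟩
    by_cases hz1 : z = 1
    · exact ⟨none, Subtype.ext hz1.symm⟩
    · obtain ⟨k, hk, hkz⟩ := hS.reg z₀ z hz₀1 ((hZ _).1 hz₀) hz1 ((hZ _).1 hz)
      exact ⟨some ⟨k, hk⟩, Subtype.ext hkz⟩
  have h := Nat.card_congr (Equiv.ofBijective f ⟨hinj, hsurj⟩)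
  have : Fintype K := Fintype.ofFinite K
  have e1 : Nat.card (Option K) = Nat.card K + 1 := by
    rw [Nat.card_eq_fintype_card, Nat.card_eq_fintype_card, Fintype.card_option]
  rw [← h, e1]

open Cfsg.Agent.Lib.Helper63.Suzuki2 in
/-- The order of a Suzuki 2-group is the square or the cube of the order of its centre. -/
theorem card_eq {P : Type*} [Group P] [Finite P] {K : Subgroup (MulAut P)} (hS : Setup P K)
    (hP : IsPGroup 2 P) (hZ : ∀ x : P, x ∈ Subgroup.center P ↔ x * x = 1)
    (hsq : ∀ x : P, x * x ∈ Subgroup.center P)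
    (hcc : ∀ x y : P, x⁻¹ * y⁻¹ * x * y ∈ Subgroup.center P)
    (hnc : ∃ a b : P, a * b ≠ b * a) (hfree : ∀ k ∈ K, ∀ x : P, x ≠ 1 → k x = x → k = 1) :
    Nat.card P = Nat.card (Subgroup.center P) ^ 2 ∨
      Nat.card P = Nat.card (Subgroup.center P) ^ 3 := by
  classical
  have hfact : Fact (Nat.Prime 2) := ⟨Nat.prime_two⟩
  obtain ⟨N, hN⟩ := IsPGroup.iff_card.1 hP
  obtain ⟨n, hn⟩ := IsPGroup.iff_card.1 (hP.to_subgroup (Subgroup.center P))
  -- a non-trivial central element
  have hnt : Nontrivial P := by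
    obtain ⟨a, b, hab⟩ := hnc
    exact ⟨⟨a, b, fun h => hab (by rw [h])⟩⟩
  have hcnt : Nontrivial (Subgroup.center P) := hP.center_nontrivial
  obtain ⟨⟨z₀, hz₀⟩, hz₀1⟩ := exists_ne (1 : Subgroup.center P)
  have hz₀1' : z₀ ≠ 1 := fun h => hz₀1 (Subtype.ext h)
  have hK := card_K hS hZ z₀ hz₀ hz₀1'
  have hdvd := card_dvd_of_free K hfree
  rw [hN] at hdvd
  rw [hn] at hK
  have hKc : Nat.card K = 2 ^ n - 1 := by omega
  rw [hKc] at hdvd
  have hn1 : 1 ≤ n := by
    by_contra h
    have h0 : n = 0 := by omega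
    rw [h0, pow_zero] at hK
    have : 0 < Nat.card K := Nat.card_pos
    omega
  have hnN : n ∣ N := by
    have h1 := Nat.pow_sub_one_gcd_pow_sub_one 2 n N
    rw [Nat.gcd_eq_left hdvd] at h1
    have h2 : 1 ≤ 2 ^ n := Nat.one_le_two_pow
    have h3 : 1 ≤ 2 ^ (Nat.gcd n N) := Nat.one_le_two_pow
    have h4 : 2 ^ n = 2 ^ (Nat.gcd n N) := by omega
    have h5 : n = Nat.gcd n N := Nat.pow_right_injective (le_refl 2) h4
    rw [h5]
    exact Nat.gcd_dvd_right n N
  have hlag := Subgroup.card_eq_card_quotient_mul_card_subgroup (Subgroup.center P)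
  have hcw := card_quot_le hZ hsq hcc
  have hlt : n < N := by
    have h1 : Nat.card (Subgroup.center P) ≠ Nat.card P := by
      intro h
      have htop := Subgroup.eq_top_of_card_eq _ h
      obtain ⟨a, b, hab⟩ := hnc
      have hb : b ∈ Subgroup.center P := by rw [htop]; exact Subgroup.mem_top b
      exact hab (Subgroup.mem_center_iff.1 hb a)
    have h2 : Nat.card (Subgroup.center P) ≤ Nat.card P := Subgroup.card_le_card_group _
    rw [hn, hN] at h1 h2
    have h3 : n ≤ N := (Nat.pow_le_pow_iff_right (by norm_num)).1 h2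
    rcases Nat.lt_or_ge n N with h | h
    · exact h
    · exact absurd (by rw [le_antisymm h3 h]) h1
  have hle : N ≤ 3 * n := by
    have h1 : Nat.card P ≤ Nat.card (Subgroup.center P) ^ 2 * Nat.card (Subgroup.center P) := by
      rw [hlag]
      exact Nat.mul_le_mul_right _ hcw
    rw [hn, hN, ← pow_mul, ← pow_add] at h1
    have h2 := (Nat.pow_le_pow_iff_right (by norm_num : 1 < 2)).1 h1
    omega
  obtain ⟨r, hr⟩ := hnN
  have hr2 : r = 2 ∨ r = 3 := by
    have h1 : 1 < r := by
      by_contra h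
      have : r ≤ 1 := by omega
      have : n * r ≤ n * 1 := Nat.mul_le_mul_left n this
      omega
    have h2 : r ≤ 3 := by
      by_contra h
      have : 4 ≤ r := by omega
      have : n * 4 ≤ n * r := Nat.mul_le_mul_left n this
      omega
    omega
  rw [hN, hn, ← pow_mul, ← pow_mul, hr]
  rcases hr2 with h | h
  · left; rw [h]
  · right; rw [h]

end Cfsg.Agent.Lib.Helper88.SuzOrd
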