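import Cfsg.Agent.Lib.Helper88.VFStmt

/-!
Assembly for S5286 from the pieces of `VFStmt`.
-/

set_option autoImplicit false

namespace Cfsg.Agent.Lib.Helper88.VFAsm

open Cfsg Cfsg.Agent.Lib.Helper88.VFDefs Cfsg.Agent.Lib.Helper88.VFStmt

universe u

theorem lam_injective {Ω : Type u} [Group Ω] (S : Subgroup Ω) : Function.Injective (lam S) := by
  intro a b h
  have h1 := congrArg (fun f : Equiv.Perm S => f 1) h
  simpa [lam_apply] using h1

theorem asm (hFree : FreeP.{u}) (hSub : SubgP.{u}) (hGens : GensP.{u}) (hChain : ChainP.{u})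
    (hFin : FinConjP.{u}) (hEqv : EqvP.{u}) (hCB : CBaseP.{u}) (hCF : CFwdP.{u})
    (hCW : CBwdP.{u}) {Ω : Type u} [Group Ω] {S : Subgroup Ω} [Finite S]
    (F : Cfsg.FusionSystem S) :
    ∃ (G : Type u) (_ : Group G) (ι : ↥S →* G), F.IsRealizedBy ι ∧
      (∀ H : Subgroup G, Finite ↥H → ∃ g : G, ∀ h ∈ H, g * h * g⁻¹ ∈ ι.range) ∧
      ∃ N : Subgroup G, N.Normal ∧ IsFreeGroup ↥N ∧ N.index ∣ (Nat.card ↥S).factorial := by
  classical
  have hex : ∀ i : Idx F, ∃ σ : Equiv.Perm S, ∀ u : i.1,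
      σ * lam S ⟨u, (F.le_of_mem i.2.2).1 u.2⟩ = lam S ⟨i.2.1 u, (F.le_of_mem i.2.2).2 u⟩ * σ :=
    fun i => hEqv i.1 (F.le_of_mem i.2.2).1 i.2.1 (F.le_of_mem i.2.2).2
      (F.injective_of_mem i.2.2)
  choose sg hsg using hex
  have hSg : SgOK F sg := hsg
  have h1 : H1 (lam S).range (QF F) := fun i => Subgroup.map_le_range _ _
  have h2 : H2 (lam S).range (QF F) sg := by
    intro i q hq
    obtain ⟨s, hs, rfl⟩ := hq
    rw [SetLike.mem_coe, Subgroup.mem_subgroupOf] at hs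
    obtain ⟨u, hu⟩ := hs
    have e1 : lam S s = lam S ⟨i.2.1 u, (F.le_of_mem i.2.2).2 u⟩ := by
      congr 1
      exact Subtype.ext hu.symm
    rw [e1, mul_assoc, ← hsg i u, inv_mul_cancel_left]
    exact ⟨_, rfl⟩
  obtain ⟨Gp, hGp⟩ := hSub (lam S).range (QF F) sg
  obtain ⟨hg1, hg2, hg3⟩ := hGens (lam S).range (QF F) sg
  have hι : ∀ s : S, (⟨1, lam S s⟩ : Ghat (QF F)) ∈ Gp := fun s => (hGp _).2 (hg1 _ ⟨s, rfl⟩)
  let ι : S →* Gp :=
    { toFun := fun s => ⟨⟨1, lam S s⟩, hι s⟩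
      map_one' := by
        apply Subtype.ext
        apply SemidirectProduct.ext
        · rfl
        · exact map_one (lam S)
      map_mul' := by
        intro a b
        apply Subtype.ext
        apply SemidirectProduct.ext
        · simp
        · simp }
  have hιv : ∀ s : S, ((ι s : Gp) : Ghat (QF F)) = ⟨1, lam S s⟩ := fun s => rfl
  refine ⟨Gp, inferInstance, ι, ⟨?_, ?_⟩, ?_, ?_⟩
  · intro a b hab
    have h := congrArg (fun g : Gp => (g : Ghat (QF F)).right) hab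
    exact lam_injective S h
  · intro P hP φ hφ
    constructor
    · intro hφF
      refine ⟨⟨_, (hGp _).2 (hg2 ⟨P, φ, hφF⟩)⟩, fun x => ?_⟩
      rw [eq_mul_inv_iff_mul_eq]
      apply Subtype.ext
      have hmem : lam S ⟨φ x, hφ x⟩ ∈ QF F ⟨P, φ, hφF⟩ := by
        refine ⟨⟨φ x, hφ x⟩, ?_, rfl⟩
        rw [SetLike.mem_coe, Subgroup.mem_subgroupOf]
        exact ⟨x, rfl⟩
      exact (hg3 ⟨P, φ, hφF⟩ (lam S ⟨x, hP x.2⟩) (lam S ⟨φ x, hφ x⟩) hmem
        (hsg ⟨P, φ, hφF⟩ x)).symm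
    · rintro ⟨g, hg⟩
      have hgm := (hGp _).1 g.2
      have hC := hChain (lam S).range (QF F) sg h1 h2 (CF F) (hCB F).1 (hCB F).2
        (fun R i a h => ⟨hCF F sg hSg R i a h, hCW F sg hSg R i a h⟩) g hgm
        (Subgroup.comap (act (QF F))
          (MulAction.stabilizer (MulAut (FreeGroup (Y (QF F)))) (g : Ghat (QF F)).left))
        (fun r hr => hr)
      have key : ∀ x : P, (⟨1, lam S ⟨φ x, hφ x⟩⟩ : Ghat (QF F)) * (g : Ghat (QF F)) =
          (g : Ghat (QF F)) * ⟨1, lam S ⟨x, hP x.2⟩⟩ := by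
        intro x
        have h := hg x
        rw [eq_mul_inv_iff_mul_eq] at h
        have h' := congrArg (fun y : Gp => (y : Ghat (QF F))) h
        exact h'
      refine hC P hP φ hφ (fun x => ?_) (fun x => ?_)
      · have h' := congrArg (fun y : Ghat (QF F) => y.left) (key x)
        simp only [SemidirectProduct.mul_left, one_mul, map_one, mul_one] at h'
        exact h'
      · have h' := congrArg (fun y : Ghat (QF F) => y.right) (key x)
        simp only [SemidirectProduct.mul_right] at h'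
        exact h'.symm
  · intro H hHfin
    have hfin : Finite (H.map Gp.subtype) := by
      have := Set.Finite.image Gp.subtype (Set.toFinite (H : Set Gp))
      exact this.to_subtype
    obtain ⟨g₀, hg₀, hconj⟩ := hFin (lam S).range (QF F) sg h1 h2 (H.map Gp.subtype)
      (by rintro _ ⟨h, -, rfl⟩; exact (hGp _).1 h.2)
    refine ⟨(⟨g₀, (hGp _).2 hg₀⟩ : Gp)⁻¹, fun h hh => ?_⟩
    obtain ⟨hl, hr⟩ := hconj (h : Ghat (QF F)) ⟨h, hh, rfl⟩
    obtain ⟨s, hs⟩ := hr
    refine ⟨s, Subtype.ext ?_⟩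
    rw [hιv]
    simp only [inv_inv, Subgroup.coe_mul, Subgroup.coe_inv]
    apply SemidirectProduct.ext
    · exact hl.symm
    · exact hs
  · obtain ⟨N, hN, hfree, hidx⟩ := hFree (act (QF F)) Gp
    refine ⟨N, hN, hfree, ?_⟩
    rwa [Nat.card_perm] at hidx

end Cfsg.Agent.Lib.Helper88.VFAsm
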