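import Mathlib
import Cfsg.Prelude.Def_FusionSystem

/-!
Definitions for S5286 (every fusion system is realized by a virtually free group).

Generic data: a group `K`, a subgroup `S₀`, a family `Q i` of subgroups and elements `sg i`.
Graph: vertices `K ⧸ S₀`, edges `Y Q = Σ i, K ⧸ Q i`; the edge `⟨i, a Q_i⟩` goes from `a S₀`
to `a (sg i) S₀`.  `K` permutes the edges, hence acts on `FreeGroup (Y Q)`; the group of the
construction is the set `PiSet` of those `(w, k)` in `FreeGroup (Y Q) ⋊ K` such that `w` is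
the word of a path from `S₀` to `k S₀`.
-/

set_option autoImplicit false

namespace Cfsg.Agent.Lib.Helper88.VFDefs

universe u

section generic

variable {K : Type u} [Group K] (S₀ : Subgroup K) {I : Type u} (Q : I → Subgroup K) (sg : I → K)

/-- The edges. -/
abbrev Y {K : Type u} [Group K] {I : Type u} (Q : I → Subgroup K) : Type u := Σ i : I, K ⧸ Q i

/-- `Edge y v v'`: the edge `y` goes from the vertex `v` to the vertex `v'`. -/
def Edge (y : Y Q) (v v' : K ⧸ S₀) : Prop :=
  ∃ (i : I) (a : K), y = ⟨i, (a : K ⧸ Q i)⟩ ∧ v = (a : K ⧸ S₀) ∧ v' = ((a * sg i : K) : K ⧸ S₀)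

/-- `IsPath v L v'`: the word `L` (letters = edges with a sign, `true` = forward) is an edge
path from `v` to `v'`. -/
def IsPath : K ⧸ S₀ → List (Y Q × Bool) → K ⧸ S₀ → Prop
  | v, [], v' => v = v'
  | v, (y, true) :: L, v' => ∃ v₁, Edge S₀ Q sg y v v₁ ∧ IsPath v₁ L v'
  | v, (y, false) :: L, v' => ∃ v₁, Edge S₀ Q sg y v₁ v ∧ IsPath v₁ L v'

/-- Unfolding lemmas of `IsPath`, stated here so that the equation lemmas of `IsPath` are
generated once, in this file. -/
theorem isPath_nil (v v' : K ⧸ S₀) : IsPath S₀ Q sg v [] v' = (v = v') := by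
  rw [IsPath.eq_1]

theorem isPath_cons_true (y : Y Q) (L : List (Y Q × Bool)) (v v' : K ⧸ S₀) :
    IsPath S₀ Q sg v ((y, true) :: L) v' =
      ∃ v₁, Edge S₀ Q sg y v v₁ ∧ IsPath S₀ Q sg v₁ L v' := by
  rw [IsPath.eq_2]

theorem isPath_cons_false (y : Y Q) (L : List (Y Q × Bool)) (v v' : K ⧸ S₀) :
    IsPath S₀ Q sg v ((y, false) :: L) v' =
      ∃ v₁, Edge S₀ Q sg y v₁ v ∧ IsPath S₀ Q sg v₁ L v' := by
  rw [IsPath.eq_3]

theorem isPath_unfold_cite (v v' : K ⧸ S₀) : IsPath S₀ Q sg v [] v' → v = v' := by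
  intro h
  rw [IsPath.eq_def] at h
  exact h

/-- `K` acts on the free group on the edges by permuting the edges. -/
noncomputable def act : K →* MulAut (FreeGroup (Y Q)) where
  toFun k := FreeGroup.freeGroupCongr (MulAction.toPerm k)
  map_one' := by
    apply MulEquiv.ext
    intro w
    induction w using FreeGroup.induction_on with
    | C1 => simp
    | of x => simp
    | inv_of x ih => simp
    | mul x y hx hy => simp only [map_mul, hx, hy]
  map_mul' k k' := by
    apply MulEquiv.ext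
    intro w
    induction w using FreeGroup.induction_on with
    | C1 => simp
    | of x => simp [mul_smul]
    | inv_of x ih => simp [mul_smul]
    | mul x y hx hy => simp only [map_mul, hx, hy]

theorem act_of (k : K) (y : Y Q) : act Q k (FreeGroup.of y) = FreeGroup.of (k • y) := by
  simp [act]

theorem act_eq (k : K) : act Q k = FreeGroup.freeGroupCongr (MulAction.toPerm k) := rfl

/-- The ambient group `FreeGroup (Y Q) ⋊ K`. -/
abbrev Ghat {K : Type u} [Group K] {I : Type u} (Q : I → Subgroup K) : Type u :=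
  FreeGroup (Y Q) ⋊[act Q] K

/-- The elements `(w, k)` with `w` the word of a path from `S₀` to `k S₀`. -/
def PiSet : Set (Ghat Q) :=
  {g | ∃ L : List (Y Q × Bool), FreeGroup.mk L = g.left ∧
    IsPath S₀ Q sg ((1 : K) : K ⧸ S₀) L ((g.right : K) : K ⧸ S₀)}

/-- Hypothesis 1: `Q i ≤ S₀`. -/
def H1 : Prop := ∀ i, Q i ≤ S₀

/-- Hypothesis 2: `(sg i)⁻¹ (Q i) (sg i) ≤ S₀`. -/
def H2 : Prop := ∀ i, ∀ q ∈ Q i, (sg i)⁻¹ * q * sg i ∈ S₀

end generic

section fusion

open Cfsg

variable {Ω : Type u} [Group Ω] {S : Subgroup Ω}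

/-- The left regular representation of `S`. -/
def lam (S : Subgroup Ω) : S →* Equiv.Perm S := MulAction.toPermHom S S

theorem lam_apply (s x : S) : lam S s x = s * x := rfl

/-- The index set: all maps of the system. -/
abbrev Idx (F : FusionSystem S) : Type u := Σ P : Subgroup Ω, {φ : P →* Ω // φ ∈ F.Hom P}

/-- `Q i`: the image under `lam` of the image of the `i`-th map. -/
def QF (F : FusionSystem S) (i : Idx F) : Subgroup (Equiv.Perm S) :=
  Subgroup.map (lam S) ((i.2.1.range).subgroupOf S)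

/-- `sg i` realizes the `i`-th map through `lam`. -/
def SgOK (F : FusionSystem S) (sg : Idx F → Equiv.Perm S) : Prop :=
  ∀ (i : Idx F) (u : i.1), sg i * lam S ⟨u, (F.le_of_mem i.2.2).1 u.2⟩ =
    lam S ⟨i.2.1 u, (F.le_of_mem i.2.2).2 u⟩ * sg i

/-- `CF F R b`: every homomorphism `ψ : P → S` whose image (through `lam`) lies in `R` and which
is realized by `b` through `lam` is a map of the system. -/
def CF (F : FusionSystem S) (R : Subgroup (Equiv.Perm S)) (b : Equiv.Perm S) : Prop :=
  ∀ (P : Subgroup Ω) (hP : P ≤ S) (ψ : P →* Ω) (hψ : ∀ x : P, ψ x ∈ S),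
    (∀ x : P, lam S ⟨ψ x, hψ x⟩ ∈ R) →
    (∀ x : P, b * lam S ⟨x, hP x.2⟩ = lam S ⟨ψ x, hψ x⟩ * b) → ψ ∈ F.Hom P

end fusion

end Cfsg.Agent.Lib.Helper88.VFDefs
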