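import Cfsg.Agent.Lib.Helper88.VFStmt

set_option autoImplicit false

namespace Cfsg.Agent.Lib.Helper88.VFGENS

open Cfsg Cfsg.Agent.Lib.Helper88.VFDefs Cfsg.Agent.Lib.Helper88.VFStmt

universe u

theorem main : GensP.{u} := by
  intro K _ S₀ I Q sg
  refine ⟨?_, ?_, ?_⟩
  · intro s hs
    refine ⟨[], rfl, ?_⟩
    show ((1 : K) : K ⧸ S₀) = ((s : K) : K ⧸ S₀)
    rw [QuotientGroup.eq]
    simpa using hs
  · intro i
    refine ⟨[(⟨i, ((1 : K) : K ⧸ Q i)⟩, true)], rfl, ?_⟩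
    refine ⟨_, ⟨i, 1, rfl, rfl, rfl⟩, ?_⟩
    show ((1 * sg i : K) : K ⧸ S₀) = ((sg i : K) : K ⧸ S₀)
    rw [one_mul]
  · intro i p q hq h
    apply SemidirectProduct.ext
    · simp only [SemidirectProduct.mul_left, map_one, mul_one, one_mul]
      rw [act_of]
      congr 1
      show (⟨i, ((1 : K) : K ⧸ Q i)⟩ : Y Q) = ⟨i, ((q * 1 : K) : K ⧸ Q i)⟩
      congr 1
      rw [QuotientGroup.eq]
      simpa using hq
    · simp only [SemidirectProduct.mul_right]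
      exact h

end Cfsg.Agent.Lib.Helper88.VFGENS
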