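import Cfsg.Agent.Lib.Helper88.VFStmt

set_option autoImplicit false

namespace Cfsg.Agent.Lib.Helper88.VFRED

open Cfsg Cfsg.Agent.Lib.Helper88.VFDefs Cfsg.Agent.Lib.Helper88.VFStmt

universe u

variable {K : Type u} [Group K] (S₀ : Subgroup K) {I : Type u} (Q : I → Subgroup K) (sg : I → K)

theorem edge_fun (h1 : H1 S₀ Q) (h2 : H2 S₀ Q sg) (y : Y Q) (v v' w w' : K ⧸ S₀)
    (h : Edge S₀ Q sg y v v') (h' : Edge S₀ Q sg y w w') : v = w ∧ v' = w' := by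
  obtain ⟨i, a, rfl, rfl, rfl⟩ := h
  obtain ⟨i', a', hy, rfl, rfl⟩ := h'
  obtain ⟨rfl, hh⟩ := Sigma.mk.inj_iff.1 hy
  have hq : a⁻¹ * a' ∈ Q i := QuotientGroup.eq.1 (eq_of_heq hh)
  refine ⟨QuotientGroup.eq.2 (h1 i hq), QuotientGroup.eq.2 ?_⟩
  have := h2 i _ hq
  have e : (a * sg i)⁻¹ * (a' * sg i) = (sg i)⁻¹ * (a⁻¹ * a') * sg i := by group
  rw [e]
  exact this

theorem isPath_cancel (h1 : H1 S₀ Q) (h2 : H2 S₀ Q sg) (x : Y Q) (b : Bool)
    (L₂ : List (Y Q × Bool)) : ∀ (L₁ : List (Y Q × Bool)) (v v' : K ⧸ S₀),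
    IsPath S₀ Q sg v (L₁ ++ (x, b) :: (x, !b) :: L₂) v' → IsPath S₀ Q sg v (L₁ ++ L₂) v'
  | [], v, v', h => by
      cases b with
      | true =>
        obtain ⟨v₁, he, v₂, he', hp⟩ := h
        have := (edge_fun S₀ Q sg h1 h2 x v v₁ v₂ v₁ he he').1
        subst this
        exact hp
      | false =>
        obtain ⟨v₁, he, v₂, he', hp⟩ := h
        have := (edge_fun S₀ Q sg h1 h2 x v₁ v v₁ v₂ he he').2
        subst this
        exact hp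
  | (y, true) :: L₁, v, v', h => by
      obtain ⟨v₁, he, hp⟩ := h
      exact ⟨v₁, he, isPath_cancel h1 h2 x b L₂ L₁ v₁ v' hp⟩
  | (y, false) :: L₁, v, v', h => by
      obtain ⟨v₁, he, hp⟩ := h
      exact ⟨v₁, he, isPath_cancel h1 h2 x b L₂ L₁ v₁ v' hp⟩

theorem isPath_red (h1 : H1 S₀ Q) (h2 : H2 S₀ Q sg) (L L' : List (Y Q × Bool))
    (hr : FreeGroup.Red L L') (v v' : K ⧸ S₀) (h : IsPath S₀ Q sg v L v') :
    IsPath S₀ Q sg v L' v' := by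
  induction hr with
  | refl => exact h
  | tail _ hstep ih =>
    cases hstep with
    | not => exact isPath_cancel S₀ Q sg h1 h2 _ _ _ _ v v' ih

theorem main : RedP.{u} := by
  intro K _ S₀ I Q sg _ h1 h2 g hg
  obtain ⟨L, hL, hp⟩ := hg
  rw [← hL, FreeGroup.toWord_mk]
  exact isPath_red S₀ Q sg h1 h2 L _ FreeGroup.reduce.red _ _ hp

end Cfsg.Agent.Lib.Helper88.VFRED
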