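import Cfsg.Agent.Lib.Helper88.VFStmt

set_option autoImplicit false

namespace Cfsg.Agent.Lib.Helper88.VFSUBG

open Cfsg Cfsg.Agent.Lib.Helper88.VFDefs Cfsg.Agent.Lib.Helper88.VFStmt

universe u

variable {K : Type u} [Group K] (S₀ : Subgroup K) {I : Type u} (Q : I → Subgroup K) (sg : I → K)

theorem isPath_append : ∀ (L L' : List (Y Q × Bool)) (v v' v'' : K ⧸ S₀),
    IsPath S₀ Q sg v L v' → IsPath S₀ Q sg v' L' v'' → IsPath S₀ Q sg v (L ++ L') v''
  | [], L', v, v', v'', h, h' => by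
      have : v = v' := h
      subst this
      exact h'
  | (y, true) :: L, L', v, v', v'', h, h' => by
      obtain ⟨v₁, he, hp⟩ := h
      exact ⟨v₁, he, isPath_append L L' v₁ v' v'' hp h'⟩
  | (y, false) :: L, L', v, v', v'', h, h' => by
      obtain ⟨v₁, he, hp⟩ := h
      exact ⟨v₁, he, isPath_append L L' v₁ v' v'' hp h'⟩

theorem edge_smul (k : K) (y : Y Q) (v v' : K ⧸ S₀) (h : Edge S₀ Q sg y v v') :
    Edge S₀ Q sg (k • y) (k • v) (k • v') := by
  obtain ⟨i, a, rfl, rfl, rfl⟩ := h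
  exact ⟨i, k * a, rfl, rfl, by rw [mul_assoc]; rfl⟩

theorem isPath_smul (k : K) : ∀ (L : List (Y Q × Bool)) (v v' : K ⧸ S₀),
    IsPath S₀ Q sg v L v' →
      IsPath S₀ Q sg (k • v) (L.map (fun x => (k • x.1, x.2))) (k • v')
  | [], v, v', h => by
      have : v = v' := h
      subst this
      exact rfl
  | (y, true) :: L, v, v', h => by
      obtain ⟨v₁, he, hp⟩ := h
      exact ⟨k • v₁, edge_smul S₀ Q sg k y v v₁ he, isPath_smul k L v₁ v' hp⟩
  | (y, false) :: L, v, v', h => by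
      obtain ⟨v₁, he, hp⟩ := h
      exact ⟨k • v₁, edge_smul S₀ Q sg k y v₁ v he, isPath_smul k L v₁ v' hp⟩

theorem isPath_invRev : ∀ (L : List (Y Q × Bool)) (v v' : K ⧸ S₀),
    IsPath S₀ Q sg v L v' → IsPath S₀ Q sg v' (FreeGroup.invRev L) v
  | [], v, v', h => by
      have : v = v' := h
      subst this
      exact rfl
  | (y, true) :: L, v, v', h => by
      obtain ⟨v₁, he, hp⟩ := h
      have h1 := isPath_invRev L v₁ v' hp
      have h2 : IsPath S₀ Q sg v₁ [(y, false)] v := ⟨v, he, rfl⟩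
      have := isPath_append S₀ Q sg _ _ _ _ _ h1 h2
      simpa [FreeGroup.invRev] using this
  | (y, false) :: L, v, v', h => by
      obtain ⟨v₁, he, hp⟩ := h
      have h1 := isPath_invRev L v₁ v' hp
      have h2 : IsPath S₀ Q sg v₁ [(y, true)] v := ⟨v, he, rfl⟩
      have := isPath_append S₀ Q sg _ _ _ _ _ h1 h2
      simpa [FreeGroup.invRev] using this

theorem act_mk (k : K) (L : List (Y Q × Bool)) :
    act Q k (FreeGroup.mk L) = FreeGroup.mk (L.map (fun x => (k • x.1, x.2))) := by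
  rw [act_eq]
  show FreeGroup.map _ (FreeGroup.mk L) = _
  rw [FreeGroup.map.mk]
  rfl

theorem main : SubgP.{u} := by
  intro K _ S₀ I Q sg
  refine ⟨{ carrier := PiSet S₀ Q sg
            mul_mem' := ?_
            one_mem' := ?_
            inv_mem' := ?_ }, fun g => Iff.rfl⟩
  · rintro g g' ⟨L, hL, hp⟩ ⟨L', hL', hp'⟩
    refine ⟨L ++ L'.map (fun x => (g.right • x.1, x.2)), ?_, ?_⟩
    · rw [SemidirectProduct.mul_left, ← hL, ← hL', act_mk, ← FreeGroup.mul_mk]
    · have h2 := isPath_smul S₀ Q sg g.right L' _ _ hp'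
      have e1 : g.right • (((1 : K) : K ⧸ S₀)) = ((g.right : K) : K ⧸ S₀) := by
        show (((g.right * 1 : K)) : K ⧸ S₀) = _
        rw [mul_one]
      have e2 : g.right • (((g'.right : K) : K ⧸ S₀)) = (((g * g').right : K) : K ⧸ S₀) := rfl
      rw [e1, e2] at h2
      exact isPath_append S₀ Q sg _ _ _ _ _ hp h2
  · exact ⟨[], rfl, rfl⟩
  · rintro g ⟨L, hL, hp⟩
    refine ⟨(FreeGroup.invRev L).map (fun x => (g.right⁻¹ • x.1, x.2)), ?_, ?_⟩
    · rw [SemidirectProduct.inv_left, ← hL, FreeGroup.inv_mk, act_mk]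
    · have h1 := isPath_invRev S₀ Q sg L _ _ hp
      have h2 := isPath_smul S₀ Q sg g.right⁻¹ _ _ _ h1
      have e1 : g.right⁻¹ • (((g.right : K) : K ⧸ S₀)) = ((1 : K) : K ⧸ S₀) := by
        show (((g.right⁻¹ * g.right : K)) : K ⧸ S₀) = _
        rw [inv_mul_cancel]
      have e2 : g.right⁻¹ • (((1 : K) : K ⧸ S₀)) = (((g⁻¹).right : K) : K ⧸ S₀) := by
        show (((g.right⁻¹ * 1 : K)) : K ⧸ S₀) = _
        rw [mul_one]
        rfl
      rw [e1, e2] at h2
      exact h2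

end Cfsg.Agent.Lib.Helper88.VFSUBG
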